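import Cfsg.Agent.TwoDer.SysMap
import Mathlib.Algebra.BigOperators.Group.Finset.Sigma

/-!
# The average of the conjugates of an inverting involution
-/

set_option autoImplicit false
set_option linter.unusedSectionVars false
set_option linter.style.haveILetI false

namespace Cfsg.Agent.TwoDer

open Module LinearMap Cfsg.Agent.Gross

variable {q : ℕ} [Fact q.Prime] {F : Type*} [Field F] [CharP F 2]

theorem natCast_card_eq_one (hq : q ≠ 2) (M : Type*) [AddCommGroup M] [Module (ZMod q) M]
    [FiniteDimensional (ZMod q) M] [Fintype M] : ((Fintype.card M : ℕ) : F) = 1 := by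
  haveI : NeZero q := ⟨(Fact.out : q.Prime).ne_zero⟩
  rw [← Nat.card_eq_fintype_card, Module.natCard_eq_pow_finrank (K := ZMod q), Nat.card_zmod, Nat.cast_pow]
  have h1 : (q : F) = 1 := by
    obtain ⟨r, hr⟩ := (Fact.out : q.Prime).odd_of_ne_two hq
    rw [hr, Nat.cast_add, Nat.cast_mul, CharP.cast_eq_zero F 2, zero_mul, zero_add, Nat.cast_one]
  rw [h1, one_pow]

theorem sum_zeta_pow {ζ : F} (hζ : IsPrimitiveRoot ζ q) {M : Type*} [AddCommGroup M] [Module (ZMod q) M]
    [Fintype M] (f : M →ₗ[ZMod q] ZMod q) {u : M} (hu : f u ≠ 0) :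
    ∑ x : M, ζ ^ (f x).val = 0 := by
  haveI : NeZero q := ⟨(Fact.out : q.Prime).ne_zero⟩
  have hmul : ∀ i j : ZMod q, ζ ^ (i + j).val = ζ ^ i.val * ζ ^ j.val := fun i j => by
    rw [ZMod.val_add, ← pow_add, ← pow_eq_pow_mod _ hζ.pow_eq_one]
  have h1 : ∑ x : M, ζ ^ (f x).val = ζ ^ (f u).val * ∑ x : M, ζ ^ (f x).val := by
    conv_lhs => rw [← Equiv.sum_comp (Equiv.addLeft u)]
    rw [Finset.mul_sum]
    exact Finset.sum_congr rfl fun x _ => by rw [Equiv.coe_addLeft, map_add, hmul]
  have h2 : ζ ^ (f u).val ≠ 1 := fun e => hu (by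
    simpa using hζ.pow_inj (ZMod.val_lt _) (Fact.out : q.Prime).pos (e.trans (pow_zero ζ).symm))
  have h3 : (ζ ^ (f u).val - 1) * ∑ x : M, ζ ^ (f x).val = 0 := by
    rw [sub_mul, one_mul, ← h1, sub_self]
  exact (mul_eq_zero.1 h3).resolve_left (sub_ne_zero.2 h2)

variable {S : Type*} [Group S] {W : Type*} [AddCommGroup W] [Module (ZMod q) W]
  [FiniteDimensional (ZMod q) W] [Fintype W] {U : Type*} [AddCommGroup U] [Module F U] [Nontrivial U]
  {ζ : F} {B : W →ₗ[ZMod q] W →ₗ[ZMod q] ZMod q} {σ : S →* Module.End (ZMod q) W}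
  {ρ : S →* Module.End F U} {w : W → Module.End F U}

namespace IsSys

/-- The conjugate of `ρ c` by `w u`. -/
noncomputable def term (h : IsSys ζ B σ ρ w) (c : S) (u : W) : Module.End F U :=
  w u * ρ c * (w u) ^ (q - 1)

/-- The sum of the conjugates of `ρ c` by the lifts of `W2`. -/
noncomputable def avg (h : IsSys ζ B σ ρ w) (c : S) (W2 : Submodule (ZMod q) W) : Module.End F U :=
  haveI : Fintype W2 := Fintype.ofFinite _
  ∑ u : W2, h.term c (u : W)

variable (h : IsSys ζ B σ ρ w)

include h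

theorem w_mul_pow (u : W) : w u * w u ^ (q - 1) = 1 := by
  rw [← pow_succ', Nat.sub_add_cancel (Fact.out : q.Prime).one_le, h.exp]

theorem pow_mul_w (u : W) : w u ^ (q - 1) * w u = 1 := by
  rw [← pow_succ, Nat.sub_add_cancel (Fact.out : q.Prime).one_le, h.exp]

/-- A conjugate by any scalar multiple of `w u` is the term of `u`. -/
theorem term_eq {c : S} {u : W} {x x' : Module.End F U} {k : F} (hx : x = k • w u) (hx' : x * x' = 1) :
    x * ρ c * x' = h.term c u := by
  have hk : k ≠ 0 := by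
    rintro rfl
    rw [zero_smul] at hx
    rw [hx, zero_mul] at hx'
    exact zero_ne_one hx'
  have hxu : IsUnit x := by
    rw [hx, Algebra.smul_def]
    exact ((Ne.isUnit hk).map (algebraMap F (Module.End F U))).mul (h.w_unit u)
  have e : x' = k⁻¹ • w u ^ (q - 1) := by
    refine hxu.mul_left_cancel ?_
    rw [hx', hx, smul_mul_assoc, mul_smul_comm, smul_smul, mul_inv_cancel₀ hk, h.w_mul_pow, one_smul]
  rw [hx, e, term, smul_mul_assoc, smul_mul_assoc, mul_smul_comm, smul_smul, mul_inv_cancel₀ hk, one_smul]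

theorem w_mul_term (c : S) (u0 u : W) : w u0 * h.term c u = h.term c (u0 + u) * w u0 := by
  obtain ⟨k, hk⟩ := h.mul u0 u
  have h1 : w u0 * h.term c u * w u0 ^ (q - 1) = h.term c (u0 + u) := by
    rw [show w u0 * h.term c u * w u0 ^ (q - 1) = (w u0 * w u) * ρ c * (w u ^ (q - 1) * w u0 ^ (q - 1)) by
      simp [term, mul_assoc]]
    refine h.term_eq hk ?_
    rw [show w u0 * w u * (w u ^ (q - 1) * w u0 ^ (q - 1)) = w u0 * (w u * w u ^ (q - 1)) * w u0 ^ (q - 1) by
      simp [mul_assoc], h.w_mul_pow, mul_one, h.w_mul_pow]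
  rw [← h1, mul_assoc (w u0 * h.term c u), h.pow_mul_w, mul_one]

theorem avg_eq (c : S) (W2 : Submodule (ZMod q) W) [Fintype W2] :
    h.avg c W2 = ∑ u : W2, h.term c (u : W) := by
  unfold avg
  exact Finset.sum_congr (by ext; simp) fun _ _ => rfl

theorem w_mul_avg_of_mem {c : S} {W2 : Submodule (ZMod q) W} {u0 : W} (hu : u0 ∈ W2) :
    w u0 * h.avg c W2 = h.avg c W2 * w u0 := by
  haveI : Fintype W2 := Fintype.ofFinite _
  rw [h.avg_eq]
  conv_rhs => rw [← Equiv.sum_comp (Equiv.addLeft (⟨u0, hu⟩ : W2))]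
  rw [Finset.mul_sum, Finset.sum_mul]
  exact Finset.sum_congr rfl fun u _ => h.w_mul_term c u0 u

theorem w_mul_avg_of_perp {c : S} {W2 : Submodule (ZMod q) W} {v : W} (hv : σ c v = v)
    (hperp : ∀ u ∈ W2, B u v = 0) : w v * h.avg c W2 = h.avg c W2 * w v := by
  haveI : Fintype W2 := Fintype.ofFinite _
  rw [h.avg_eq]
  rw [Finset.mul_sum, Finset.sum_mul]
  refine Finset.sum_congr rfl fun u _ => ?_
  have hc : Commute (w v) (w u) := by
    have := h.comm u v
    rw [hperp u u.2, ZMod.val_zero, pow_zero, one_smul] at this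
    exact this.symm
  exact (((hc.mul_right (show Commute (w v) (ρ c) from (h.commute_of_fixed hv).symm)).mul_right
    (hc.pow_right _))).eq

theorem rho_mul_term (c g : S) (u : W) : ρ g * h.term c u = h.term (g * c * g⁻¹) (σ g u) * ρ g := by
  obtain ⟨k, hk⟩ := h.conj g u
  have e1 : ρ g * w u * ρ g⁻¹ = k • w (σ g u) := by
    rw [hk, smul_mul_assoc, mul_assoc, ← map_mul, mul_inv_cancel, map_one, mul_one]
  have h1 : h.term (g * c * g⁻¹) (σ g u) =
      (ρ g * w u * ρ g⁻¹) * ρ (g * c * g⁻¹) * (ρ g * w u ^ (q - 1) * ρ g⁻¹) := by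
    refine (h.term_eq e1 ?_).symm
    rw [show ρ g * w u * ρ g⁻¹ * (ρ g * w u ^ (q - 1) * ρ g⁻¹) =
        ρ g * w u * (ρ g⁻¹ * ρ g) * w u ^ (q - 1) * ρ g⁻¹ by simp [mul_assoc],
      ← map_mul, inv_mul_cancel, map_one, mul_one, mul_assoc (ρ g), h.w_mul_pow, mul_one, ← map_mul,
      mul_inv_cancel, map_one]
  have hcancel : ∀ z : Module.End F U, ρ g⁻¹ * (ρ g * z) = z := fun z => by
    rw [← mul_assoc, ← map_mul, inv_mul_cancel, map_one, one_mul]
  rw [h1, map_mul, map_mul]
  simp only [term, mul_assoc, hcancel]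
  rw [← map_mul, inv_mul_cancel, map_one, mul_one]

theorem rho_mul_avg {c g : S} {W2 W2' : Submodule (ZMod q) W} (hW : ∀ u, σ g u ∈ W2' ↔ u ∈ W2) :
    ρ g * h.avg c W2 = h.avg (g * c * g⁻¹) W2' * ρ g := by
  haveI : Fintype W2 := Fintype.ofFinite _
  haveI : Fintype W2' := Fintype.ofFinite _
  let e : W2 ≃ W2' :=
    { toFun := fun u => ⟨σ g u, (hW u).2 u.2⟩
      invFun := fun u => ⟨σ g⁻¹ u, (hW _).1 (by rw [apply_apply_inv]; exact u.2)⟩
      left_inv := fun u => Subtype.ext (apply_inv_apply σ g u)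
      right_inv := fun u => Subtype.ext (apply_apply_inv σ g u) }
  rw [h.avg_eq, h.avg_eq]
  rw [← Equiv.sum_comp e, Finset.mul_sum, Finset.sum_mul]
  exact Finset.sum_congr rfl fun u _ => h.rho_mul_term c g u

theorem inverted_unique {c : S} {u : W} {x y : Module.End F U} {k k' : F} (hx : x = k • w u)
    (hy : y = k' • w u) (hk : k ^ q = 1) (hk' : k' ^ q = 1)
    (hix : ρ c * x = x ^ (q - 1) * ρ c) (hiy : ρ c * y = y ^ (q - 1) * ρ c) : x = y := by
  have hk0 : k ≠ 0 := by
    rintro rfl
    rw [zero_pow (Fact.out : q.Prime).ne_zero] at hk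
    exact zero_ne_one hk
  set t := k' * k⁻¹ with ht
  have hyx : y = t • x := by rw [hy, hx, smul_smul, ht, mul_assoc, inv_mul_cancel₀ hk0, mul_one]
  rw [hyx, mul_smul_comm, hix, smul_pow, smul_mul_assoc] at hiy
  have hxu : IsUnit (x ^ (q - 1) * ρ c) := by
    refine (IsUnit.pow _ ?_).mul (h.rho_unit c)
    refine IsUnit.of_pow_eq_one (n := q) ?_ (Fact.out : q.Prime).ne_zero
    rw [hx, smul_pow, hk, h.exp, one_smul]
  have h1 := h.smul_cancel hxu hiy
  have htq : t ^ q = 1 := by rw [ht, mul_pow, hk', inv_pow, hk, inv_one, one_mul]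
  have h2 : t * t = 1 := by
    nth_rw 2 [h1]
    rw [← pow_succ', Nat.sub_add_cancel (Fact.out : q.Prime).one_le, htq]
  have hcop : Nat.gcd q 2 = 1 := (Nat.coprime_primes Fact.out Nat.prime_two).2 h.ne_two
  have h3 := pow_gcd_eq_one.2 ⟨htq, (pow_two t).trans h2⟩
  rw [hcop, pow_one] at h3
  rw [hyx, h3, one_smul]

/-- **The average**: it commutes with the representation of a Lagrangian complement and agrees with `ρ c`
on the fixed vectors of a Lagrangian. -/
theorem exists_average {c : S} (hc2 : c * c = 1) {W2 : Submodule (ZMod q) W}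
    (hneg : ∀ u ∈ W2, σ c u = -u) (hnd : ∀ v ∈ W2, (∀ u ∈ W2, B u v = 0) → v = 0) :
    ∃ C0 : Submodule F U, (∀ v ∈ C0, h.avg c W2 v = ρ c v) ∧ (∀ v ∈ C0, ρ c v ∈ C0) ∧
      (∀ X : Submodule F U, X ≠ ⊥ → (∀ u ∈ W2, ∀ x ∈ X, w u x ∈ X) → X ⊓ C0 ≠ ⊥) ∧
      (∀ (X : Submodule F U), (∀ u ∈ W2, ∀ x ∈ X, w u x ∈ X) → ∀ v ∈ C0, ∀ x ∈ X,
        v = ρ c x - x → ∃ x' ∈ X ⊓ C0, v = ρ c x' - x') ∧
      ∀ x, h.avg c W2 (h.avg c W2 x) = x := by
  classical
  haveI : NeZero q := ⟨(Fact.out : q.Prime).ne_zero⟩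
  set B2 := B.compl₁₂ W2.subtype W2.subtype with hB2
  have hB2nd : ∀ v : W2, (∀ u, B2 u v = 0) → v = 0 := fun v hv =>
    Subtype.ext (hnd v v.2 fun u hu => hv ⟨u, hu⟩)
  obtain ⟨L, hLiso, hLdim⟩ := exists_lagrangian (B := B2) (fun v => h.iso.alt _) hB2nd
  have hLmax : ∀ u : W2, (∀ l ∈ L, B2 l u = 0) → u ∈ L := by
    have e : orth B2 L = L := by
      refine (Submodule.eq_of_le_of_finrank_le hLiso ?_).symm
      have := finrank_orth_add hB2nd L
      omega
    intro u hu
    rw [← e]
    exact hu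
  haveI : Fintype L := Fintype.ofFinite _
  haveI : Fintype W2 := Fintype.ofFinite _
  have hnegc : ∀ l : L, σ c ((l : W2) : W) = -((l : W2) : W) := fun l => hneg _ (l : W2).2
  choose ek hek hinv using fun l : L => h.exists_inverted (hnegc l)
  set lw : L → Module.End F U := fun l => ek l • w ((l : W2) : W) with hlw
  have hlwq : ∀ l, lw l ^ q = 1 := fun l => by rw [hlw, smul_pow, hek, h.exp, one_smul]
  have hiso0 : ∀ l l' : L, B ((l : W2) : W) ((l' : W2) : W) = 0 := fun l l' => hLiso l'.2 _ l.2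
  have hwc : ∀ l l' : L, Commute (lw l) (lw l') := fun l l' => by
    have := h.comm ((l : W2) : W) ((l' : W2) : W)
    rw [hiso0, ZMod.val_zero, pow_zero, one_smul] at this
    exact (Commute.smul_left this (ek l)).smul_right (ek l')
  have hadd : ∀ l l' : L, lw (l + l') = lw l * lw l' := by
    intro l l'
    obtain ⟨k, hk⟩ := h.mul ((l : W2) : W) ((l' : W2) : W)
    have e : lw l * lw l' = (ek l * ek l' * k) • w (((l + l' : L) : W2) : W) := by
      rw [hlw, smul_mul_assoc, mul_smul_comm, hk, smul_smul, smul_smul, mul_assoc]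
      rfl
    refine h.inverted_unique (k := ek (l + l')) rfl e (hek _)
      (by rw [mul_pow, mul_pow, hek, hek, h.mul_scalar_pow hk]; ring) (hinv _) ?_
    rw [← mul_assoc, hinv l, mul_assoc, hinv l', ← mul_assoc, ← (hwc l l').mul_pow]
  have hzero : lw 0 = 1 := by
    have h1 := hadd 0 0
    rw [add_zero] at h1
    have hu : IsUnit (lw 0) := IsUnit.of_pow_eq_one (hlwq 0) (Fact.out : q.Prime).ne_zero
    exact (hu.mul_left_cancel (h1.symm.trans (mul_one _).symm))
  have hneginv : ∀ l, lw (-l) * lw l = 1 := fun l => by rw [← hadd, neg_add_cancel, hzero]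
  have hpowneg : ∀ l, lw l ^ (q - 1) = lw (-l) := fun l => by
    have e : lw l ^ (q - 1) * lw l = 1 := by
      rw [← pow_succ, Nat.sub_add_cancel (Fact.out : q.Prime).one_le, hlwq]
    exact ((IsUnit.of_pow_eq_one (hlwq l) (Fact.out : q.Prime).ne_zero).mul_right_cancel
      (e.trans (hneginv l).symm))
  have hcl : ∀ l, ρ c * lw l = lw (-l) * ρ c := fun l => by rw [hinv l, hpowneg]
  set C0 : Submodule F U := ⨅ l : L, ker (lw l - 1) with hC0
  have hmem : ∀ {v}, v ∈ C0 ↔ ∀ l, lw l v = v := fun {v} => by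
    simp only [hC0, Submodule.mem_iInf, LinearMap.mem_ker, LinearMap.sub_apply, Module.End.one_apply,
      sub_eq_zero]
  set P : Module.End F U := ∑ l : L, lw l with hP
  have hPC : ∀ x, P x ∈ C0 := fun x => hmem.2 fun l => by
    rw [← Module.End.mul_apply, hP, Finset.mul_sum]
    congr 1
    rw [← Equiv.sum_comp (Equiv.addLeft l) (fun l' => lw l')]
    exact Finset.sum_congr rfl fun l' _ => (hadd l l').symm
  have hcardL : ((Fintype.card L : ℕ) : F) = 1 := natCast_card_eq_one h.ne_two L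
  have hPfix : ∀ v ∈ C0, P v = v := fun v hv => by
    rw [hP, LinearMap.sum_apply, Finset.sum_congr rfl fun l _ => hmem.1 hv l, Finset.sum_const,
      Finset.card_univ, ← Nat.cast_smul_eq_nsmul F, hcardL, one_smul]
  have hPc : ρ c * P = P * ρ c := by
    rw [hP, Finset.mul_sum, Finset.sum_mul]
    conv_rhs => rw [← Equiv.sum_comp (Equiv.neg L)]
    exact Finset.sum_congr rfl fun l _ => hcl l
  -- the identity is the sum of the conjugates of `P`
  have hid : ∑ u : W2, w (u : W) * P * w (u : W) ^ (q - 1) = 1 := by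
    simp only [hP, Finset.mul_sum, Finset.sum_mul]
    rw [Finset.sum_comm]
    have hl : ∀ l : L, ∑ u : W2, w (u : W) * lw l * w (u : W) ^ (q - 1) =
        (∑ u : W2, ζ ^ (B2.flip (l : W2) u).val) • lw l := by
      intro l
      rw [Finset.sum_smul]
      refine Finset.sum_congr rfl fun u _ => ?_
      rw [hlw, mul_smul_comm, h.comm, smul_smul, smul_mul_assoc, mul_assoc, h.w_mul_pow, mul_one,
        mul_comm, ← smul_smul]
      rfl
    rw [Finset.sum_congr rfl fun l _ => hl l, Finset.sum_eq_single (0 : L)]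
    · rw [hzero]
      have : ∀ u : W2, ζ ^ (B2.flip ((0 : L) : W2) u).val = 1 := fun u => by simp
      rw [Finset.sum_congr rfl fun u _ => this u, Finset.sum_const, Finset.card_univ, nsmul_eq_mul, mul_one,
        natCast_card_eq_one h.ne_two W2, one_smul]
    · intro l _ hl0
      obtain ⟨u, hu⟩ : ∃ u : W2, B2 u (l : W2) ≠ 0 := by
        by_contra hall
        push Not at hall
        exact hl0 (Subtype.ext (hB2nd _ hall))
      rw [sum_zeta_pow h.prim (B2.flip (l : W2)) (u := u) hu, zero_smul]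
    · exact fun h0 => absurd (Finset.mem_univ _) h0
  -- the value of the average
  have hval : ∀ v ∈ C0, h.avg c W2 v = ρ c v := by
    intro v hv
    have hav : h.avg c W2 = ∑ u : W2, h.term c (u : W) := h.avg_eq c W2
    have hshift : ∀ l : L, h.avg c W2 v = ∑ u : W2, lw l (h.term c (u : W) v) := by
      intro l
      rw [hav, LinearMap.sum_apply, ← Equiv.sum_comp (Equiv.addLeft (l : W2))]
      refine Finset.sum_congr rfl fun u _ => ?_
      have e := h.w_mul_term c ((l : W2) : W) (u : W)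
      have e1 := LinearMap.congr_fun e v
      rw [Module.End.mul_apply, Module.End.mul_apply] at e1
      rw [hlw, LinearMap.smul_apply, e1]
      show h.term c _ v = _
      rw [← map_smul, show ek l • w ((l : W2) : W) v = lw l v from rfl, hmem.1 hv l]
      rfl
    have hu : ∀ u : W2, ∀ l : L, lw l (h.term c (u : W) v) =
        (ζ ^ (((2 : ZMod q) • B2.flip u).comp L.subtype l).val) • h.term c (u : W) v := by
      intro u l
      set z := ζ ^ (B ((l : W2) : W) (u : W)).val with hz
      have e1 : lw l * w (u : W) = z • (w (u : W) * lw l) := by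
        rw [hlw, smul_mul_assoc, h.comm, mul_smul_comm, smul_comm]
      have e2 : w (u : W) ^ (q - 1) * lw l = z • (lw l * w (u : W) ^ (q - 1)) := by
        calc w (u : W) ^ (q - 1) * lw l
            = w (u : W) ^ (q - 1) * (lw l * w (u : W)) * w (u : W) ^ (q - 1) := by
              rw [mul_assoc, mul_assoc, h.w_mul_pow, mul_one]
          _ = _ := by
              rw [e1, mul_smul_comm, smul_mul_assoc, ← mul_assoc, h.pow_mul_w, one_mul]
      set x := (w (u : W) ^ (q - 1)) v with hx
      have h1 : x = z • lw l x := by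
        have := LinearMap.congr_fun e2 v
        rw [Module.End.mul_apply, hmem.1 hv l] at this
        exact this
      have h2 : lw (-l) x = z • x := by
        conv_lhs => rw [h1]
        rw [map_smul, ← Module.End.mul_apply, hneginv, Module.End.one_apply]
      have h3 : lw l (h.term c (u : W) v) = (z * z) • h.term c (u : W) v := by
        show lw l (w (u : W) (ρ c x)) = _
        rw [← Module.End.mul_apply, e1, LinearMap.smul_apply, Module.End.mul_apply,
          ← Module.End.mul_apply (f := lw l), show lw l * ρ c = ρ c * lw (-l) by rw [hcl, neg_neg],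
          Module.End.mul_apply, h2, map_smul, map_smul, smul_smul]
        rfl
      rw [h3]
      congr 1
      show z * z = ζ ^ ((2 : ZMod q) • B ((l : W2) : W) (u : W)).val
      rw [hz, ← pow_add, two_smul, ZMod.val_add, ← pow_eq_pow_mod _ h.prim.pow_eq_one]
    calc h.avg c W2 v = ∑ _l : L, h.avg c W2 v := by
          rw [Finset.sum_const, Finset.card_univ, ← Nat.cast_smul_eq_nsmul F, hcardL, one_smul]
      _ = ∑ u : W2, ∑ l : L, lw l (h.term c (u : W) v) := by
          rw [Finset.sum_congr rfl fun l _ => hshift l, Finset.sum_comm]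
      _ = ∑ u : W2, if u ∈ L then ρ c v else 0 := by
          refine Finset.sum_congr rfl fun u _ => ?_
          rw [Finset.sum_congr rfl fun l _ => hu u l, ← Finset.sum_smul]
          split_ifs with huL
          · have h0 : ∀ l : L, ζ ^ (((2 : ZMod q) • B2.flip u).comp L.subtype l).val = 1 := fun l => by
              show ζ ^ ((2 : ZMod q) • B ((l : W2) : W) (u : W)).val = 1
              rw [hiso0 l ⟨u, huL⟩, smul_zero, ZMod.val_zero, pow_zero]
            rw [Finset.sum_congr rfl fun l _ => h0 l, Finset.sum_const, Finset.card_univ, nsmul_eq_mul,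
              mul_one, hcardL, one_smul]
            have ex : lw ⟨u, huL⟩ * lw (-⟨u, huL⟩) = 1 := by rw [← hadd, add_neg_cancel, hzero]
            rw [← h.term_eq (x := lw ⟨u, huL⟩) (u := (u : W)) rfl ex]
            rw [Module.End.mul_apply, hmem.1 hv, show lw (⟨u, huL⟩ : L) * ρ c = ρ c * lw (-⟨u, huL⟩) by
              rw [hcl, neg_neg], Module.End.mul_apply, hmem.1 hv]
          · obtain ⟨l, hl, hl0⟩ : ∃ l ∈ L, B2 l u ≠ 0 := by
              by_contra hall
              push Not at hall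
              exact huL (hLmax u hall)
            rw [sum_zeta_pow h.prim _ (u := (⟨l, hl⟩ : L)) (mul_ne_zero (two_ne_zero_zmod h.ne_two) hl0),
              zero_smul]
      _ = ρ c v := by
          rw [Finset.sum_ite, Finset.sum_const_zero, add_zero, Finset.sum_const,
            ← Nat.cast_smul_eq_nsmul F, show (Finset.univ.filter (fun u => u ∈ L)).card = Fintype.card L from
              (Fintype.card_of_subtype _ fun u => by simp).symm, hcardL, one_smul]
  have hCc : ∀ v ∈ C0, ρ c v ∈ C0 := fun v hv => hmem.2 fun l => by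
    rw [← Module.End.mul_apply, show lw l * ρ c = ρ c * lw (-l) by rw [hcl, neg_neg], Module.End.mul_apply,
      hmem.1 hv]
  have hPX : ∀ (X : Submodule F U), (∀ u ∈ W2, ∀ x ∈ X, w u x ∈ X) → ∀ x ∈ X, P x ∈ X := by
    intro X hX x hx
    rw [hP, LinearMap.sum_apply]
    exact Submodule.sum_mem _ fun l _ => Submodule.smul_mem _ _ (hX _ (l : W2).2 x hx)
  have hpowX : ∀ (X : Submodule F U), (∀ u ∈ W2, ∀ x ∈ X, w u x ∈ X) → ∀ u ∈ W2, ∀ (k : ℕ), ∀ x ∈ X,
      (w u ^ k) x ∈ X := by
    intro X hX u hu k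
    induction k with
    | zero => intro x hx; exact hx
    | succ k ih => intro x hx; rw [pow_succ', Module.End.mul_apply]; exact hX u hu _ (ih x hx)
  refine ⟨C0, hval, hCc, ?_, ?_, ?_⟩
  · intro X hX hXw hbot
    obtain ⟨x, hx, hx0⟩ := Submodule.exists_mem_ne_zero_of_ne_bot hX
    refine hx0 ?_
    rw [← LinearMap.congr_fun hid x |>.trans (Module.End.one_apply x), LinearMap.sum_apply]
    refine Finset.sum_eq_zero fun u _ => ?_
    have hy : (w (u : W) ^ (q - 1)) x ∈ X := hpowX X hXw u u.2 _ x hx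
    have h0 : P ((w (u : W) ^ (q - 1)) x) ∈ (⊥ : Submodule F U) :=
      hbot ▸ ⟨hPX X hXw _ hy, hPC _⟩
    rw [Submodule.mem_bot] at h0
    rw [Module.End.mul_apply, Module.End.mul_apply, h0, map_zero]
  · intro X hXw v hv x hx he
    refine ⟨P x, ⟨hPX X hXw x hx, hPC x⟩, ?_⟩
    conv_lhs => rw [← hPfix v hv, he]
    rw [map_sub, ← Module.End.mul_apply, ← hPc, Module.End.mul_apply]
  · intro x
    set N := h.avg c W2 with hN
    have hcomm : ∀ u : W2, ∀ k : ℕ, N * w (u : W) ^ k = w (u : W) ^ k * N := fun u k =>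
      ((show Commute (w (u : W)) N from h.w_mul_avg_of_mem u.2).pow_left k).eq.symm
    have hC2 : ∀ v ∈ C0, N (N v) = v := fun v hv => by
      rw [hval v hv, hval _ (hCc v hv), ← Module.End.mul_apply, ← map_mul, hc2, map_one, Module.End.one_apply]
    conv_rhs => rw [← LinearMap.congr_fun hid x |>.trans (Module.End.one_apply x)]
    conv_lhs => rw [← LinearMap.congr_fun hid x |>.trans (Module.End.one_apply x)]
    simp only [LinearMap.sum_apply, map_sum]
    refine Finset.sum_congr rfl fun u _ => ?_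
    simp only [Module.End.mul_apply]
    have e : ∀ z, N (w (u : W) z) = w (u : W) (N z) := fun z => by
      simpa [Module.End.mul_apply] using LinearMap.congr_fun (hcomm u 1) z
    rw [e, e, hC2 _ (hPC _)]

end IsSys

end Cfsg.Agent.TwoDer
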