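import Cfsg.Agent.TwoDer.Component

/-!
# The derived series at one component: instantiation
-/

set_option autoImplicit false
set_option linter.unusedSectionVars false
set_option linter.style.haveILetI false

namespace Cfsg.Agent.TwoDer

open scoped commutatorElement
open Module LinearMap Cfsg Cfsg.Agent.Gross Cfsg.Agent.TwoLen

section abstract

variable {Y : Type*} [Group Y] [Finite Y] [Group.IsSolvable Y] {F : Type*} [Field F] [CharP F 2]
  [IsAlgClosed F] {V : Type*} [AddCommGroup V] [Module F V] [FiniteDimensional F V] [Nontrivial V]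
  {q : ℕ} [Fact q.Prime] {d : CharData Y F q} {π : Y →* Module.End F V}

/-- The radical of the pairing on `K`. -/
def radSub (d : CharData Y F q) : Subgroup Y where
  carrier := {k | ∃ hk : k ∈ d.K, d.cls' ⟨k, hk⟩ = 0}
  one_mem' := ⟨one_mem _, Subtype.ext d.pf_one⟩
  mul_mem' := fun {k l} ⟨hk, ek⟩ ⟨hl, el⟩ => ⟨mul_mem hk hl, by
    rw [show (⟨k * l, _⟩ : d.K) = ⟨k, hk⟩ * ⟨l, hl⟩ from rfl, d.cls_mul, ek, el, add_zero]⟩
  inv_mem' := fun {k} ⟨hk, ek⟩ => ⟨inv_mem hk, by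
    rw [show (⟨k⁻¹, _⟩ : d.K) = (⟨k, hk⟩ : d.K)⁻¹ from rfl, d.cls_inv, ek, neg_zero]⟩

instance radSub_normal (d : CharData Y F q) : (radSub d).Normal :=
  ⟨fun k ⟨hk, ek⟩ g => ⟨(d.cj g ⟨k, hk⟩).2, by
    rw [show (⟨g * k * g⁻¹, _⟩ : d.K) = d.cj g ⟨k, hk⟩ from rfl, ← d.act_cls, ek, map_zero]⟩⟩

theorem radSub_comm (hZ : CentralBy d π) {k : Y} (hk : k ∈ radSub d) (l : d.K) (v : V) :
    π k (π l v) = π l (π k v) := by
  obtain ⟨hk, ek⟩ := hk
  exact rho_commute (k := ⟨k, hk⟩) hZ (by rw [ek, map_zero, LinearMap.zero_apply]) v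

/-- An eigenspace of the radical is invariant under `K`, and `K` acts on it through `K / R`. -/
theorem exists_scalar (hZ : CentralBy d π) (ψ : radSub d →* F) :
    (∀ (k : d.K), ∀ x ∈ eig π (radSub d) ψ, π (k : Y) x ∈ eig π (radSub d) ψ) ∧
      ∀ (k l : d.K), d.cls' k = d.cls' l →
        ∃ c : F, ∀ x ∈ eig π (radSub d) ψ, π (k : Y) x = c • π (l : Y) x := by
  have hKU : ∀ (k : d.K), ∀ x ∈ eig π (radSub d) ψ, π (k : Y) x ∈ eig π (radSub d) ψ :=
    fun k x hx => mem_eig.2 fun z => by rw [radSub_comm hZ z.2 k, mem_eig.1 hx z, map_smul]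
  refine ⟨hKU, fun k l e => ?_⟩
  have hz : ((k : Y) * (l : Y)⁻¹) ∈ radSub d := ⟨(k * l⁻¹).2, by
    rw [show (⟨(k : Y) * (l : Y)⁻¹, _⟩ : d.K) = k * l⁻¹ from rfl, d.cls_mul, d.cls_inv, e, add_neg_cancel]⟩
  refine ⟨ψ ⟨_, hz⟩, fun x hx => ?_⟩
  have h1 := mem_eig.1 (hKU l x hx) ⟨_, hz⟩
  rw [← Module.End.mul_apply, ← map_mul, inv_mul_cancel_right] at h1
  exact h1

set_option maxHeartbeats 800000 in
/-- The system on an eigenspace of the radical. -/
theorem exists_sys (hZ : CentralBy d π) (hq2 : q ≠ 2) {ψ : radSub d →* F}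
    {R : Subgroup Y} (hR : IsPGroup 2 R) (hRψ : R ≤ charStab ψ) :
    ∃ (ρ2 : R →* Module.End F (eig π (radSub d) ψ))
      (w : d.bar → Module.End F (eig π (radSub d) ψ)),
      IsSys d.ζ d.form (d.act.comp R.subtype) ρ2 w ∧
        ∀ (g : R) (x : eig π (radSub d) ψ), (ρ2 g x : V) = π (g : Y) x := by
  obtain ⟨hKU, hsc⟩ := exists_scalar hZ ψ
  let ρ2 : R →* Module.End F (eig π (radSub d) ψ) :=
    { toFun := fun g => (π (g : Y)).restrict fun x hx => apply_mem_eig (hRψ g.2) hx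
      map_one' := LinearMap.ext fun x => Subtype.ext (by simp)
      map_mul' := fun a b => LinearMap.ext fun x => Subtype.ext (by simp [Module.End.mul_apply]) }
  let w : d.bar → Module.End F (eig π (radSub d) ψ) :=
    fun u => (π (d.lift u : Y)).restrict (hKU (d.lift u))
  refine ⟨ρ2, w, ?_, fun g x => rfl⟩
  refine ⟨hR, hq2, d.prim, ⟨d.form_alt, d.form_nondeg, fun g => d.isIsoRep.iso (g : Y)⟩,
    fun u v => ?_, fun u v => ?_, fun u => ?_, fun g u => ?_⟩
  · refine LinearMap.ext fun x => Subtype.ext ?_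
    show π _ (π _ (x : V)) = d.ζ ^ (d.form u v).val • π _ (π _ (x : V))
    rw [rho_comm hZ, d.cv_eq, d.cls_lift, d.cls_lift]
  · obtain ⟨c, hc⟩ := hsc (d.lift u * d.lift v) (d.lift (u + v))
      (by rw [d.cls_mul, d.cls_lift, d.cls_lift, d.cls_lift])
    refine ⟨c, LinearMap.ext fun x => Subtype.ext ?_⟩
    show π _ (π _ (x : V)) = c • π _ (x : V)
    rw [← hc x x.2, Subgroup.coe_mul, map_mul, Module.End.mul_apply]
  · refine LinearMap.ext fun x => Subtype.ext ?_
    have hpw : ∀ k : ℕ, ((w u ^ k) x : V) = π ((d.lift u : Y) ^ k) x := by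
      intro k
      induction k with
      | zero => simp
      | succ k ih =>
        rw [pow_succ', Module.End.mul_apply, pow_succ' (d.lift u : Y), map_mul, Module.End.mul_apply, ← ih]
        rfl
    rw [hpw, d.exp _ (d.lift u).2, map_one, Module.End.one_apply, Module.End.one_apply]
  · obtain ⟨c, hc⟩ := hsc (d.cj (g : Y) (d.lift u)) (d.lift (d.act (g : Y) u)) (by
      rw [← d.act_cls, d.cls_lift, d.cls_lift])
    refine ⟨c, LinearMap.ext fun x => Subtype.ext ?_⟩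
    show π _ (π _ (x : V)) = c • π _ (π _ (x : V))
    rw [rho_cj_apply]
    exact hc _ (apply_mem_eig (hRψ g.2) x.2)

set_option maxHeartbeats 800000 in
/-- **One component, abstractly.** -/
theorem abs_facts (hZ : CentralBy d π) (hq2 : q ≠ 2) {T : Subgroup Y} (hT : IsPGroup 2 T) {m : ℕ}
    (hTm : dser T m = ⊥) (hk : ∀ v, Kills π T m v) :
    (∀ g ∈ dser T (m - 1), toImg d g = 1) ∨
      (2 ≤ m ∧ IsReflPrime q 2 ∧ ∃ τ : (imgHom d).range, τ ∈ pPrimePCore 2 (imgHom d).range ∧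
        τ * τ = 1 ∧ (∃ y3, IsRefl (imgAct d) 2 y3 ∧ y3 ^ 2 = τ) ∧
        (∀ g ∈ dser T (m - 2), Commute τ (toImg d g) ∧
          (toImg d g = 1 ∨ toImg d g = τ ∨ (IsRefl (imgAct d) 2 (toImg d g) ∧ toImg d g ^ 2 = τ))) ∧
        ∀ g ∈ dser T (m - 1), toImg d g = 1 ∨ toImg d g = τ) := by
  haveI := Fact.mk Nat.prime_two
  obtain ⟨ψ, hψ⟩ := exists_eig (ρ := π) (Z := radSub d) fun a ha b ⟨hb, _⟩ =>
    LinearMap.ext fun v => radSub_comm hZ ha ⟨b, hb⟩ v
  obtain ⟨i, him, hiC, hik⟩ := ladder (ρ := π) hT hTm hk hψ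
  haveI : Nontrivial (eig π (radSub d) ψ) := Submodule.nontrivial_iff_ne_bot.2 hψ
  set R := dser T i with hR
  obtain ⟨ρ2, w, hsys, hρ2⟩ := exists_sys hZ hq2 (hT.to_le (dser_le T i)) hiC
  have hRk : ∀ x, Kills ρ2 ⊤ (m - i) x := fun x =>
    kills_reflect R.subtype (eig π (radSub d) ψ).subtype.toAddMonoidHom Subtype.val_injective hρ2
      (by rw [← MonoidHom.range_eq_map, Subgroup.range_subtype]) (hik x x.2)
  have hRser : ∀ k (g : R), (g : Y) ∈ dser T (i + k) → g ∈ dser (⊤ : Subgroup R) k := fun k g hg =>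
    mem_dser_top (by show (g : Y) ∈ dser (dser T i) k; rw [dser_dser]; exact hg)
  by_cases htriv : ∀ g ∈ dser T (m - 1), toImg d g = 1
  · exact Or.inl htriv
  right
  push Not at htriv
  obtain ⟨g0, hg0, hne⟩ := htriv
  have hg0R : g0 ∈ R := dser_antitone T (by omega) hg0
  have hσne : (d.act.comp R.subtype) ⟨g0, hg0R⟩ ≠ 1 := fun e => hne (toImg_eq_one.2 e)
  have hr2 : 2 ≤ m - i := by
    by_contra hlt
    have hr1 : m - i = 1 := by omega
    refine hσne (hsys.sigma_one_of_fix fun x => ?_)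
    exact (kills_one_iff ρ2 ⊤ x).1 (hr1 ▸ hRk x) _ trivial
  obtain ⟨hr', hm, a, hane, hacomm, ha2, ⟨y, hy, hy2⟩, hall, hD⟩ :=
    hsys.length_two hr2 hRk (g := ⟨g0, hg0R⟩)
      (hRser _ _ (by rw [show i + (m - i - 1) = m - 1 by omega]; exact hg0)) hσne
  have hij : i = m - 2 := by omega
  have heq : ∀ {g h : Y}, d.act g = d.act h → toImg d g = toImg d h := fun e => imgAct_injective d e
  haveI : Finite (imgHom d).range := Finite.of_surjective _ (imgHom d).rangeRestrict_surjective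
  haveI : Group.IsSolvable (imgHom d).range :=
    Group.isSolvable_of_surjective (imgHom d).rangeRestrict_surjective
  have hrefl : ∀ {s : R}, IsRefl (d.act.comp R.subtype) 2 s → IsRefl (imgAct d) 2 (toImg d (s : Y)) :=
    fun {s} hs => isRefl_toImg (d := d) ⟨hs.dim, hs.neg⟩
  have ha2' : toImg d (a : Y) * toImg d (a : Y) = 1 := by
    rw [← map_mul]; exact toImg_eq_one.2 ha2
  have hy2' : toImg d (y : Y) ^ 2 = toImg d (a : Y) := by rw [← map_pow]; exact heq hy2
  refine ⟨by omega, hm, toImg d (a : Y), ?_, ha2', ⟨_, hrefl hy, hy2'⟩, fun g hg => ?_, fun g hg => ?_⟩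
  · have := Gross.pow_mem_pPrimePCore (a := 2) hm (imgAct_isIsoRep d) (imgAct_injective d)
      (y := toImg d (y : Y)) (by
        rw [show (2 : ℕ) ^ 2 = 2 * 2 by norm_num, pow_mul, hy2', pow_two, ha2']) (hrefl hy)
    rwa [show (2 : ℕ) ^ (2 - 1) = 2 from rfl, hy2'] at this
  · have hgR : g ∈ R := by rw [hR, hij]; exact hg
    refine ⟨?_, ?_⟩
    · show _ * _ = _ * _
      rw [← map_mul, ← map_mul]
      refine heq ?_
      rw [map_mul, map_mul]
      exact (hacomm ⟨g, hgR⟩).symm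
    · rcases hall ⟨g, hgR⟩ with e | e | ⟨e1, e2⟩
      · exact Or.inl (toImg_eq_one.2 e)
      · exact Or.inr (Or.inl (heq e))
      · exact Or.inr (Or.inr ⟨hrefl e1, by rw [← map_pow]; exact heq e2⟩)
  · rcases hD ⟨g, dser_antitone T (by omega) hg⟩
      (hRser 1 _ (by rw [show i + 1 = m - 1 by omega]; exact hg)) with e | e
    · exact Or.inl (toImg_eq_one.2 e)
    · exact Or.inr (heq e)

end abstract

variable {X : Type*} [Group X] [Finite X] {F : Type*} [Field F] [CharP F 2] [IsAlgClosed F]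
  {V : Type*} [AddCommGroup V] [Module F V] [FiniteDimensional F V] {ρ : X →* Module.End F V}
  {q : ℕ} [Fact q.Prime] {K : Subgroup X} [K.Normal]

/-- The facts about a 2-subgroup at a component. -/
def DerFacts {C : Subgroup X} (d : CharData C F q) (T : Subgroup X) (n : ℕ) : Prop :=
  dser T (n - 1) ≤ C ∧
  ((∀ g : C, (g : X) ∈ dser T (n - 1) → toImg d g = 1) ∨
    (IsReflPrime q 2 ∧ dser T (n - 2) ≤ C ∧ ∃ τ : (imgHom d).range, τ ∈ pPrimePCore 2 (imgHom d).range ∧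
      τ * τ = 1 ∧ (∃ y3, IsRefl (imgAct d) 2 y3 ∧ y3 ^ 2 = τ) ∧
      (∀ g : C, (g : X) ∈ dser T (n - 2) → Commute τ (toImg d g) ∧
        (toImg d g = 1 ∨ toImg d g = τ ∨ (IsRefl (imgAct d) 2 (toImg d g) ∧ toImg d g ^ 2 = τ))) ∧
      ∀ g : C, (g : X) ∈ dser T (n - 1) → toImg d g = 1 ∨ toImg d g = τ))

/-- **One component.** -/
theorem derFacts [Group.IsSolvable X] (hq2 : q ≠ 2) (hexp : ∀ k ∈ K, k ^ q = 1)
    (hcls : ∀ a ∈ K, ∀ b ∈ K, ∀ c ∈ K, Commute ⁅a, b⁆ c) {ζ : F} (hζ : IsPrimitiveRoot ζ q)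
    (χ : zc K →* F) (hχ : haveI := zc_normal K; eig ρ (zc K) χ ≠ ⊥) {T : Subgroup X}
    (hT : IsPGroup 2 T) {n : ℕ} (hTn : dser T n = ⊥) (hk : ∀ v, Kills ρ T n v) :
    haveI := zc_normal K
    DerFacts (charData hexp hcls hζ χ) T n := by
  haveI := zc_normal K
  haveI := Fact.mk Nat.prime_two
  obtain ⟨j, hjn, hjC, hjk⟩ := ladder (ρ := ρ) hT hTn hk hχ
  haveI : Nontrivial (eig ρ (zc K) χ) := Submodule.nontrivial_iff_ne_bot.2 hχ
  set T1 : Subgroup (charStab χ) := (dser T j).subgroupOf (charStab χ) with hT1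
  have hT1map : T1.map (charStab χ).subtype = dser T j := by
    rw [hT1, Subgroup.subgroupOf_map_subtype, inf_eq_left.2 hjC]
  have hT1ser : ∀ i, (dser T1 i).map (charStab χ).subtype = dser T (j + i) := fun i => by
    rw [← dser_map, hT1map, dser_dser]
  have hmem : ∀ (i : ℕ) (g : charStab χ), (g : X) ∈ dser T (j + i) → g ∈ dser T1 i := fun i g hg => by
    rw [← hT1ser] at hg
    obtain ⟨g', hg', e⟩ := hg
    rwa [← (charStab χ).subtype_injective e]
  have hT1n : dser T1 (n - j) = ⊥ :=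
    (Subgroup.map_eq_bot_iff_of_injective _ (charStab χ).subtype_injective).1 (by
      rw [hT1ser, show j + (n - j) = n by omega, hTn])
  have hT1k : ∀ v, Kills (eigRep ρ χ) T1 (n - j) v := fun v =>
    kills_reflect (charStab χ).subtype (eig ρ (zc K) χ).subtype.toAddMonoidHom Subtype.val_injective
      (fun _ _ => rfl) hT1map.le (hjk v v.2)
  have hT1p : IsPGroup 2 T1 := (hT.to_le (dser_le T j)).comap_of_injective _ (charStab χ).subtype_injective
  refine ⟨(dser_antitone T (by omega)).trans hjC, ?_⟩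
  rcases abs_facts (d := charData hexp hcls hζ χ) (π := eigRep ρ χ)
    (fun z v => Subtype.ext (mem_eig.1 v.2 ⟨((z : charStab χ) : X), coe_mem_zc (le_charStab χ) z.2⟩))
    hq2 hT1p hT1n hT1k with h | ⟨hm2, hm, τ, h1, h2, h3, h4, h5⟩
  · exact Or.inl fun g hg => h g (hmem _ g (by rwa [show j + (n - j - 1) = n - 1 by omega]))
  · exact Or.inr ⟨hm, (dser_antitone T (by omega)).trans hjC, τ, h1, h2, h3,
      fun g hg => h4 g (hmem _ g (by rwa [show j + (n - j - 2) = n - 2 by omega])),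
      fun g hg => h5 g (hmem _ g (by rwa [show j + (n - j - 1) = n - 1 by omega]))⟩

end Cfsg.Agent.TwoDer
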