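import Cfsg.Agent.PGroup.Frattini
import Mathlib.GroupTheory.Solvable
import Mathlib.Algebra.Module.LinearMap.End
import Mathlib.LinearAlgebra.Span.Basic

/-!
# Iterated commutators of a module with the derived series

`Kills ρ T r x` says that `(ρ t_{r-1} - 1) ... (ρ t_1 - 1) (ρ t_0 - 1) x = 0` for all `t_i` in the
`i`-th derived subgroup of `T`.
-/

set_option autoImplicit false
set_option linter.unusedSectionVars false

namespace Cfsg.Agent.TwoDer

open scoped commutatorElement

variable {X : Type*} [Group X]

/-- The derived series of a subgroup, inside the group. -/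
def dser (T : Subgroup X) : ℕ → Subgroup X
  | 0 => T
  | i + 1 => ⁅dser T i, dser T i⁆

@[simp] theorem dser_zero (T : Subgroup X) : dser T 0 = T := rfl

theorem dser_succ (T : Subgroup X) (i : ℕ) : dser T (i + 1) = ⁅dser T i, dser T i⁆ := rfl

theorem dser_dser (T : Subgroup X) (i j : ℕ) : dser (dser T i) j = dser T (i + j) := by
  induction j with
  | zero => rfl
  | succ j ih => rw [dser_succ, ih, ← add_assoc, dser_succ]

theorem dser_succ' (T : Subgroup X) (i : ℕ) : dser T (i + 1) = dser ⁅T, T⁆ i := by
  rw [← show dser T 1 = ⁅T, T⁆ from rfl, dser_dser, add_comm]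

theorem dser_mono {S T : Subgroup X} (h : S ≤ T) (i : ℕ) : dser S i ≤ dser T i := by
  induction i with
  | zero => exact h
  | succ i ih => exact Subgroup.commutator_mono ih ih

theorem dser_map {Y : Type*} [Group Y] (f : X →* Y) (T : Subgroup X) (i : ℕ) :
    dser (T.map f) i = (dser T i).map f := by
  induction i with
  | zero => rfl
  | succ i ih => rw [dser_succ, dser_succ, ih, Subgroup.map_commutator]

theorem dser_succ_le (T : Subgroup X) (i : ℕ) : dser T (i + 1) ≤ dser T i := by
  rw [dser_succ, Subgroup.commutator_le]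
  intro a ha b hb
  rw [commutatorElement_def]
  exact mul_mem (mul_mem (mul_mem ha hb) (inv_mem ha)) (inv_mem hb)

theorem dser_antitone (T : Subgroup X) {i j : ℕ} (h : i ≤ j) : dser T j ≤ dser T i := by
  induction j, h using Nat.le_induction with
  | base => exact le_rfl
  | succ j _ ih => exact (dser_succ_le T j).trans ih

theorem dser_le (T : Subgroup X) (i : ℕ) : dser T i ≤ T := dser_antitone T (Nat.zero_le i)

theorem dser_bot (i : ℕ) : dser (⊥ : Subgroup X) i = ⊥ := eq_bot_iff.2 (dser_le ⊥ i)

theorem dser_top (i : ℕ) : dser (⊤ : Subgroup X) i = derivedSeries X i := by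
  induction i with
  | zero => rfl
  | succ i ih => rw [dser_succ, ih, derivedSeries_succ]

theorem dser_eq_map (T : Subgroup X) (i : ℕ) : dser T i = (derivedSeries T i).map T.subtype := by
  rw [← dser_top, ← dser_map, ← MonoidHom.range_eq_map, Subgroup.range_subtype]

/-- In a finite nilpotent 2-group, a subgroup covering the group modulo the commutator is everything. -/
theorem le_of_le_sup_commutator [Finite X] {p : ℕ} [Fact p.Prime] {S M : Subgroup X} (hS : IsPGroup p S)
    (h : S ≤ ⁅S, S⁆ ⊔ (S ⊓ M)) : S ≤ M := by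
  haveI := Finite.of_injective _ S.subtype_injective
  have htop : M.subgroupOf S ⊔ frattini S = ⊤ := by
    refine eq_top_iff.2 fun x _ => ?_
    have hmap : (⊤ : Subgroup S).map S.subtype ≤ ((M.subgroupOf S) ⊔ frattini S).map S.subtype := by
      rw [← MonoidHom.range_eq_map, Subgroup.range_subtype]
      refine h.trans (sup_le ?_ ?_)
      · rw [show ⁅S, S⁆ = (commutator S).map S.subtype by
          rw [commutator_def, Subgroup.map_commutator, ← MonoidHom.range_eq_map, Subgroup.range_subtype]]
        exact Subgroup.map_mono ((PGroup.commutator_le_frattini hS).trans le_sup_right)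
      · rintro y ⟨hy, hyM⟩
        exact ⟨⟨y, hy⟩, Subgroup.mem_sup_left hyM, rfl⟩
    obtain ⟨y, hy, hxy⟩ := hmap ⟨x, trivial, rfl⟩
    rwa [← S.subtype_injective hxy]
  have := PGroup.eq_top_of_sup_frattini htop
  intro x hx
  have h2 : (⟨x, hx⟩ : S) ∈ M.subgroupOf S := this ▸ Subgroup.mem_top _
  exact h2

/-! ### The annihilator predicate -/

section kills

variable {F : Type*} [Semiring F] {U : Type*} [AddCommGroup U] [Module F U] (ρ : X →* Module.End F U)

/-- The products along the derived series of `T` of length `r` kill `x`. -/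
def Kills : Subgroup X → ℕ → U → Prop
  | _, 0, x => x = 0
  | T, r + 1, x => ∀ t ∈ T, Kills ⁅T, T⁆ r (ρ t x - x)

theorem kills_zero_iff (T : Subgroup X) (x : U) : Kills ρ T 0 x ↔ x = 0 := Iff.rfl

theorem kills_succ_iff (T : Subgroup X) (r : ℕ) (x : U) :
    Kills ρ T (r + 1) x ↔ ∀ t ∈ T, Kills ρ ⁅T, T⁆ r (ρ t x - x) := Iff.rfl

theorem kills_one_iff (T : Subgroup X) (x : U) : Kills ρ T 1 x ↔ ∀ t ∈ T, ρ t x = x := by
  simp only [kills_succ_iff, kills_zero_iff, sub_eq_zero]

variable {ρ}

theorem kills_zero (T : Subgroup X) (r : ℕ) : Kills ρ T r 0 := by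
  induction r generalizing T with
  | zero => rfl
  | succ r ih => intro t _; rw [map_zero, sub_zero]; exact ih _

theorem kills_add {T : Subgroup X} {r : ℕ} {x y : U} (hx : Kills ρ T r x) (hy : Kills ρ T r y) :
    Kills ρ T r (x + y) := by
  induction r generalizing T x y with
  | zero => rw [kills_zero_iff] at *; rw [hx, hy, add_zero]
  | succ r ih =>
    intro t ht
    rw [map_add, show ρ t x + ρ t y - (x + y) = (ρ t x - x) + (ρ t y - y) by abel]
    exact ih (hx t ht) (hy t ht)

theorem kills_smul {T : Subgroup X} {r : ℕ} (c : F) {x : U} (hx : Kills ρ T r x) :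
    Kills ρ T r (c • x) := by
  induction r generalizing T x with
  | zero => rw [kills_zero_iff] at *; rw [hx, smul_zero]
  | succ r ih =>
    intro t ht
    rw [map_smul, ← smul_sub]
    exact ih (hx t ht)

theorem kills_mono {S T : Subgroup X} (h : S ≤ T) {r : ℕ} {x : U} (hx : Kills ρ T r x) :
    Kills ρ S r x := by
  induction r generalizing S T x with
  | zero => exact hx
  | succ r ih => intro t ht; exact ih (Subgroup.commutator_mono h h) (hx t (h ht))

variable (ρ) in
/-- The vectors killed by the products of length `r`. -/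
def killSub (T : Subgroup X) (r : ℕ) : Submodule F U where
  carrier := {x | Kills ρ T r x}
  add_mem' := kills_add
  zero_mem' := kills_zero T r
  smul_mem' c _ := kills_smul c

theorem mem_killSub {T : Subgroup X} {r : ℕ} {x : U} : x ∈ killSub ρ T r ↔ Kills ρ T r x := Iff.rfl

/-- An equivariant map preserves `Kills`. -/
theorem kills_map {Y : Type*} [Group Y] {F' : Type*} [Semiring F'] {U' : Type*} [AddCommGroup U']
    [Module F' U'] {ρ' : Y →* Module.End F' U'} (φ : Y →* X) (p : U →+ U')
    (hp : ∀ (g : Y) (x : U), p (ρ (φ g) x) = ρ' g (p x)) {S : Subgroup Y} {T : Subgroup X}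
    (hST : S.map φ ≤ T) {r : ℕ} {x : U} (hx : Kills ρ T r x) : Kills ρ' S r (p x) := by
  induction r generalizing S T x with
  | zero => rw [kills_zero_iff] at *; rw [hx, map_zero]
  | succ r ih =>
    intro g hg
    rw [← hp, ← map_sub]
    refine ih ?_ (hx (φ g) (hST ⟨g, hg, rfl⟩))
    rw [Subgroup.map_commutator]
    exact Subgroup.commutator_mono hST hST

/-- `Kills` is reflected by an injective equivariant map. -/
theorem kills_reflect {Y : Type*} [Group Y] {F' : Type*} [Semiring F'] {U' : Type*} [AddCommGroup U']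
    [Module F' U'] {ρ' : Y →* Module.End F' U'} (φ : Y →* X) (p : U' →+ U) (hinj : Function.Injective p)
    (hp : ∀ (g : Y) (x : U'), p (ρ' g x) = ρ (φ g) (p x)) {S : Subgroup Y} {T : Subgroup X}
    (hST : S.map φ ≤ T) {r : ℕ} {x : U'} (hx : Kills ρ T r (p x)) : Kills ρ' S r x := by
  induction r generalizing S T x with
  | zero => rw [kills_zero_iff] at *; exact hinj (hx.trans (map_zero p).symm)
  | succ r ih =>
    intro g hg
    have h := hx (φ g) (hST ⟨g, hg, rfl⟩)
    rw [← hp, ← map_sub] at h
    refine ih ?_ h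
    rw [Subgroup.map_commutator]
    exact Subgroup.commutator_mono hST hST

/-- An operator commuting with the group preserves `Kills`. -/
theorem kills_apply {T : Subgroup X} {r : ℕ} {x : U} (f : Module.End F U)
    (hf : ∀ g ∈ T, ∀ y, f (ρ g y) = ρ g (f y)) (hx : Kills ρ T r x) : Kills ρ T r (f x) := by
  induction r generalizing T x with
  | zero => rw [kills_zero_iff] at *; rw [hx, map_zero]
  | succ r ih =>
    intro t ht
    rw [← hf t ht, ← map_sub]
    refine ih (fun g hg => hf g ?_) (hx t ht)
    exact dser_succ_le T 0 hg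

/-- One more step at the end. -/
theorem kills_shift {T : Subgroup X} : ∀ {r : ℕ} {x : U}, Kills ρ T (r + 1) x → ∀ a ∈ dser T r,
    (∀ g ∈ T, Commute (ρ a) (ρ g)) → Kills ρ T r (ρ a x - x) := by
  intro r
  induction r generalizing T with
  | zero =>
    intro x hx a ha _
    exact hx a ha
  | succ r ih =>
    intro x hx a ha hc t ht
    have h := ih (hx t ht) a (dser_succ' T r ▸ ha) (fun g hg => hc g (dser_succ_le T 0 hg))
    have e : ρ t (ρ a x - x) - (ρ a x - x) = ρ a (ρ t x - x) - (ρ t x - x) := by
      have h1 : ρ t (ρ a x) = ρ a (ρ t x) := by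
        rw [← Module.End.mul_apply, ← (hc t ht).eq, Module.End.mul_apply]
      rw [map_sub, map_sub, h1]; abel
    rw [e]
    exact h

/-- Longer products also kill. -/
theorem kills_succ {T : Subgroup X} {r : ℕ} {x : U} (hx : Kills ρ T r x) : Kills ρ T (r + 1) x := by
  induction r generalizing T x with
  | zero =>
    rw [kills_zero_iff] at hx
    rw [hx]
    exact kills_zero T 1
  | succ r ih => intro t ht; exact ih (hx t ht)

/-- `Kills` from a lifting relation: after `r` steps the rest is killed by `k` more steps. -/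
theorem kills_of_lift {G : Type*} [Group G] (ω : G →* X) (rel : G → U → Prop)
    (hstep : ∀ s t v, rel s v → rel ⁅t, s⁆ (ρ (ω t) v - v)) :
    ∀ (r k : ℕ) (S : Subgroup G), (∀ s ∈ dser S r, ∀ v, rel s v → Kills ρ ((dser S r).map ω) k v) →
      ∀ s ∈ S, ∀ v, rel s v → Kills ρ (S.map ω) (r + k) v := by
  intro r
  induction r with
  | zero =>
    intro k S h s hs v hv
    rw [Nat.zero_add]
    exact h s hs v hv
  | succ r ih =>
    intro k S h s hs v hv
    rw [Nat.succ_add]
    rintro _ ⟨t, ht, rfl⟩
    rw [← Subgroup.map_commutator]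
    refine ih k ⁅S, S⁆ ?_ ⁅t, s⁆ (Subgroup.commutator_mem_commutator ht hs) _ (hstep s t v hv)
    rw [← dser_succ']
    exact h

end kills

end Cfsg.Agent.TwoDer
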