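import Cfsg.Agent.PGroup.Basic
import Cfsg.Agent.TwoDer.Series
import Mathlib.GroupTheory.SpecificGroups.Cyclic

/-!
# A normal four-group through a central involution of the second derived subgroup
-/

set_option autoImplicit false
set_option linter.unusedSectionVars false

namespace Cfsg.Agent.TwoDer

open scoped commutatorElement
open Subgroup

variable {S : Type*} [Group S] [Finite S]

/-- In a 2-group with an element `a ≠ 1` of order two in the centre and in `S''` there is an involution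
whose conjugates only differ by `a`. -/
theorem exists_normal_four (hS : IsPGroup 2 S) {a : S} (ha2 : a * a = 1) (ha1 : a ≠ 1)
    (hac : a ∈ center S) (ha : a ∈ dser (⊤ : Subgroup S) 2) :
    ∃ b : S, b * b = 1 ∧ b ≠ 1 ∧ b ≠ a ∧ ∀ s, s * b * s⁻¹ = b ∨ s * b * s⁻¹ = a * b := by
  haveI := Fact.mk Nat.prime_two
  have hcc : IsMulCommutative (center S) :=
    ⟨⟨fun x y => Subtype.ext ((mem_center_iff.1 y.2 x.1))⟩⟩
  obtain ⟨A, hAn, hA, hcA, hCA⟩ := PGroup.exists_self_centralizing_normal_abelian hS hcc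
  have haA : a ∈ A := hcA hac
  have hAc : ∀ x ∈ A, ∀ y ∈ A, x * y = y * x := fun x hx y hy =>
    congrArg Subtype.val (hA.is_comm.comm ⟨x, hx⟩ ⟨y, hy⟩)
  obtain ⟨x, hxA, hx2, hx1, hxa⟩ : ∃ x ∈ A, x * x = 1 ∧ x ≠ 1 ∧ x ≠ a := by
    by_contra hall
    push Not at hall
    have hcard : Nat.card {x : A // x ^ 2 = 1} ≤ 2 := by
      let f : {x : A // x ^ 2 = 1} → Bool := fun x => by
        classical exact decide ((x.1 : S) = 1)
      have hf : Function.Injective f := by
        intro x y e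
        have hx := fun h => hall x.1 x.1.2 (by rw [← pow_two]; exact congrArg Subtype.val x.2) h
        have hy := fun h => hall y.1 y.1.2 (by rw [← pow_two]; exact congrArg Subtype.val y.2) h
        simp only [f, decide_eq_decide] at e
        refine Subtype.ext (Subtype.ext ?_)
        by_cases h1 : (x.1 : S) = 1
        · rw [h1, e.1 h1]
        · rw [hx h1, hy fun h => h1 (e.2 h)]
      simpa using Nat.card_le_card_of_injective f hf
    haveI : IsCyclic A := PGroup.isCyclic_of_card_omega_le (hS.to_subgroup A) hA hcard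
    have hcomm : ∀ α β : MulAut A, α * β = β * α := by
      obtain ⟨g, hg⟩ := IsCyclic.exists_generator (α := A)
      intro α β
      obtain ⟨i, hi⟩ := mem_zpowers_iff.1 (hg (α g))
      obtain ⟨j, hj⟩ := mem_zpowers_iff.1 (hg (β g))
      have e : α (β g) = β (α g) := by
        rw [← hj, ← hi, map_zpow, map_zpow, ← hi, ← hj, ← zpow_mul, ← zpow_mul, mul_comm i j]
      ext z
      obtain ⟨k, rfl⟩ := mem_zpowers_iff.1 (hg z)
      simp [map_zpow, e]
    have hle : ⁅(⊤ : Subgroup S), ⊤⁆ ≤ A := by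
      rw [← hCA, commutator_le]
      intro u _ v _
      refine mem_centralizer_iff.2 fun z hz => ?_
      have h1 : MulAut.conjNormal (H := A) ⁅u, v⁆ = 1 := by
        rw [map_commutatorElement, commutatorElement_eq_one_iff_mul_comm]
        exact hcomm _ _
      have h2 := congrArg Subtype.val (DFunLike.congr_fun h1 ⟨z, hz⟩)
      rw [MulAut.conjNormal_apply, MulAut.one_apply] at h2
      exact (mul_inv_eq_iff_eq_mul.1 h2).symm
    refine ha1 (mem_bot.1 ((commutator_le (H₃ := ⊥)).2 (fun u hu v hv => ?_) ha))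
    rw [mem_bot, commutatorElement_eq_one_iff_mul_comm]
    exact hAc u (hle hu) v (hle hv)
  let N : Subgroup S :=
    { carrier := {z | z ∈ A ∧ z * z = 1}
      one_mem' := ⟨one_mem _, one_mul 1⟩
      mul_mem' := fun {u v} hu hv => ⟨mul_mem hu.1 hv.1, by
        calc u * v * (u * v) = u * (v * u) * v := by simp [mul_assoc]
          _ = u * (u * v) * v := by rw [hAc v hv.1 u hu.1]
          _ = (u * u) * (v * v) := by simp [mul_assoc]
          _ = 1 := by rw [hu.2, hv.2, one_mul]⟩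
      inv_mem' := fun {u} hu => ⟨inv_mem hu.1, by rw [← mul_inv_rev, hu.2, inv_one]⟩ }
  haveI hNn : N.Normal := ⟨fun z hz g => ⟨hAn.conj_mem _ hz.1 g, by
    calc g * z * g⁻¹ * (g * z * g⁻¹) = g * (z * z) * g⁻¹ := by group
      _ = 1 := by rw [hz.2, mul_one, mul_inv_cancel]⟩⟩
  have hZn : (zpowers a).Normal := ⟨fun z hz g => by
    obtain ⟨k, rfl⟩ := mem_zpowers_iff.1 hz
    rw [show g * a ^ k * g⁻¹ = a ^ k by
      rw [mem_center_iff.1 (zpow_mem hac k) g, mul_inv_cancel_right]]
    exact hz⟩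
  have hza : ∀ {z : S}, z ∈ zpowers a → z = 1 ∨ z = a := by
    intro z hz
    obtain ⟨k, rfl⟩ := mem_zpowers_iff.1 hz
    have h2 : a ^ (2 : ℤ) = 1 := by rw [zpow_two, ha2]
    rcases Int.even_or_odd' k with ⟨m, rfl | rfl⟩
    · exact Or.inl (by rw [zpow_mul, h2, one_zpow])
    · exact Or.inr (by rw [zpow_add_one, zpow_mul, h2, one_zpow, one_mul])
  set π := QuotientGroup.mk' (zpowers a) with hπ
  haveI : (N.map π).Normal := hNn.map π (QuotientGroup.mk'_surjective _)
  have hne : N.map π ≠ ⊥ := fun e => by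
    have h1 : π x ∈ (⊥ : Subgroup (S ⧸ zpowers a)) := e ▸ mem_map_of_mem π ⟨hxA, hx2⟩
    rcases hza ((QuotientGroup.eq_one_iff x).1 (mem_bot.1 h1)) with h | h
    · exact hx1 h
    · exact hxa h
  obtain ⟨c, hc, hc1⟩ := Subgroup.ne_bot_iff_exists_ne_one.1
    (PGroup.inf_center_ne_bot (hS.to_quotient (zpowers a)) (N.map π) hne) |>
      fun ⟨c, hc⟩ => (⟨c.1, c.2, fun e => hc (Subtype.ext e)⟩ : ∃ c, c ∈ N.map π ⊓ center _ ∧ c ≠ 1)
  obtain ⟨b, hb, rfl⟩ := hc.1
  refine ⟨b, hb.2, ?_, ?_, fun s => ?_⟩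
  · rintro rfl
    exact hc1 (map_one π)
  · rintro rfl
    exact hc1 ((QuotientGroup.eq_one_iff b).2 (mem_zpowers b))
  · have h1 : π (s * b * s⁻¹ * b⁻¹) = 1 := by
      rw [map_mul, map_mul, map_mul, map_inv, map_inv, mem_center_iff.1 hc.2 (π s),
        mul_inv_cancel_right, mul_inv_cancel]
    rcases hza ((QuotientGroup.eq_one_iff _).1 h1) with h | h
    · exact Or.inl (mul_inv_eq_one.1 h)
    · exact Or.inr (mul_inv_eq_iff_eq_mul.1 h)

end Cfsg.Agent.TwoDer
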