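import Cfsg.Agent.TwoDer.Planes
import Mathlib.GroupTheory.QuotientGroup.Basic

/-!
# The element of order eight
-/

set_option autoImplicit false
set_option linter.unusedSectionVars false
set_option linter.style.haveILetI false

namespace Cfsg.Agent.TwoDer

open scoped commutatorElement
open Module LinearMap Subgroup Cfsg.Agent.Gross Cfsg.Agent.TwoLen

variable {q : ℕ} [Fact q.Prime] {S : Type*} [Group S] {W : Type*} [AddCommGroup W] [Module (ZMod q) W]
  [FiniteDimensional (ZMod q) W] {B : W →ₗ[ZMod q] W →ₗ[ZMod q] ZMod q}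
  {σ : S →* Module.End (ZMod q) W} {P : Submodule (ZMod q) W}

theorem scalarOn_commute {e h : S} (he : e ∈ scalarOn σ P) (hh : ∀ u ∈ P, σ h u ∈ P) :
    ∀ u ∈ P, σ e (σ h u) = σ h (σ e u) := by
  intro u hu
  rcases mem_scalarOn.1 he with h1 | h1
  · rw [h1 _ (hh u hu), h1 u hu]
  · rw [h1 _ (hh u hu), h1 u hu, map_neg]

theorem fixes_commutator {x z : S} (h : ∀ u ∈ P, σ x (σ z u) = σ z (σ x u))
    (hx : ∀ u ∈ P, σ x⁻¹ u ∈ P) (hz : ∀ u ∈ P, σ z⁻¹ u ∈ P) : ∀ u ∈ P, σ ⁅x, z⁆ u = u := by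
  intro u hu
  rw [commutatorElement_def, map_mul, map_mul, map_mul, Module.End.mul_apply, Module.End.mul_apply,
    Module.End.mul_apply, h _ (hx _ (hz u hu)), apply_apply_inv, apply_apply_inv]

/-- Every element of a 2-group acting on a plane over three elements is, up to a scalar, a word in two
non-commuting ones. -/
theorem IsPlane.cover (hP : IsPlane B P) (hσ : IsIsoRep σ B) (hq : q = 3) (hS : IsPGroup 2 S)
    {G : Subgroup S} (hG : ∀ g ∈ G, ∀ u ∈ P, σ g u ∈ P) {x z : S} (hx : x ∈ G) (hz : z ∈ G)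
    {u0 : W} (hu0 : u0 ∈ P) (hne : σ x (σ z u0) ≠ σ z (σ x u0)) {g : S} (hg : g ∈ G) :
    g ∈ scalarOn σ P ∨ g * x ∈ scalarOn σ P ∨ g * z ∈ scalarOn σ P ∨ g * (x * z) ∈ scalarOn σ P := by
  classical
  have hq2 : q ≠ 2 := by omega
  have hsq : ∀ h ∈ G, h * h ∈ scalarOn σ P := fun h hh => by
    obtain ⟨k, hk⟩ := hS h
    rw [← pow_two]
    exact hP.sq_scalar hσ hq (hG h hh) hk
  have hcomm : ∀ h ∈ G, ∀ h' ∈ G, ⁅h, h'⁆ ∈ scalarOn σ P := by
    intro h hh h' hh'
    rw [show ⁅h, h'⁆ = (h * h) * ((h⁻¹ * h') * (h⁻¹ * h')) * (h'⁻¹ * h'⁻¹) by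
      rw [commutatorElement_def]; group]
    exact mul_mem (mul_mem (hsq h hh) (hsq _ (mul_mem (inv_mem hh) hh'))) (hsq _ (inv_mem hh'))
  -- any two elements commute or anticommute on `P`
  have hsign : ∀ h ∈ G, ∀ h' ∈ G, (∀ u ∈ P, σ h (σ h' u) = σ h' (σ h u)) ∨
      (∀ u ∈ P, σ h (σ h' u) = -σ h' (σ h u)) := by
    intro h hh h' hh'
    have e : ∀ u, σ h (σ h' u) = σ ⁅h, h'⁆ (σ h' (σ h u)) := fun u => by
      simp only [← Module.End.mul_apply, ← map_mul]
      congr 2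
      rw [commutatorElement_def]; group
    rcases mem_scalarOn.1 (hcomm h hh h' hh') with h1 | h1
    · exact Or.inl fun u hu => by rw [e, h1 _ (hG h' hh' _ (hG h hh u hu))]
    · exact Or.inr fun u hu => by rw [e, h1 _ (hG h' hh' _ (hG h hh u hu))]
  have hanti : ∀ u ∈ P, σ x (σ z u) = -σ z (σ x u) :=
    (hsign x hx z hz).resolve_left fun h1 => hne (h1 u0 hu0)
  have hcen : ∀ h ∈ G, (∀ u ∈ P, σ h (σ x u) = σ x (σ h u)) → (∀ u ∈ P, σ h (σ z u) = σ z (σ h u)) →
      h ∈ scalarOn σ P := by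
    intro h hh h1 h2
    rcases mem_scalarOn.1 (hsq h hh) with hh2 | hh2
    · exact hP.scalar_of_sq hσ hq2 (hG h hh) fun u hu => by
        rw [← Module.End.mul_apply, ← map_mul]; exact hh2 u hu
    exfalso
    have hx2 : ∀ u ∈ P, σ x (σ x u) = -u := by
      rcases mem_scalarOn.1 (hsq x hx) with hx2 | hx2
      · intro u hu
        exfalso
        have hxs : x ∈ scalarOn σ P := hP.scalar_of_sq hσ hq2 (hG x hx) fun u hu => by
          rw [← Module.End.mul_apply, ← map_mul]; exact hx2 u hu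
        exact hne (scalarOn_commute hxs (hG z hz) u0 hu0)
      · intro u hu
        rw [← Module.End.mul_apply, ← map_mul]; exact hx2 u hu
    have hhx : h * x ∈ scalarOn σ P := by
      refine hP.scalar_of_sq hσ hq2 (hG _ (mul_mem hh hx)) fun u hu => ?_
      rw [map_mul, Module.End.mul_apply, Module.End.mul_apply]
      have e : σ x (σ h (σ x u)) = σ h (σ x (σ x u)) := (h1 _ (hG x hx u hu)).symm
      rw [e, ← Module.End.mul_apply (f := σ h) (g := σ h), ← map_mul,
        hh2 _ (hG x hx _ (hG x hx u hu)), hx2 u hu, neg_neg]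
    have hex : ∀ u ∈ P, σ (h * x) (σ z u) = σ z (σ (h * x) u) := scalarOn_commute hhx (hG z hz)
    have h3 := hex u0 hu0
    rw [map_mul, Module.End.mul_apply, Module.End.mul_apply, ← h2 _ (hG x hx u0 hu0)] at h3
    exact hne ((Function.LeftInverse.injective (apply_inv_apply σ h)) h3)
  have hmul : ∀ (h e : S), h ∈ G → e ∈ G → ∀ (y : S), y ∈ G →
      ((∀ u ∈ P, σ h (σ y u) = -σ y (σ h u)) ∧ (∀ u ∈ P, σ e (σ y u) = -σ y (σ e u))) ∨
      ((∀ u ∈ P, σ h (σ y u) = σ y (σ h u)) ∧ (∀ u ∈ P, σ e (σ y u) = σ y (σ e u))) →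
      ∀ u ∈ P, σ (h * e) (σ y u) = σ y (σ (h * e) u) := by
    intro h e _ he y _ hcase u hu
    rw [map_mul, Module.End.mul_apply, Module.End.mul_apply]
    rcases hcase with ⟨a1, a2⟩ | ⟨a1, a2⟩
    · rw [a2 u hu, map_neg, a1 _ (hG e he u hu), neg_neg]
    · rw [a2 u hu, a1 _ (hG e he u hu)]
  have hxx : ∀ u ∈ P, σ x (σ x u) = σ x (σ x u) := fun u _ => rfl
  have hzz : ∀ u ∈ P, σ z (σ z u) = σ z (σ z u) := fun u _ => rfl
  have hzx : ∀ u ∈ P, σ z (σ x u) = -σ x (σ z u) := fun u hu => by rw [hanti u hu, neg_neg]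
  have hxz_x : ∀ u ∈ P, σ (x * z) (σ x u) = -σ x (σ (x * z) u) := fun u hu => by
    rw [map_mul, Module.End.mul_apply, Module.End.mul_apply, hzx u hu, map_neg]
  have hxz_z : ∀ u ∈ P, σ (x * z) (σ z u) = -σ z (σ (x * z) u) := fun u hu => by
    rw [map_mul, Module.End.mul_apply, Module.End.mul_apply, hanti _ (hG z hz u hu)]
  rcases hsign g hg x hx with a | a <;> rcases hsign g hg z hz with b | b
  · exact Or.inl (hcen g hg a b)
  · exact Or.inr (Or.inl (hcen _ (mul_mem hg hx) (hmul g x hg hx x hx (Or.inr ⟨a, hxx⟩))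
      (hmul g x hg hx z hz (Or.inl ⟨b, hanti⟩))))
  · exact Or.inr (Or.inr (Or.inl (hcen _ (mul_mem hg hz) (hmul g z hg hz x hx (Or.inl ⟨a, hzx⟩))
      (hmul g z hg hz z hz (Or.inr ⟨b, hzz⟩)))))
  · exact Or.inr (Or.inr (Or.inr (hcen _ (mul_mem hg (mul_mem hx hz))
      (hmul g _ hg (mul_mem hx hz) x hx (Or.inl ⟨a, hxz_x⟩))
      (hmul g _ hg (mul_mem hx hz) z hz (Or.inl ⟨b, hxz_z⟩)))))

set_option maxHeartbeats 1600000 in
/-- **An element of order eight**. -/
theorem exists_order_eight [Finite S] (hS : IsPGroup 2 S) (hσ : IsIsoRep σ B) (hinj : Function.Injective σ)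
    (hq : q = 3) {a b s : S} (hac : a ∈ center S) (ha2 : a * a = 1) (hb2 : b * b = 1)
    (hnega : ∀ v, σ a v = -v) (hdich : ∀ g, g * b * g⁻¹ = b ∨ g * b * g⁻¹ = a * b)
    (hs : s * b * s⁻¹ = a * b) {W1 W2 : Submodule (ZMod q) W}
    (hW1 : ∀ u, u ∈ W1 ↔ σ b u = -u) (hW2 : ∀ u, u ∈ W2 ↔ σ b u = u)
    (hP1 : IsPlane B W1) (hP2 : IsPlane B W2) (ha : a ∈ dser (⊤ : Subgroup S) 2) :
    ∃ y : S, y ^ 4 = a ∧ y ^ 2 ∈ dser (⊤ : Subgroup S) 1 := by
  classical
  have hq2 : q ≠ 2 := by omega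
  have hab : Commute a b := (mem_center_iff.1 hac b).symm
  have hba : b * (a * b) = a := by rw [← mul_assoc, ← hab.eq, mul_assoc, hb2, mul_one]
  have hne_ab : b ≠ a * b := by
    intro e
    have ha1 : a = 1 := (mul_eq_right).1 e.symm
    have hbot : W1 ≠ ⊥ := fun e => by
      have := hP1.dim
      rw [e, finrank_bot] at this
      omega
    obtain ⟨u, -, hu0⟩ := Submodule.exists_mem_ne_zero_of_ne_bot hbot
    have h := hnega u
    rw [ha1, map_one, Module.End.one_apply] at h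
    have h2 : (2 : ZMod q) • u = 0 := by rw [two_smul]; nth_rw 2 [h]; exact add_neg_cancel u
    exact hu0 ((smul_eq_zero.1 h2).resolve_left (two_ne_zero_zmod hq2))
  set S0 := Subgroup.centralizer ({b} : Set S) with hS0
  have hmem0 : ∀ {g}, g ∈ S0 ↔ g * b * g⁻¹ = b := fun {g} => by
    rw [hS0, mem_centralizer_singleton_iff, mul_inv_eq_iff_eq_mul]
  have hswap : ∀ {g}, g ∉ S0 → g * b * g⁻¹ = a * b := fun {g} hg =>
    (hdich g).resolve_left fun e => hg (hmem0.2 e)
  have hsn : s ∉ S0 := fun e => hne_ab ((hmem0.1 e).symm.trans hs)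
  have hprod : ∀ {g h : S}, g ∉ S0 → h ∉ S0 → g * h ∈ S0 := fun {g h} hg hh => hmem0.2 (by
    rw [show g * h * b * (g * h)⁻¹ = g * (h * b * h⁻¹) * g⁻¹ by group, hswap hh,
      show g * (a * b) * g⁻¹ = g * a * g⁻¹ * (g * b * g⁻¹) by group, hswap hg,
      mem_center_iff.1 hac g, mul_inv_cancel_right, ← mul_assoc, ha2, one_mul])
  have hpres : ∀ g ∈ S0, (∀ u ∈ W1, σ g u ∈ W1) ∧ ∀ u ∈ W2, σ g u ∈ W2 := by
    intro g hg
    have e : ∀ u, σ b (σ g u) = σ g (σ b u) := fun u => by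
      rw [← Module.End.mul_apply, ← map_mul, ← mem_centralizer_singleton_iff.1 hg, map_mul,
        Module.End.mul_apply]
    exact ⟨fun u hu => (hW1 _).2 (by rw [e, (hW1 u).1 hu, map_neg]),
      fun u hu => (hW2 _).2 (by rw [e, (hW2 u).1 hu])⟩
  have hsw : ∀ {g}, g ∉ S0 → (∀ u, σ g u ∈ W1 ↔ u ∈ W2) ∧ ∀ u, σ g u ∈ W2 ↔ u ∈ W1 := by
    intro g hg
    have e : ∀ u, σ b (σ g u) = -σ g (σ b u) := fun u => by
      have h1 := hswap hg
      rw [mul_inv_eq_iff_eq_mul] at h1
      have h2 : b * g = a * (g * b) := by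
        rw [h1, show a * (a * b * g) = a * a * (b * g) by group, ha2, one_mul]
      rw [← Module.End.mul_apply, ← map_mul, h2, map_mul, map_mul, Module.End.mul_apply, Module.End.mul_apply,
        hnega]
    have hi := Function.LeftInverse.injective (apply_inv_apply σ g)
    refine ⟨fun u => ?_, fun u => ?_⟩
    · rw [hW1, hW2, e, neg_inj, hi.eq_iff]
    · rw [hW2, hW1, e, ← map_neg, hi.eq_iff, neg_eq_iff_eq_neg]
  set Z1 := scalarOn σ W1 with hZ1
  set Z2 := scalarOn σ W2 with hZ2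
  have htrans : ∀ (P P' : Submodule (ZMod q) W) (g : S), (∀ u, σ g u ∈ P' ↔ u ∈ P) → ∀ k ∈ scalarOn σ P,
      g * k * g⁻¹ ∈ scalarOn σ P' := by
    intro P P' g hg k hk
    have e : ∀ u, σ (g * k * g⁻¹) u = σ g (σ k (σ g⁻¹ u)) := fun u => by
      simp [Module.End.mul_apply]
    have hu' : ∀ u ∈ P', σ g⁻¹ u ∈ P := fun u hu => (hg _).1 (by rwa [apply_apply_inv])
    rcases mem_scalarOn.1 hk with h1 | h1
    · exact mem_scalarOn.2 (Or.inl fun u hu => by rw [e, h1 _ (hu' u hu), apply_apply_inv])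
    · exact mem_scalarOn.2 (Or.inr fun u hu => by rw [e, h1 _ (hu' u hu), map_neg, apply_apply_inv])
  have hinv_notmem : ∀ {g}, g ∉ S0 → g⁻¹ ∉ S0 := fun hg h => hg (inv_mem_iff.1 h)
  have hconj0 : ∀ {g k : S}, k ∈ S0 → g * k * g⁻¹ ∈ S0 := by
    intro g k hk
    by_cases hg : g ∈ S0
    · exact mul_mem (mul_mem hg hk) (inv_mem hg)
    · refine hprod (fun h => hg ?_) (hinv_notmem hg)
      have := mul_mem h (inv_mem hk)
      rwa [mul_inv_cancel_right] at this
  -- the four elements which are scalars on both planes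
  let N : Subgroup S := S0 ⊓ (Z1 ⊓ Z2)
  haveI hNn : N.Normal := ⟨fun k hk g => by
    by_cases hg : g ∈ S0
    · refine ⟨hconj0 hk.1, htrans W1 W1 g ?_ k hk.2.1, htrans W2 W2 g ?_ k hk.2.2⟩
      · refine fun u => ⟨fun h => ?_, (hpres g hg).1 u⟩
        have := (hpres _ (inv_mem hg)).1 _ h
        rwa [apply_inv_apply] at this
      · refine fun u => ⟨fun h => ?_, (hpres g hg).2 u⟩
        have := (hpres _ (inv_mem hg)).2 _ h
        rwa [apply_inv_apply] at this
    · exact ⟨hconj0 hk.1, htrans W2 W1 g (hsw hg).1 k hk.2.2, htrans W1 W2 g (hsw hg).2 k hk.2.1⟩⟩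
  have haN : a ∈ N := ⟨hmem0.2 (by rw [mul_inv_eq_iff_eq_mul, hab.eq]),
    mem_scalarOn.2 (Or.inr fun u _ => hnega u), mem_scalarOn.2 (Or.inr fun u _ => hnega u)⟩
  have hbN : b ∈ N := ⟨hmem0.2 (mul_inv_cancel_right b b),
    mem_scalarOn.2 (Or.inr fun u hu => (hW1 u).1 hu), mem_scalarOn.2 (Or.inl fun u hu => (hW2 u).1 hu)⟩
  have hext : ∀ {g h : S}, (∀ u ∈ W1, σ g u = σ h u) → (∀ u ∈ W2, σ g u = σ h u) → g = h := by
    intro g h h1 h2
    refine hinj (LinearMap.ext fun v => ?_)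
    have hsq : σ b (σ b v) = v := by rw [← Module.End.mul_apply, ← map_mul, hb2, map_one, Module.End.one_apply]
    have e1 := h1 (v - σ b v) ((hW1 _).2 (by rw [map_sub, hsq, neg_sub]))
    have e2 := h2 (v + σ b v) ((hW2 _).2 (by rw [map_add, hsq, add_comm]))
    rw [map_sub, map_sub] at e1
    rw [map_add, map_add] at e2
    have e3 : (2 : ZMod q) • σ g v = (2 : ZMod q) • σ h v := by
      rw [two_smul, two_smul]
      calc σ g v + σ g v = (σ g v - σ g (σ b v)) + (σ g v + σ g (σ b v)) := by abel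
        _ = _ := by rw [e1, e2]; abel
    have h4 : (2 : ZMod q) • (σ g v - σ h v) = 0 := by rw [smul_sub, e3, sub_self]
    exact sub_eq_zero.1 ((smul_eq_zero.1 h4).resolve_left (two_ne_zero_zmod hq2))
  set S' := dser (⊤ : Subgroup S) 1 with hS'
  have hS'0 : S' ≤ S0 := by
    rw [hS', dser_succ, dser_zero, commutator_le]
    intro g _ h _
    rw [commutatorElement_def]
    by_cases hg : g ∈ S0
    · rw [show g * h * g⁻¹ * h⁻¹ = g * (h * g⁻¹ * h⁻¹) by group]
      exact mul_mem hg (hconj0 (inv_mem hg))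
    · by_cases hh : h ∈ S0
      · exact mul_mem (hconj0 hh) (inv_mem hh)
      · rw [show g * h * g⁻¹ * h⁻¹ = g * h * (g⁻¹ * h⁻¹) by group]
        exact mul_mem (hprod hg hh) (hprod (hinv_notmem hg) (hinv_notmem hh))
  haveI hS'n : S'.Normal := by rw [hS', dser_succ, dser_zero]; infer_instance
  have haS' : a ∈ S' := dser_antitone _ (by norm_num : 1 ≤ 2) ha
  -- a non-commuting pair in `S'`
  obtain ⟨x, hxS, z, hzS, u0, hu0, hne⟩ : ∃ x ∈ S', ∃ z ∈ S', ∃ u ∈ W1, σ x (σ z u) ≠ σ z (σ x u) := by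
    by_contra hall
    push Not at hall
    let Fx : Subgroup S :=
      { carrier := {k | ∀ u ∈ W1, σ k u = u}
        one_mem' := fun u _ => by rw [map_one, Module.End.one_apply]
        mul_mem' := fun {k l} hk hl u hu => by rw [map_mul, Module.End.mul_apply, hl u hu, hk u hu]
        inv_mem' := fun {k} hk u hu => by conv_lhs => rw [← hk u hu]; rw [apply_inv_apply] }
    have hle : dser (⊤ : Subgroup S) 2 ≤ Fx := by
      rw [dser_succ, commutator_le]
      intro x hx z hz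
      exact fixes_commutator (hall x hx z hz) (hpres _ (inv_mem (hS'0 hx))).1
        (hpres _ (inv_mem (hS'0 hz))).1
    obtain ⟨u, hu, hu0⟩ := Submodule.exists_mem_ne_zero_of_ne_bot (p := W1) fun e => by
      have := hP1.dim
      rw [e, finrank_bot] at this
      omega
    have h := hle ha u hu
    rw [hnega] at h
    have h2 : (2 : ZMod q) • u = 0 := by rw [two_smul]; nth_rw 2 [← h]; exact add_neg_cancel u
    exact hu0 ((smul_eq_zero.1 h2).resolve_left (two_ne_zero_zmod hq2))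
  have hx0 := hS'0 hxS
  have hz0 := hS'0 hzS
  have hcover : ∀ g ∈ S0, ∃ e ∈ S', g * e ∈ Z1 := by
    intro g hg
    rcases hP1.cover hσ hq hS (G := S0) (fun g hg => (hpres g hg).1) hx0 hz0 hu0 hne hg with h | h | h | h
    · exact ⟨1, one_mem _, by rwa [mul_one]⟩
    · exact ⟨x, hxS, h⟩
    · exact ⟨z, hzS, h⟩
    · exact ⟨x * z, mul_mem hxS hzS, h⟩
  have hsqN : ∀ g ∈ S0, g * g ∈ N := by
    intro g hg
    obtain ⟨k, hk⟩ := hS g
    rw [← pow_two]
    exact ⟨pow_mem hg 2, hP1.sq_scalar hσ hq (hpres g hg).1 hk, hP2.sq_scalar hσ hq (hpres g hg).2 hk⟩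
  -- the quotient by `N`
  set π := QuotientGroup.mk' N with hπ
  have hπN : ∀ {k}, k ∈ N → π k = 1 := fun hk => (QuotientGroup.eq_one_iff _).2 hk
  have hsqπ : ∀ g ∈ S0, π g * π g = 1 := fun g hg => by rw [← map_mul, hπN (hsqN g hg)]
  have hinvπ : ∀ g ∈ S0, (π g)⁻¹ = π g := fun g hg => inv_eq_of_mul_eq_one_right (hsqπ g hg)
  have hcπ : ∀ g ∈ S0, ∀ h ∈ S0, Commute (π g) (π h) := fun g hg h hh => by
    have e := hinvπ (g * h) (mul_mem hg hh)
    rw [map_mul, mul_inv_rev, hinvπ g hg, hinvπ h hh] at e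
    exact e.symm
  set t := π s with ht
  have hss : s * s ∈ S0 := hprod hsn hsn
  have hfix : ∀ k ∈ S', Commute t (π k) := by
    let M : Subgroup S :=
      { carrier := {k | k ∈ S0 ∧ Commute t (π k)}
        one_mem' := ⟨one_mem _, by rw [map_one]; exact Commute.one_right t⟩
        mul_mem' := fun {k l} hk hl => ⟨mul_mem hk.1 hl.1, by rw [map_mul]; exact hk.2.mul_right hl.2⟩
        inv_mem' := fun {k} hk => ⟨inv_mem hk.1, by rw [map_inv]; exact hk.2.inv_right⟩ }
    have hφ : ∀ g ∈ S0, s * g * s⁻¹ * g⁻¹ ∈ M := by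
      intro g hg
      refine ⟨mul_mem (hconj0 hg) (inv_mem hg), ?_⟩
      rw [map_mul, map_mul, map_mul, map_inv, map_inv, hinvπ g hg, ← ht]
      show t * (t * π g * t⁻¹ * π g) = t * π g * t⁻¹ * π g * t
      have h2 : t * t * π g = π g * (t * t) := by rw [ht, ← map_mul]; exact (hcπ _ hss _ hg).eq
      have h3 : t * π g * t⁻¹ * π g = π g * (t * π g * t⁻¹) := by
        rw [show t * π g * t⁻¹ = π (s * g * s⁻¹) by rw [map_mul, map_mul, map_inv]]
        exact (hcπ _ (hconj0 hg) _ hg).eq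
      calc t * (t * π g * t⁻¹ * π g) = (t * t * π g) * t⁻¹ * π g := by group
        _ = π g * (t * t) * t⁻¹ * π g := by rw [h2]
        _ = π g * (t * π g * t⁻¹) * t := by group
        _ = _ := by rw [← h3]
    have hle : S' ≤ M := by
      rw [hS', dser_succ, dser_zero, commutator_le]
      intro g _ h _
      have hMN : ∀ {k}, k ∈ N → k ∈ M := fun {k} hk => ⟨hk.1, by rw [hπN hk]; exact Commute.one_right t⟩
      have hMconj : ∀ k ∈ M, s * k * s⁻¹ ∈ M := fun k hk => ⟨hconj0 hk.1, by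
        rw [map_mul, map_mul, map_inv, ← ht, hk.2.eq, mul_inv_cancel_right]; exact hk.2⟩
      have hcases : ∀ g, ∃ g0 ∈ S0, g = g0 ∨ g = s * g0 := fun g => by
        by_cases hg : g ∈ S0
        · exact ⟨g, hg, Or.inl rfl⟩
        · exact ⟨s⁻¹ * g, hprod (hinv_notmem hsn) hg, Or.inr (mul_inv_cancel_left s g).symm⟩
      have key : ∀ g ∈ S0, ∀ h ∈ S0, ⁅g, h⁆ ∈ N := by
        intro g hg h hh
        refine (QuotientGroup.eq_one_iff _).1 ?_
        show π ⁅g, h⁆ = 1
        rw [map_commutatorElement, commutatorElement_eq_one_iff_commute]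
        exact hcπ g hg h hh
      have key2 : ∀ g ∈ S0, ∀ h ∈ S0, ⁅s * g, h⁆ ∈ M := by
        intro g hg h hh
        rw [show ⁅s * g, h⁆ = s * ⁅g, h⁆ * s⁻¹ * (s * h * s⁻¹ * h⁻¹) by
          simp only [commutatorElement_def]; group]
        exact mul_mem (hMN (hNn.conj_mem _ (key g hg h hh) s)) (hφ h hh)
      obtain ⟨g0, hg0, rfl | rfl⟩ := hcases g <;> obtain ⟨h0, hh0, rfl | rfl⟩ := hcases h
      · exact hMN (key _ hg0 _ hh0)
      · rw [← commutatorElement_inv]
        exact inv_mem (key2 _ hh0 _ hg0)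
      · exact key2 _ hg0 _ hh0
      · rw [show ⁅s * g0, s * h0⁆ = s * (g0 * (s * h0 * g0⁻¹ * s⁻¹) * h0⁻¹) * s⁻¹ by
          rw [commutatorElement_def]; group]
        refine hMconj _ ?_
        rw [show g0 * (s * h0 * g0⁻¹ * s⁻¹) * h0⁻¹ =
          g0 * (s * (h0 * g0⁻¹) * s⁻¹ * (h0 * g0⁻¹)⁻¹) * g0⁻¹ * (g0 * (h0 * g0⁻¹) * h0⁻¹) by group]
        refine mul_mem ?_ (hMN ?_)
        · have h1 := hφ _ (mul_mem hh0 (inv_mem hg0))
          refine ⟨hconj0 h1.1, ?_⟩
          rw [map_mul, map_mul, map_inv, (hcπ g0 hg0 _ h1.1).eq, mul_inv_cancel_right]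
          exact h1.2
        · rw [show g0 * (h0 * g0⁻¹) * h0⁻¹ = ⁅g0, h0⁆ by rw [commutatorElement_def]; group]
          exact key _ hg0 _ hh0
    exact fun k hk => (hle hk).2
  -- an element scalar on the second plane only
  obtain ⟨g, hg0, hg2, hg1⟩ : ∃ g ∈ S0, g ∈ Z2 ∧ g ∉ Z1 := by
    by_contra hall
    push Not at hall
    have h12 : ∀ g ∈ S0, g ∈ Z1 → g ∈ N := fun g hg h1 => by
      refine ⟨hg, h1, ?_⟩
      have := hall (s * g * s⁻¹) (hconj0 hg) (htrans W1 W2 s (hsw hsn).2 g h1)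
      have h2 := htrans W1 W2 s⁻¹ (hsw (hinv_notmem hsn)).2 _ this
      rwa [show s⁻¹ * (s * g * s⁻¹) * s⁻¹⁻¹ = g by group] at h2
    have hct : ∀ g ∈ S0, Commute t (π g) := fun g hg => by
      obtain ⟨e, he, hge⟩ := hcover g hg
      have h1 := hπN (h12 _ (mul_mem hg (hS'0 he)) hge)
      rw [map_mul] at h1
      rw [eq_inv_of_mul_eq_one_left h1]
      exact (hfix e he).inv_right
    have hab' : ∀ g h : S, Commute (π g) (π h) := by
      have hc : ∀ g, ∃ g0 ∈ S0, π g = π g0 ∨ π g = t * π g0 := fun g => by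
        by_cases hg : g ∈ S0
        · exact ⟨g, hg, Or.inl rfl⟩
        · exact ⟨s⁻¹ * g, hprod (hinv_notmem hsn) hg, Or.inr (by rw [ht, ← map_mul, mul_inv_cancel_left])⟩
      intro g h
      obtain ⟨g0, hg0, eg | eg⟩ := hc g <;> obtain ⟨h0, hh0, eh | eh⟩ := hc h <;> rw [eg, eh]
      · exact hcπ _ hg0 _ hh0
      · exact (hct _ hg0).symm.mul_right (hcπ _ hg0 _ hh0)
      · exact (hct _ hh0).mul_left (hcπ _ hg0 _ hh0)
      · exact ((Commute.refl t).mul_right (hct _ hh0)).mul_left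
          ((hct _ hg0).symm.mul_right (hcπ _ hg0 _ hh0))
    have hS'N : S' ≤ N := by
      rw [hS', dser_succ, dser_zero, commutator_le]
      intro g _ h _
      refine (QuotientGroup.eq_one_iff _).1 ?_
      show π ⁅g, h⁆ = 1
      rw [map_commutatorElement, commutatorElement_eq_one_iff_commute]
      exact hab' g h
    exact hne (scalarOn_commute (hS'N hxS).2.1 (hpres z hz0).1 u0 hu0)
  -- hence `b` is a commutator
  have hbS' : b ∈ S' := by
    obtain ⟨k, hk, hkne⟩ : ∃ k ∈ S', ∃ u ∈ W1, σ g (σ k u) ≠ σ k (σ g u) := by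
      by_contra hall
      push Not at hall
      refine hg1 ?_
      rcases hP1.cover hσ hq hS (G := S0) (fun g hg => (hpres g hg).1) hx0 hz0 hu0 hne hg0 with h | h | h | h
      · exact h
      all_goals exfalso
      · -- `g x` is a scalar, so `g` and `z` do not commute
        refine hne ?_
        have h1 := scalarOn_commute h (hpres z hz0).1 u0 hu0
        rw [map_mul, Module.End.mul_apply, Module.End.mul_apply, ← hall z hzS _ ((hpres x hx0).1 _ hu0)] at h1
        exact Function.LeftInverse.injective (apply_inv_apply σ g) h1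
      · refine hne ?_
        have h1 := scalarOn_commute h (hpres x hx0).1 u0 hu0
        rw [map_mul, Module.End.mul_apply, Module.End.mul_apply, ← hall x hxS _ ((hpres z hz0).1 _ hu0)] at h1
        exact (Function.LeftInverse.injective (apply_inv_apply σ g) h1).symm
      · refine hne ?_
        have h1 := scalarOn_commute h (hpres x hx0).1 u0 hu0
        rw [map_mul, map_mul, Module.End.mul_apply, Module.End.mul_apply, Module.End.mul_apply,
          Module.End.mul_apply, ← hall x hxS _ ((hpres x hx0).1 _ ((hpres z hz0).1 _ hu0))] at h1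
        exact (Function.LeftInverse.injective (apply_inv_apply σ x)
          (Function.LeftInverse.injective (apply_inv_apply σ g) h1)).symm
    obtain ⟨u1, hu1, hkne⟩ := hkne
    have hk0 := hS'0 hk
    have hmem : ⁅g, k⁆ ∈ S' := by
      rw [commutatorElement_def]
      exact mul_mem (hS'n.conj_mem _ hk g) (inv_mem hk)
    have h2 : ∀ u ∈ W2, σ ⁅g, k⁆ u = u :=
      fixes_commutator (scalarOn_commute hg2 (hpres k hk0).2) (hpres _ (inv_mem hg0)).2 (hpres _ (inv_mem hk0)).2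
    have hsc : ⁅g, k⁆ ∈ Z1 := ((QuotientGroup.eq_one_iff _).1 (show π ⁅g, k⁆ = 1 by
      rw [map_commutatorElement, commutatorElement_eq_one_iff_commute]; exact hcπ g hg0 k hk0)).2.1
    have h1 : ∀ u ∈ W1, σ ⁅g, k⁆ u = -u := (mem_scalarOn.1 hsc).resolve_left fun h => hkne (by
      have e : g * k = ⁅g, k⁆ * (k * g) := by rw [commutatorElement_def]; group
      rw [← Module.End.mul_apply, ← map_mul, e, map_mul, Module.End.mul_apply, map_mul, Module.End.mul_apply,
        h _ ((hpres k hk0).1 _ ((hpres g hg0).1 _ hu1))])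
    have e : b = ⁅g, k⁆ := hext (fun u hu => by rw [h1 u hu, (hW1 u).1 hu])
      (fun u hu => by rw [h2 u hu, (hW2 u).1 hu])
    rw [e]; exact hmem
  have hNS' : N ≤ S' := by
    intro k hk
    rcases mem_scalarOn.1 hk.2.1 with h1 | h1 <;> rcases mem_scalarOn.1 hk.2.2 with h2 | h2
    · rw [hext (g := k) (h := 1) (fun u hu => by rw [h1 u hu, map_one]; rfl)
        (fun u hu => by rw [h2 u hu, map_one]; rfl)]
      exact one_mem _
    · rw [hext (g := k) (h := a * b) (fun u hu => by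
          rw [h1 u hu, map_mul, Module.End.mul_apply, (hW1 u).1 hu, hnega, neg_neg])
        (fun u hu => by rw [h2 u hu, map_mul, Module.End.mul_apply, (hW2 u).1 hu, hnega])]
      exact mul_mem haS' hbS'
    · rw [hext (g := k) (h := b) (fun u hu => by rw [h1 u hu, (hW1 u).1 hu])
        (fun u hu => by rw [h2 u hu, (hW2 u).1 hu])]
      exact hbS'
    · rw [hext (g := k) (h := a) (fun u hu => by rw [h1 u hu, hnega])
        (fun u hu => by rw [h2 u hu, hnega])]
      exact haS'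
  -- the square of `s`
  have hs2 : s * s ∈ S' := by
    obtain ⟨e, he, hk1⟩ := hcover (s * s) hss
    set k := s * s * e with hk
    have hk0 : k ∈ S0 := mul_mem hss (hS'0 he)
    have hkfix : s * k * s⁻¹ * k⁻¹ ∈ N := by
      refine (QuotientGroup.eq_one_iff _).1 ?_
      show π _ = 1
      have hc : Commute t (π k) := by
        rw [hk, map_mul, map_mul]
        exact (((Commute.refl t).mul_right (Commute.refl t))).mul_right (hfix e he)
      rw [map_mul, map_mul, map_mul, map_inv, map_inv, ← ht, hc.eq, mul_inv_cancel_right, mul_inv_cancel]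
    have hk2 : k ∈ Z2 := by
      have h2 : s * k * s⁻¹ ∈ Z2 := htrans W1 W2 s (hsw hsn).2 k hk1
      have h3 : (s * k * s⁻¹ * k⁻¹)⁻¹ * (s * k * s⁻¹) ∈ Z2 := mul_mem (inv_mem hkfix.2.2) h2
      rwa [show (s * k * s⁻¹ * k⁻¹)⁻¹ * (s * k * s⁻¹) = k by group] at h3
    have := mul_mem (hNS' ⟨hk0, hk1, hk2⟩) (inv_mem he)
    rwa [hk, mul_inv_cancel_right] at this
  obtain ⟨y, hy0, hy1, hy2⟩ : ∃ y, y ∉ S0 ∧ y * y ∉ Z1 ∧ y * y ∈ S' := by
    by_cases hs1 : s * s ∈ Z1
    · refine ⟨s * g, fun h => hsn ?_, ?_, ?_⟩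
      · have := mul_mem h (inv_mem hg0); rwa [mul_inv_cancel_right] at this
      · intro h
        have hkey : s⁻¹ * g * s⁻¹⁻¹ ∈ Z1 := htrans W2 W1 s⁻¹ (hsw (hinv_notmem hsn)).1 g hg2
        refine hg1 ?_
        have := mul_mem (inv_mem (mul_mem hs1 hkey)) h
        rwa [show (s * s * (s⁻¹ * g * s⁻¹⁻¹))⁻¹ * (s * g * (s * g)) = g by group] at this
      · rw [show s * g * (s * g) = s * s * ((s⁻¹ * g * s⁻¹⁻¹ * g⁻¹) * (g * g)) by group]
        refine mul_mem hs2 (mul_mem ?_ (hNS' (hsqN g hg0)))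
        rw [hS', dser_succ, dser_zero, ← commutatorElement_def]
        exact commutator_mem_commutator (mem_top _) (mem_top _)
    · exact ⟨s, hsn, hs1, hs2⟩
  refine ⟨y, ?_, by rwa [pow_two]⟩
  have hyy : y * y ∈ S0 := hS'0 hy2
  have h1 : ∀ u ∈ W1, σ (y * y * (y * y)) u = -u := by
    rcases mem_scalarOn.1 ((hsqN _ hyy).2.1) with h | h
    · exact absurd (hP1.scalar_of_sq hσ hq2 (hpres _ hyy).1 fun u hu => by
        rw [← Module.End.mul_apply, ← map_mul, h u hu]) hy1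
    · exact h
  have h2 : ∀ u ∈ W2, σ (y * y * (y * y)) u = -u := by
    intro u hu
    have hu' : σ y⁻¹ u ∈ W1 := ((hsw (hinv_notmem hy0)).1 u).2 hu
    rw [show y * y * (y * y) = y * (y * y * (y * y)) * y⁻¹ by group, map_mul, map_mul, Module.End.mul_apply,
      Module.End.mul_apply, h1 _ hu', map_neg, apply_apply_inv]
  rw [show y ^ 4 = y * y * (y * y) by simp [pow_succ, mul_assoc]]
  exact hext (fun u hu => by rw [h1 u hu, hnega]) (fun u hu => by rw [h2 u hu, hnega])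

end Cfsg.Agent.TwoDer
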