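import Cfsg.Agent.TwoDer.SysRefl
import Cfsg.Agent.TwoLen.Plane

/-!
# Length two: at most one involution, and reflections of order four
-/

set_option autoImplicit false
set_option linter.unusedSectionVars false
set_option linter.style.haveILetI false

namespace Cfsg.Agent.TwoDer

open scoped commutatorElement
open Module LinearMap Cfsg.Agent.Gross

variable {q : ℕ} [Fact q.Prime] {F : Type*} [Field F] [CharP F 2] {S : Type*} [Group S] {W : Type*}
  [AddCommGroup W] [Module (ZMod q) W] [FiniteDimensional (ZMod q) W] {U : Type*} [AddCommGroup U]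
  [Module F U] [Nontrivial U] {ζ : F} {B : W →ₗ[ZMod q] W →ₗ[ZMod q] ZMod q}
  {σ : S →* Module.End (ZMod q) W} {ρ : S →* Module.End F U} {w : W → Module.End F U}

theorem two_smul_injective {M : Type*} [AddCommGroup M] [Module (ZMod q) M] (hq : q ≠ 2) {x y : M}
    (e : (2 : ZMod q) • x = (2 : ZMod q) • y) : x = y := by
  have h1 : (2 : ZMod q) • (x - y) = 0 := by rw [smul_sub, e, sub_self]
  exact sub_eq_zero.1 ((smul_eq_zero.1 h1).resolve_left (two_ne_zero_zmod hq))

theorem IsSys.no_mixed_vector (h : IsSys ζ B σ ρ w) {τ ω : S} (hτ2 : ∀ v, σ τ (σ τ v) = v)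
    (h0 : ∀ x, ρ ω (ρ τ x - x) = ρ τ x - x) (hτ : σ τ ≠ 1) {u : W} (hu : σ τ u = u) (hωu : σ ω u = -u) :
    u = 0 := by
  by_contra hu0
  obtain ⟨v, hv⟩ : ∃ v, B v u ≠ 0 := by
    by_contra hall
    push Not at hall
    exact hu0 (h.iso.nondeg u hall)
  set u' := v + σ τ v with hu'
  have hfix : σ τ u' = u' := by rw [hu', map_add, hτ2, add_comm]
  have hB : B u u' ≠ 0 := by
    have e : B u (σ τ v) = B u v := by
      conv_lhs => arg 1; rw [← hu]
      exact h.iso.iso τ u v
    rw [hu', map_add, e, ← two_mul]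
    refine mul_ne_zero (two_ne_zero_zmod h.ne_two) ?_
    rw [alt_swap h.iso.alt]
    exact neg_ne_zero.2 hv
  obtain ⟨e, he, hinv⟩ := h.exists_inverted hωu
  set R := range (ρ τ - 1) with hR
  have hmem : ∀ {a : W}, σ τ a = a → ∀ x ∈ R, w a x ∈ R := by
    rintro a ha _ ⟨x, rfl⟩
    refine ⟨w a x, ?_⟩
    rw [LinearMap.sub_apply, Module.End.one_apply, LinearMap.sub_apply, Module.End.one_apply, map_sub,
      ← Module.End.mul_apply, h.commute_of_fixed ha, Module.End.mul_apply]
  have hfixR : ∀ x ∈ R, ρ ω x = x := by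
    rintro _ ⟨x, rfl⟩
    simpa only [LinearMap.sub_apply, Module.End.one_apply] using h0 x
  set T := e • w u with hT
  have hTq : T ^ q = 1 := by rw [hT, smul_pow, he, h.exp, one_smul]
  have hTR : ∀ x ∈ R, T x = x := by
    intro x hx
    have hTx : T x ∈ R := by
      rw [hT, LinearMap.smul_apply]
      exact Submodule.smul_mem _ _ (hmem hu x hx)
    have h1 := LinearMap.congr_fun hinv x
    rw [Module.End.mul_apply, Module.End.mul_apply, hfixR _ hTx, hfixR x hx] at h1
    have h2 : (T * T) x = x := by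
      rw [Module.End.mul_apply, h1, ← Module.End.mul_apply, ← pow_succ',
        Nat.sub_add_cancel (Fact.out : q.Prime).one_le, hTq, Module.End.one_apply]
    obtain ⟨r, hr⟩ := (Fact.out : q.Prime).odd_of_ne_two h.ne_two
    have h3 : ∀ k, ((T * T) ^ k) x = x := by
      intro k
      induction k with
      | zero => rfl
      | succ k ih => rw [pow_succ, Module.End.mul_apply, h2, ih]
    have h4 := LinearMap.congr_fun hTq x
    rw [hr, pow_succ', Module.End.mul_apply, pow_mul, pow_two, h3, Module.End.one_apply] at h4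
    exact h4
  obtain ⟨x, hx, hx0⟩ : ∃ x ∈ R, x ≠ 0 := by
    refine Submodule.exists_mem_ne_zero_of_ne_bot fun hbot => hτ (h.sigma_eq_one (LinearMap.ext fun y => ?_))
    have h1 : (ρ τ - 1) y ∈ R := ⟨y, rfl⟩
    rw [hbot, Submodule.mem_bot, LinearMap.sub_apply, sub_eq_zero] at h1
    exact h1
  have h1 := hTR _ (hmem hfix x hx)
  have h2 := LinearMap.congr_fun (h.comm u u') x
  have h3 : T (w u' x) = ζ ^ (B u u').val • w u' (T x) := by
    simp only [hT, LinearMap.smul_apply, map_smul]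
    rw [← Module.End.mul_apply, h2, LinearMap.smul_apply, Module.End.mul_apply, smul_comm]
  rw [h1, hTR x hx] at h3
  have hne : w u' x ≠ 0 := fun e0 => hx0 (by
    obtain ⟨wu, hwu⟩ := h.w_unit u'
    have := congrArg (↑wu⁻¹ : Module.End F U) e0
    rwa [map_zero, ← Module.End.mul_apply, ← hwu, Units.inv_mul, Module.End.one_apply] at this)
  have h4 : ζ ^ (B u u').val = ζ ^ 0 := by
    rw [pow_zero]
    exact (smul_left_injective F hne (h3.symm.trans (one_smul F _).symm))
  exact hB (by simpa using h.prim.pow_inj (ZMod.val_lt _) (Fact.out : q.Prime).pos h4)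

theorem sub_one_pow_two_pow (ρ : S →* Module.End F U) (g : S) (k : ℕ) :
    (ρ g - 1) ^ 2 ^ k = ρ (g ^ 2 ^ k) - 1 := by
  haveI := Fact.mk Nat.prime_two
  haveI : CharP (Module.End F U) 2 :=
    charP_of_injective_algebraMap (algebraMap F (Module.End F U)).injective 2
  rw [sub_pow_char_pow_of_commute _ _ (Commute.one_right _), one_pow, map_pow]

/-- **Length two.** -/
theorem IsSys.two_lemma [Finite S] [FiniteDimensional F U] (h : IsSys ζ B σ ρ w)
    (hinj : Function.Injective σ) {a : S} (ha2 : a * a = 1) (ha1 : a ≠ 1)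
    (hac : a ∈ Subgroup.center S) (hacomm : a ∈ dser (⊤ : Subgroup S) 1)
    (hkill : ∀ s x, ρ s (ρ a x - x) = ρ a x - x) :
    IsReflPrime q 2 ∧ ∀ s : S, s = 1 ∨ s = a ∨ (IsRefl σ 2 s ∧ s ^ 2 = a) := by
  haveI := Fact.mk Nat.prime_two
  have hcomm : ∀ s : S, Commute a s := fun s => (Subgroup.mem_center_iff.1 hac s).symm
  have hone : ∀ {s : S}, s ≠ 1 → σ s ≠ 1 := fun hs e => hs (hinj (by rw [e, map_one]))
  have hsq : ∀ {s : S}, s * s = 1 → ∀ v, σ s (σ s v) = v := fun hs v => by
    rw [← Module.End.mul_apply, ← map_mul, hs, map_one, Module.End.one_apply]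
  have hinv : ∀ ω : S, ω * ω = 1 → ω ≠ 1 → ω = a := by
    intro ω hω hω1
    have hc : ∀ v, σ a (σ ω v) = σ ω (σ a v) := fun v => by
      rw [← Module.End.mul_apply, ← map_mul, (hcomm ω).eq, map_mul, Module.End.mul_apply]
    have h0' : ∀ x, ρ a (ρ ω x - x) = ρ ω x - x := fun x => by
      have e := hkill ω x
      have e2 : ρ a (ρ ω x) = ρ ω (ρ a x) := by
        rw [← Module.End.mul_apply, ← map_mul, (hcomm ω).eq, map_mul, Module.End.mul_apply]
      rw [map_sub] at e ⊢
      rw [e2]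
      rw [sub_eq_iff_eq_add] at e
      rw [e]; abel
    have hplus : ∀ x, σ a x = x → σ ω x = x := fun x hx => by
      refine sub_eq_zero.1 (h.no_mixed_vector (hsq ha2) (hkill ω) (hone ha1) (u := σ ω x - x) ?_ ?_)
      · rw [map_sub, hc, hx]
      · rw [map_sub, hsq hω, neg_sub]
    have hminus : ∀ y, σ a y = -y → σ ω y = -y := fun y hy => by
      refine eq_neg_of_add_eq_zero_left (h.no_mixed_vector (hsq hω) h0' (hone hω1) (u := σ ω y + y) ?_ ?_)
      · rw [map_add, hsq hω, add_comm]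
      · rw [map_add, hc, hy, map_neg, neg_add]
    refine hinj (LinearMap.ext fun v => two_smul_injective h.ne_two ?_)
    have e1 := hplus (v + σ a v) (by rw [map_add, hsq ha2, add_comm])
    have e2 := hminus (v - σ a v) (by rw [map_sub, hsq ha2, neg_sub])
    rw [map_add] at e1
    rw [map_sub] at e2
    rw [two_smul, two_smul]
    calc σ ω v + σ ω v = (σ ω v + σ ω (σ a v)) + (σ ω v - σ ω (σ a v)) := by abel
      _ = _ := by rw [e1, e2]; abel
  have hkey : ∀ (s : S) (n : ℕ), orderOf s = 2 ^ (n + 2) → IsReflPrime q (n + 2) ∧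
      IsRefl σ (n + 2) s ∧ s ^ 2 ^ (n + 1) = a := by
    intro s n hs
    have hs1 : s ^ 2 ^ (n + 1) ≠ 1 := by
      refine pow_ne_one_of_lt_orderOf (pow_ne_zero _ two_ne_zero) ?_
      rw [hs]; exact Nat.pow_lt_pow_right (by norm_num) (by omega)
    have hsa : s ^ 2 ^ (n + 1) = a := hinv _ (by
      rw [← pow_add, ← Nat.two_mul, ← pow_succ', ← hs, pow_orderOf_eq_one]) hs1
    have hexc : (ρ s - 1) ^ (2 ^ (n + 2) - 1) = 0 := by
      have h1 : (ρ s - 1) ^ (2 ^ (n + 1) + 1) = 0 := by
        rw [pow_succ', sub_one_pow_two_pow, hsa]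
        refine LinearMap.ext fun x => ?_
        rw [Module.End.mul_apply, LinearMap.sub_apply, LinearMap.sub_apply, Module.End.one_apply,
          Module.End.one_apply, hkill, sub_self, LinearMap.zero_apply]
      refine pow_eq_zero_of_le ?_ h1
      have : 2 ≤ 2 ^ (n + 1) := by
        calc 2 = 2 ^ 1 := (pow_one 2).symm
          _ ≤ 2 ^ (n + 1) := Nat.pow_le_pow_right (by norm_num) (by omega)
      rw [pow_succ 2 (n + 1)]
      omega
    obtain ⟨hm, hr⟩ := h.refl (by omega) (hs ▸ pow_orderOf_eq_one s) hexc (by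
      rw [show n + 2 - 1 = n + 1 by omega, hsa]; exact hone ha1)
    exact ⟨hm, hr, hsa⟩
  have hord : ∀ s : S, s = 1 ∨ s = a ∨ ∃ n, orderOf s = 2 ^ (n + 2) := by
    intro s
    obtain ⟨k, hk⟩ := (IsPGroup.iff_orderOf.1 h.pgroup) s
    match k, hk with
    | 0, hk => exact Or.inl (orderOf_eq_one_iff.1 (by simpa using hk))
    | 1, hk =>
      refine Or.inr (Or.inl (hinv s ?_ ?_))
      · rw [← pow_two, show 2 = orderOf s by rw [hk, pow_one], pow_orderOf_eq_one]
      · rintro rfl
        simp at hk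
    | n + 2, hk => exact Or.inr (Or.inr ⟨n, hk⟩)
  obtain ⟨s0, hs0⟩ : ∃ s : S, s * s ≠ 1 := by
    by_contra hall
    push Not at hall
    refine ha1 (Subgroup.mem_bot.1 ((Subgroup.commutator_le (H₃ := ⊥)).2 (fun x _ y _ => ?_) hacomm))
    rw [Subgroup.mem_bot, commutatorElement_eq_one_iff_mul_comm]
    have hxi : ∀ z : S, z⁻¹ = z := fun z => inv_eq_of_mul_eq_one_right (hall z)
    calc x * y = (x * y)⁻¹ := (hxi _).symm
      _ = _ := by rw [mul_inv_rev, hxi, hxi]
  have hm2 : IsReflPrime q 2 := by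
    rcases hord s0 with rfl | rfl | ⟨n, hn⟩
    · exact absurd (one_mul 1) hs0
    · exact absurd ha2 hs0
    · have ho : orderOf (s0 ^ 2 ^ n) = 2 ^ (0 + 2) := by
        rw [orderOf_pow' _ (pow_ne_zero _ two_ne_zero), hn, Nat.gcd_eq_right (pow_dvd_pow 2 (by omega)),
          Nat.pow_div (by omega) (by norm_num)]
        congr 1; omega
      exact (hkey _ 0 ho).1
  refine ⟨hm2, fun s => ?_⟩
  rcases hord s with h' | h' | ⟨n, hn⟩
  · exact Or.inl h'
  · exact Or.inr (Or.inl h')
  · obtain ⟨hm, hr, hsa⟩ := hkey s n hn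
    have hn0 : n = 0 := by
      have := Nat.pow_right_injective le_rfl (hm.eq.symm.trans hm2.eq)
      omega
    subst hn0
    exact Or.inr (Or.inr ⟨hr, by simpa using hsa⟩)

/-- If the central involution is `-1`, the space is a plane. -/
theorem IsSys.finrank_eq_two [Finite S] [FiniteDimensional F U] (h : IsSys ζ B σ ρ w)
    (hinj : Function.Injective σ) {a : S} (ha2 : a * a = 1) (ha1 : a ≠ 1)
    (hac : a ∈ Subgroup.center S) (hacomm : a ∈ dser (⊤ : Subgroup S) 1)
    (hkill : ∀ s x, ρ s (ρ a x - x) = ρ a x - x) (hneg : ∀ v, σ a v = -v) :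
    q = 3 ∧ finrank (ZMod q) W = 2 := by
  obtain ⟨hm, hall⟩ := h.two_lemma hinj ha2 ha1 hac hacomm hkill
  have hq : q = 3 := by have := hm.eq; omega
  refine ⟨hq, ?_⟩
  obtain ⟨s, hs⟩ : ∃ s : S, s ≠ 1 ∧ s ≠ a := by
    by_contra hA
    push Not at hA
    refine ha1 (Subgroup.mem_bot.1 ((Subgroup.commutator_le (H₃ := ⊥)).2 (fun x _ y _ => ?_) hacomm))
    rw [Subgroup.mem_bot, commutatorElement_eq_one_iff_mul_comm]
    by_cases hx : x = 1
    · rw [hx, one_mul, mul_one]
    · rw [hA x hx]; exact (Subgroup.mem_center_iff.1 hac y).symm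
  obtain ⟨hr, hsa⟩ := ((hall s).resolve_left hs.1).resolve_left hs.2
  have htop : moved σ s = ⊤ := by
    refine eq_top_iff.2 fun v _ => ?_
    rw [← TwoLen.moved_pow_half hm hr, show 2 ^ (2 - 1) = 2 from rfl, hsa]
    have hmem := sub_mem_moved σ a v
    rw [hneg, show -v - v = (-2 : ZMod q) • v by rw [neg_smul, two_smul]; abel] at hmem
    exact (Submodule.smul_mem_iff _ (neg_ne_zero.2 (two_ne_zero_zmod h.ne_two))).1 hmem
  rw [← finrank_top (ZMod q) W, ← htop]
  exact hr.dim

end Cfsg.Agent.TwoDer
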