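import Cfsg.Agent.TwoDer.Average
import Cfsg.Agent.TwoDer.Two
import Cfsg.Agent.TwoDer.PlaneFinish
import Cfsg.Agent.TwoDer.FourGroup

/-!
# No system of length at least three
-/

set_option autoImplicit false
set_option linter.unusedSectionVars false
set_option linter.style.haveILetI false

namespace Cfsg.Agent.TwoDer

open scoped commutatorElement
open Module LinearMap Cfsg.Agent.Gross

universe uS uW uU

section transfer

variable {F : Type*} [Ring F] {X : Type*} [Group X] {U : Type*} [AddCommGroup U] [Module F U]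
  {ρ : X →* Module.End F U}

/-- Transfer to a quotient group acting on an invariant submodule. -/
theorem kills_push {Y : Type*} [Group Y] {U' : Type*} [AddCommGroup U'] [Module F U']
    {ρ' : Y →* Module.End F U'} (φ : X →* Y) (p : U' →+ U) (hinj : Function.Injective p)
    (hp : ∀ (g : X) (x : U'), p (ρ' (φ g) x) = ρ g (p x)) {T : Subgroup X} {r : ℕ} {x : U'}
    (hx : Kills ρ T r (p x)) : Kills ρ' (T.map φ) r x := by
  induction r generalizing T x with
  | zero => rw [kills_zero_iff] at *; exact hinj (hx.trans (map_zero p).symm)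
  | succ r ih =>
    rintro _ ⟨g, hg, rfl⟩
    have h := hx g hg
    rw [← hp, ← map_sub] at h
    rw [← Subgroup.map_commutator]
    exact ih h

theorem kills_subquot {T : Subgroup X} {U1 : Submodule F U} {Q : Submodule F U1}
    {ρ1 : T →* Module.End F (U1 ⧸ Q)}
    (hρ : ∀ (g : T) (x : U1), ∃ hx : ρ (g : X) x ∈ U1,
      ρ1 g (Submodule.Quotient.mk x) = Submodule.Quotient.mk ⟨ρ (g : X) x, hx⟩)
    {R : Subgroup T} {r : ℕ} {x : U1} (hx : Kills ρ (R.map T.subtype) r (x : U)) :
    Kills ρ1 R r (Submodule.Quotient.mk x) := by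
  induction r generalizing R x with
  | zero =>
    rw [kills_zero_iff] at *
    rw [show x = 0 from Subtype.ext hx, Submodule.Quotient.mk_zero]
  | succ r ih =>
    intro g hg
    obtain ⟨h1, h2⟩ := hρ g x
    rw [h2, ← Submodule.Quotient.mk_sub]
    refine ih ?_
    rw [Subgroup.map_commutator]
    exact hx g ⟨g, hg, rfl⟩

theorem map_dser_top_subtype (T : Subgroup X) (k : ℕ) :
    (dser (⊤ : Subgroup T) k).map T.subtype = dser T k := by
  rw [← dser_map, ← MonoidHom.range_eq_map, Subgroup.range_subtype]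

theorem mem_dser_top {T : Subgroup X} {k : ℕ} {g : T} (h : (g : X) ∈ dser T k) :
    g ∈ dser (⊤ : Subgroup T) k := by
  rw [← map_dser_top_subtype] at h
  obtain ⟨g', hg', e⟩ := h
  rwa [← T.subtype_injective e]

end transfer

variable {q : ℕ} [Fact q.Prime] {F : Type*} [Field F] [CharP F 2] {ζ : F}

theorem exists_fixed_of_square {U : Type*} [AddCommGroup U] [Module F U] {N : Module.End F U}
    {X : Submodule F U} (hX : X ≠ ⊥) (hN : ∀ x ∈ X, N x ∈ X) (hN2 : ∀ x, N (N x) = x) :
    X ⊓ ker (N - 1) ≠ ⊥ := by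
  intro hbot
  obtain ⟨x, hx, hx0⟩ := Submodule.exists_mem_ne_zero_of_ne_bot hX
  have hmem : ∀ y ∈ X, N y = y → y = 0 := fun y hy e => by
    have : y ∈ X ⊓ ker (N - 1) :=
      ⟨hy, by simp only [SetLike.mem_coe, LinearMap.mem_ker, LinearMap.sub_apply, e, Module.End.one_apply, sub_self]⟩
    rwa [hbot, Submodule.mem_bot] at this
  have h1 := hmem (N x + x) (add_mem (hN x hx) hx) (by rw [map_add, hN2, add_comm])
  refine hx0 (hmem x hx ?_)
  rw [eq_neg_of_add_eq_zero_left h1, ← neg_one_smul F x, CharTwo.neg_eq, one_smul]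

set_option maxHeartbeats 1600000 in
/-- **No system of length at least three.** -/
theorem deep_aux : ∀ (n : ℕ) (S : Type uS) [Group S] [Finite S] (W : Type uW) [AddCommGroup W]
    [Module (ZMod q) W] [FiniteDimensional (ZMod q) W] [Nontrivial W] (U : Type uU) [AddCommGroup U]
    [Module F U] [FiniteDimensional F U] [Nontrivial U] (B : W →ₗ[ZMod q] W →ₗ[ZMod q] ZMod q)
    (σ : S →* Module.End (ZMod q) W) (ρ : S →* Module.End F U) (w : W → Module.End F U)
    (_ : IsSys ζ B σ ρ w) (r : ℕ) (_ : 3 ≤ r) (a : S) (_ : a ∈ dser (⊤ : Subgroup S) (r - 1))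
    (_ : ∀ v, σ a v = -v) (_ : ∀ x, Kills ρ ⊤ (r - 1) (ρ a x - x)),
    finrank (ZMod q) W ≤ n → False := by
  intro n
  induction n with
  | zero =>
    intro S _ _ W _ _ _ _ U _ _ _ _ B σ ρ w h r _ a _ _ _ hn
    have := Module.finrank_pos (R := ZMod q) (M := W)
    omega
  | succ n ih =>
    intro S0 _ _ W _ _ _ _ U0' _ _ _ _ B σ0 ρ0 w0 h0 r hr a0 ha0 hneg0 hk0 hn
    -- pass to a faithful system
    obtain ⟨U', hU', σ, ρ, w, h, hinj, hσeq, hρeq⟩ := h0.exists_faithful
    set π : S0 →* S0 ⧸ σ0.ker := QuotientGroup.mk' σ0.ker with hπ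
    set a := π a0 with ha_def
    have hneg : ∀ v, σ a v = -v := fun v => by rw [← hneg0 v, ← hσeq]; rfl
    have htopmap : (⊤ : Subgroup S0).map π = ⊤ := Subgroup.map_top_of_surjective _ (QuotientGroup.mk'_surjective _)
    have haS : a ∈ dser (⊤ : Subgroup (S0 ⧸ σ0.ker)) (r - 1) := by
      rw [← htopmap, dser_map]; exact Subgroup.mem_map_of_mem π ha0
    have hk : ∀ x, Kills ρ ⊤ (r - 1) (ρ a x - x) := fun x => by
      rw [← htopmap]
      refine kills_push π U'.subtype.toAddMonoidHom U'.subtype_injective (fun g y => hρeq g y) ?_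
      have e : (U'.subtype.toAddMonoidHom (ρ a x - x)) = ρ0 a0 x - x := by
        show ((ρ a x - x : U') : U0') = _
        rw [Submodule.coe_sub, ← hρeq a0 x]; rfl
      rw [e]; exact hk0 x
    clear hk0 ha0 hneg0 h0
    haveI := hU'
    have hq2 := h.ne_two
    haveI : NeZero q := ⟨(Fact.out : q.Prime).ne_zero⟩
    have hac : a ∈ Subgroup.center (S0 ⧸ σ0.ker) := Subgroup.mem_center_iff.2 fun g => hinj (LinearMap.ext fun v => by
      rw [map_mul, map_mul, Module.End.mul_apply, Module.End.mul_apply, hneg, hneg, map_neg])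
    have ha2 : a * a = 1 := hinj (LinearMap.ext fun v => by
      rw [map_mul, map_one, Module.End.mul_apply, hneg, hneg, neg_neg, Module.End.one_apply])
    have hv0 : ∀ v : W, v = -v → v = 0 := fun v e => by
      have h2 : (2 : ZMod q) • v = 0 := by rw [two_smul]; nth_rw 2 [e]; exact add_neg_cancel v
      exact (smul_eq_zero.1 h2).resolve_left (two_ne_zero_zmod hq2)
    have ha1 : a ≠ 1 := fun e => by
      obtain ⟨v, hv⟩ := exists_ne (0 : W)
      refine hv (hv0 v ?_)
      rw [← hneg v, e, map_one, Module.End.one_apply]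
    have ha22 : a ∈ dser (⊤ : Subgroup (S0 ⧸ σ0.ker)) 2 := dser_antitone _ (by omega) haS
    obtain ⟨b, hb2, hb1, hba, hbc⟩ := exists_normal_four h.pgroup ha2 ha1 hac ha22
    have hab : Commute a b := (Subgroup.mem_center_iff.1 hac b).symm
    set b' := a * b with hb'
    have hb'2 : b' * b' = 1 := by rw [hb', hab.symm.mul_mul_mul_comm, ha2, hb2, one_mul]
    have haeq : a = b * b' := by rw [hb', ← mul_assoc, ← hab.eq, mul_assoc, hb2, mul_one]
    set W1 : Submodule (ZMod q) W := ker (σ b + 1) with hW1d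
    set W2 : Submodule (ZMod q) W := ker (σ b - 1) with hW2d
    have hW1 : ∀ u, u ∈ W1 ↔ σ b u = -u := fun u => by
      rw [hW1d, LinearMap.mem_ker, LinearMap.add_apply, Module.End.one_apply, add_eq_zero_iff_eq_neg]
    have hW2 : ∀ u, u ∈ W2 ↔ σ b u = u := fun u => by
      rw [hW2d, LinearMap.mem_ker, LinearMap.sub_apply, Module.End.one_apply, sub_eq_zero]
    have hsq : ∀ v, σ b (σ b v) = v := fun v => by
      rw [← Module.End.mul_apply, ← map_mul, hb2, map_one, Module.End.one_apply]
    have hperp : ∀ u ∈ W1, ∀ v ∈ W2, B u v = 0 := fun u hu v hv => by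
      have e := h.iso.iso b u v
      rw [(hW1 u).1 hu, (hW2 v).1 hv, map_neg, LinearMap.neg_apply] at e
      have h2 : (2 : ZMod q) * B u v = 0 := by linear_combination (-1 : ZMod q) * e
      exact (mul_eq_zero.1 h2).resolve_left (two_ne_zero_zmod hq2)
    have hsplit : ∀ v : W, ∃ p ∈ W1, ∃ m ∈ W2, (2 : ZMod q) • v = p + m := fun v =>
      ⟨v - σ b v, (hW1 _).2 (by rw [map_sub, hsq, neg_sub]), v + σ b v,
        (hW2 _).2 (by rw [map_add, hsq, add_comm]), by rw [two_smul]; abel⟩
    have hnd1 : ∀ v ∈ W1, (∀ u ∈ W1, B u v = 0) → v = 0 := fun v hv e => h.iso.nondeg v fun x => by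
      obtain ⟨p, hp, m, hm, hx⟩ := hsplit x
      have h2 : B ((2 : ZMod q) • x) v = 0 := by
        rw [hx, map_add, LinearMap.add_apply, e p hp, alt_swap h.iso.alt, hperp v hv m hm]; simp
      rw [map_smul, LinearMap.smul_apply, smul_eq_mul] at h2
      exact (mul_eq_zero.1 h2).resolve_left (two_ne_zero_zmod hq2)
    have hnd2 : ∀ v ∈ W2, (∀ u ∈ W2, B u v = 0) → v = 0 := fun v hv e => h.iso.nondeg v fun x => by
      obtain ⟨p, hp, m, hm, hx⟩ := hsplit x
      have h2 : B ((2 : ZMod q) • x) v = 0 := by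
        rw [hx, map_add, LinearMap.add_apply, e m hm, hperp p hp v hv]; simp
      rw [map_smul, LinearMap.smul_apply, smul_eq_mul] at h2
      exact (mul_eq_zero.1 h2).resolve_left (two_ne_zero_zmod hq2)
    haveI hW1nt : Nontrivial W1 := Submodule.nontrivial_iff_ne_bot.2 fun e => hb1 (hinj (LinearMap.ext fun v => by
      have h1 : v - σ b v ∈ W1 := (hW1 _).2 (by rw [map_sub, hsq, neg_sub])
      rw [e, Submodule.mem_bot, sub_eq_zero] at h1
      rw [map_one, Module.End.one_apply, ← h1]))
    have hW1top : W1 ≠ ⊤ := fun e => hba (hinj (LinearMap.ext fun v => by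
      rw [hneg, (hW1 v).1 (e ▸ Submodule.mem_top)]))
    have hn1 : finrank (ZMod q) W1 ≤ n := by
      have := Submodule.finrank_lt hW1top
      omega
    have hfix1 : ∀ u ∈ W1, σ b' u = u := fun u hu => by
      rw [hb', map_mul, Module.End.mul_apply, (hW1 u).1 hu, hneg, neg_neg]
    have hneg2 : ∀ u ∈ W2, σ b' u = -u := fun u hu => by
      rw [hb', map_mul, Module.End.mul_apply, (hW2 u).1 hu, hneg]
    have hmove : ∀ g, (g * b * g⁻¹ = b → ∀ u, σ b (σ g u) = σ g (σ b u)) ∧
        (g * b * g⁻¹ = a * b → ∀ u, σ b (σ g u) = -σ g (σ b u)) := by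
      intro g
      constructor
      · intro e u
        rw [mul_inv_eq_iff_eq_mul] at e
        rw [← Module.End.mul_apply, ← map_mul, ← e, map_mul, Module.End.mul_apply]
      · intro e u
        rw [mul_inv_eq_iff_eq_mul] at e
        have h2 : b * g = a * (g * b) := by
          rw [e, show a * (a * b * g) = a * a * (b * g) by group, ha2, one_mul]
        rw [← Module.End.mul_apply, ← map_mul, h2, map_mul, map_mul, Module.End.mul_apply,
          Module.End.mul_apply, hneg]
    by_cases hcen : ∀ g, g * b * g⁻¹ = b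
    · -- `b` is central: pass to the fixed space of `a * b`
      set U1 : Submodule F U' := ker (ρ b' - 1) with hU1
      have hmem1 : ∀ {x}, x ∈ U1 ↔ ρ b' x = x := fun {x} => by
        rw [hU1, LinearMap.mem_ker, LinearMap.sub_apply, Module.End.one_apply, sub_eq_zero]
      obtain ⟨σ1, ρ1, w1, h1, hσ1, hρ1⟩ := h.exists_restrict ⊤ W1
        (fun g _ u hu => (hW1 _).2 (by rw [(hmove g).1 (hcen g), (hW1 u).1 hu, map_neg])) hnd1 U1 ⊥
        (fun g _ => ⟨fun x hx => hmem1.2 (by
          have e : b' * g = g * b' := by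
            have h1 : g * b' * g⁻¹ = b' := by
              rw [hb', show g * (a * b) * g⁻¹ = g * a * g⁻¹ * (g * b * g⁻¹) by group, hcen g,
                Subgroup.mem_center_iff.1 hac g, mul_inv_cancel_right]
            exact (mul_inv_eq_iff_eq_mul.1 h1).symm
          rw [← Module.End.mul_apply, ← map_mul, e, map_mul, Module.End.mul_apply, hmem1.1 hx]),
          fun x hx => by rw [(Submodule.mem_bot F).1 hx, map_zero]; exact zero_mem _⟩)
        (fun u hu => ⟨fun x hx => hmem1.2 (by
          rw [← Module.End.mul_apply, h.commute_of_fixed (hfix1 u hu), Module.End.mul_apply, hmem1.1 hx]),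
          fun x hx => by rw [(Submodule.mem_bot F).1 hx, map_zero]; exact zero_mem _⟩)
      haveI : Nontrivial (↥U1 ⧸ (⊥ : Submodule F U').comap U1.subtype) := by
        refine Submodule.Quotient.nontrivial_iff.2 fun e => ?_
        have hne : U1 ≠ ⊥ := by
          have h' := exists_fixed_of_square (N := ρ b') (X := (⊤ : Submodule F U')) top_ne_bot
            (fun _ _ => trivial) fun x => by
              rw [← Module.End.mul_apply, ← map_mul, hb'2, map_one, Module.End.one_apply]
          rwa [top_inf_eq] at h'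
        obtain ⟨x, hx, hx0⟩ := Submodule.exists_mem_ne_zero_of_ne_bot hne
        have : (⟨x, hx⟩ : U1) ∈ (⊥ : Submodule F U').comap U1.subtype := e ▸ Submodule.mem_top
        exact hx0 (by simpa using this)
      refine ih _ W1 _ _ σ1 ρ1 w1 h1 r hr ⟨a, trivial⟩ (mem_dser_top haS)
        (fun u => Subtype.ext ((hσ1 _ u).trans (hneg u))) (fun y => ?_) hn1
      obtain ⟨x, rfl⟩ := Submodule.Quotient.mk_surjective _ y
      obtain ⟨hx1, e⟩ := hρ1 ⟨a, trivial⟩ x
      rw [e, ← Submodule.Quotient.mk_sub]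
      refine kills_subquot hρ1 ?_
      rw [← MonoidHom.range_eq_map, Subgroup.range_subtype]
      exact hk (x : U')
    -- the two conjugates of `b`
    push Not at hcen
    obtain ⟨s, hs⟩ := hcen
    have hs' : s * b * s⁻¹ = a * b := (hbc s).resolve_left hs
    haveI : Finite W := Module.finite_of_finite (ZMod q)
    haveI : Fintype W := Fintype.ofFinite W
    have hconjb' : ∀ g, g * b' * g⁻¹ = a * (g * b * g⁻¹) := fun g => by
      rw [hb', show g * (a * b) * g⁻¹ = g * a * g⁻¹ * (g * b * g⁻¹) by group,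
        Subgroup.mem_center_iff.1 hac g, mul_inv_cancel_right]
    have hWfix : ∀ g, g * b * g⁻¹ = b → (∀ u, σ g u ∈ W1 ↔ u ∈ W1) ∧ ∀ u, σ g u ∈ W2 ↔ u ∈ W2 := by
      intro g e
      have hi := Function.LeftInverse.injective (apply_inv_apply σ g)
      refine ⟨fun u => ?_, fun u => ?_⟩
      · rw [hW1, hW1, (hmove g).1 e, ← map_neg, hi.eq_iff]
      · rw [hW2, hW2, (hmove g).1 e, hi.eq_iff]
    have hWswap : ∀ g, g * b * g⁻¹ = a * b → (∀ u, σ g u ∈ W1 ↔ u ∈ W2) ∧ ∀ u, σ g u ∈ W2 ↔ u ∈ W1 := by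
      intro g e
      have hi := Function.LeftInverse.injective (apply_inv_apply σ g)
      refine ⟨fun u => ?_, fun u => ?_⟩
      · rw [hW1, hW2, (hmove g).2 e, neg_inj, hi.eq_iff]
      · rw [hW2, hW1, (hmove g).2 e, ← map_neg, hi.eq_iff, neg_eq_iff_eq_neg]
    set N1 := h.avg b W1 with hN1
    set N2 := h.avg b' W2 with hN2
    obtain ⟨C1, hC1val, -, -, -, hN1sq⟩ :=
      h.exists_average hb2 (W2 := W1) (fun u hu => (hW1 u).1 hu) hnd1
    obtain ⟨C2, hC2val, hC2c, hC2ne, hC2img, hN2sq⟩ := h.exists_average hb'2 hneg2 hnd2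
    -- the averages commute with `w` and are permuted by the group
    have hN1w : ∀ u, w u * N1 = N1 * w u := by
      intro u
      obtain ⟨p, hp, m, hm, hu⟩ := hsplit u
      have hp' := h.w_mul_avg_of_mem (c := b) hp
      have hm' := h.w_mul_avg_of_perp (c := b) (W2 := W1) ((hW2 m).1 hm) fun x hx => hperp x hx m hm
      obtain ⟨k, hk2⟩ := h.mul p m
      have hk0 : k ≠ 0 := by
        rintro rfl
        rw [zero_smul] at hk2
        exact ((h.w_unit p).mul (h.w_unit m)).ne_zero hk2
      have h2u : Commute (w ((2 : ZMod q) • u)) N1 := by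
        rw [hu, show w (p + m) = k⁻¹ • (w p * w m) by rw [hk2, smul_smul, inv_mul_cancel₀ hk0, one_smul]]
        exact (((show Commute (w p) N1 from hp').mul_left (show Commute (w m) N1 from hm'))).smul_left _
      obtain ⟨e, he⟩ : ∃ e : F, w u * w u = e • w ((2 : ZMod q) • u) := by
        rw [two_smul]; exact h.mul u u
      have h2 : Commute (w u * w u) N1 := by rw [he]; exact h2u.smul_left e
      obtain ⟨j, hj⟩ := (Fact.out : q.Prime).odd_of_ne_two hq2
      have e' : w u = (w u * w u) ^ (j + 1) := by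
        rw [← pow_two, ← pow_mul, show 2 * (j + 1) = q + 1 by omega, pow_succ, h.exp, one_mul]
      show Commute (w u) N1
      rw [e']
      exact h2.pow_left _
    have hN1s : ∀ g, (g * b * g⁻¹ = b → ρ g * N1 = N1 * ρ g) ∧ (g * b * g⁻¹ = a * b → ρ g * N1 = N2 * ρ g) := by
      intro g
      constructor
      · intro e
        have := h.rho_mul_avg (c := b) (g := g) (W2 := W1) (W2' := W1) fun u => (hWfix g e).1 u
        rwa [e] at this
      · intro e
        have := h.rho_mul_avg (c := b) (g := g) (W2 := W1) (W2' := W2) fun u => (hWswap g e).2 u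
        rwa [e] at this
    have hN2s : ∀ g, (g * b * g⁻¹ = b → ρ g * N2 = N2 * ρ g) ∧ (g * b * g⁻¹ = a * b → ρ g * N2 = N1 * ρ g) := by
      intro g
      constructor
      · intro e
        have := h.rho_mul_avg (c := b') (g := g) (W2 := W2) (W2' := W2) fun u => (hWfix g e).2 u
        rwa [hconjb', e] at this
      · intro e
        have := h.rho_mul_avg (c := b') (g := g) (W2 := W2) (W2' := W1) fun u => (hWswap g e).1 u
        rwa [hconjb', e, ← mul_assoc, ha2, one_mul] at this
    have hN2w : ∀ u, w u * N2 = N2 * w u := by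
      intro u
      obtain ⟨k, hk2⟩ := h.conj s⁻¹ u
      have es : s⁻¹ * b * s⁻¹⁻¹ = a * b := (hbc s⁻¹).resolve_left fun e => hs (by
        conv_lhs => rw [← e]
        group)
      -- conjugate the identity for `N1`
      have hk0 : k ≠ 0 := by
        rintro rfl
        rw [zero_smul] at hk2
        exact ((h.rho_unit _).mul (h.w_unit u)).ne_zero hk2
      refine (h.rho_unit s⁻¹).mul_left_cancel ?_
      calc ρ s⁻¹ * (w u * N2) = k • (w (σ s⁻¹ u) * (ρ s⁻¹ * N2)) := by
            rw [← mul_assoc, hk2, smul_mul_assoc, mul_assoc]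
        _ = k • ((w (σ s⁻¹ u) * N1) * ρ s⁻¹) := by rw [(hN2s _).2 es, mul_assoc]
        _ = N1 * (k • (w (σ s⁻¹ u) * ρ s⁻¹)) := by rw [hN1w, mul_assoc, mul_smul_comm]
        _ = N1 * ρ s⁻¹ * w u := by rw [← hk2, mul_assoc]
        _ = ρ s⁻¹ * (N2 * w u) := by rw [← (hN2s _).2 es, mul_assoc]
    have hN12 : N1 * N2 = N2 * N1 := by
      have hb0 : ρ b' * N1 = N1 * ρ b' := (hN1s b').1 (by
        rw [mul_inv_eq_iff_eq_mul, hb', ← mul_assoc b a b, ← hab.eq])
      show Commute N1 N2
      haveI : Fintype W2 := Fintype.ofFinite _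
      rw [hN2, h.avg_eq]
      refine Commute.sum_right _ _ _ fun u _ => ?_
      exact (((show Commute (w (u : W)) N1 from hN1w u).symm).mul_right (show Commute N1 (ρ b') from hb0.symm)).mul_right
        (((show Commute (w (u : W)) N1 from hN1w u).symm).pow_right _)
    -- the common fixed space
    set Us : Submodule F U' := ker (N2 - 1) ⊓ ker (N1 - 1) with hUs
    have hUmem : ∀ {x}, x ∈ Us ↔ N2 x = x ∧ N1 x = x := fun {x} => by
      simp only [hUs, Submodule.mem_inf, LinearMap.mem_ker, LinearMap.sub_apply, Module.End.one_apply, sub_eq_zero]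
    have hUne : Us ≠ ⊥ := by
      have h1 : ker (N2 - 1) ≠ (⊥ : Submodule F U') := by
        have := exists_fixed_of_square (N := N2) (X := (⊤ : Submodule F U')) top_ne_bot (fun _ _ => trivial) hN2sq
        rwa [top_inf_eq] at this
      refine exists_fixed_of_square h1 (fun x hx => ?_) hN1sq
      rw [LinearMap.mem_ker, LinearMap.sub_apply, Module.End.one_apply, sub_eq_zero] at hx ⊢
      rw [← Module.End.mul_apply, ← hN12, Module.End.mul_apply, hx]
    have hUw : ∀ u, ∀ x ∈ Us, w u x ∈ Us := fun u x hx => hUmem.2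
      ⟨by rw [← Module.End.mul_apply, ← hN2w, Module.End.mul_apply, (hUmem.1 hx).1],
        by rw [← Module.End.mul_apply, ← hN1w, Module.End.mul_apply, (hUmem.1 hx).2]⟩
    have hUρ : ∀ g, ∀ x ∈ Us, ρ g x ∈ Us := by
      intro g x hx
      obtain ⟨h2, h1⟩ := hUmem.1 hx
      rcases hbc g with e | e
      · exact hUmem.2 ⟨by rw [← Module.End.mul_apply, ← (hN2s g).1 e, Module.End.mul_apply, h2],
          by rw [← Module.End.mul_apply, ← (hN1s g).1 e, Module.End.mul_apply, h1]⟩
      · exact hUmem.2 ⟨by rw [← Module.End.mul_apply, ← (hN1s g).2 e, Module.End.mul_apply, h1],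
          by rw [← Module.End.mul_apply, ← (hN2s g).2 e, Module.End.mul_apply, h2]⟩
    set U1 : Submodule F U' := Us ⊓ ker (ρ b' - 1) with hU1
    set U0 : Submodule F U' := Us.map (ρ b' - 1) with hU0
    have hmem1 : ∀ {x}, x ∈ U1 ↔ x ∈ Us ∧ ρ b' x = x := fun {x} => by
      rw [hU1, Submodule.mem_inf, LinearMap.mem_ker, LinearMap.sub_apply, Module.End.one_apply, sub_eq_zero]
    set T := dser (⊤ : Subgroup (S0 ⧸ σ0.ker)) 1 with hT
    have hTfix : ∀ g ∈ T, g * b * g⁻¹ = b := by
      have hle : T ≤ Subgroup.centralizer ({b} : Set (S0 ⧸ σ0.ker)) := by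
        rw [hT, dser_succ, dser_zero, Subgroup.commutator_le]
        intro x _ y _
        -- two elements move `b` by commuting central factors
        have hc : ∀ g, ∃ c ∈ Subgroup.center (S0 ⧸ σ0.ker), g * b = c * (b * g) := fun g => by
          rcases hbc g with e | e
          · exact ⟨1, one_mem _, by rw [one_mul]; exact mul_inv_eq_iff_eq_mul.1 e⟩
          · exact ⟨a, hac, by rw [← mul_assoc]; exact mul_inv_eq_iff_eq_mul.1 e⟩
        obtain ⟨cx, hcx, ex⟩ := hc x
        obtain ⟨cy, hcy, ey⟩ := hc y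
        have hx' : ∀ z, cx * z = z * cx := fun z => (Subgroup.mem_center_iff.1 hcx z).symm
        have hy' : ∀ z, cy * z = z * cy := fun z => (Subgroup.mem_center_iff.1 hcy z).symm
        have h1 : x * y * b = cx * cy * b * (x * y) := by
          calc x * y * b = x * (y * b) := mul_assoc _ _ _
            _ = (x * cy) * b * y := by rw [ey]; group
            _ = cy * (x * b) * y := by rw [← hy']; group
            _ = (cy * cx) * b * (x * y) := by rw [ex]; group
            _ = _ := by rw [hy' cx]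
        have h2 : y * x * b = cx * cy * b * (y * x) := by
          calc y * x * b = y * (x * b) := mul_assoc _ _ _
            _ = (y * cx) * b * x := by rw [ex]; group
            _ = cx * (y * b) * x := by rw [← hx']; group
            _ = _ := by rw [ey]; group
        have h3 : (y * x)⁻¹ * (cx * cy * b) = b * (y * x)⁻¹ := by
          rw [inv_mul_eq_iff_eq_mul, ← mul_assoc, h2, mul_inv_cancel_right]
        rw [Subgroup.mem_centralizer_singleton_iff, commutatorElement_def]
        calc x * y * x⁻¹ * y⁻¹ * b = x * y * ((y * x)⁻¹ * b) := by group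
          _ = (cx * cy)⁻¹ * (x * y) * ((y * x)⁻¹ * (cx * cy * b)) := by
              rw [show (y * x)⁻¹ * (cx * cy * b) = (cx * cy) * ((y * x)⁻¹ * b) by
                rw [← mul_assoc, Subgroup.mem_center_iff.1 (mul_mem hcx hcy) ((y * x)⁻¹)]; group]
              rw [← Subgroup.mem_center_iff.1 (inv_mem (mul_mem hcx hcy)) (x * y)]
              group
          _ = (cx * cy)⁻¹ * (x * y * b) * (y * x)⁻¹ := by rw [h3]; group
          _ = b * (x * y * x⁻¹ * y⁻¹) := by rw [h1]; group
      intro g hg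
      rw [mul_inv_eq_iff_eq_mul]
      exact Subgroup.mem_centralizer_singleton_iff.1 (hle hg)
    obtain ⟨σ1, ρ1, w1, h1, hσ1, hρ1⟩ := h.exists_restrict T W1
      (fun g hg u hu => ((hWfix g (hTfix g hg)).1 u).2 hu) hnd1 U1 U0
      (fun g hg => by
        have e : b' * g = g * b' := by
          have h1 : g * b' * g⁻¹ = b' := by rw [hconjb', hTfix g hg]
          exact (mul_inv_eq_iff_eq_mul.1 h1).symm
        have ec : ∀ x, ρ b' (ρ g x) = ρ g (ρ b' x) := fun x => by
          rw [← Module.End.mul_apply, ← map_mul, e, map_mul, Module.End.mul_apply]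
        refine ⟨fun x hx => hmem1.2 ⟨hUρ g x (hmem1.1 hx).1, by rw [ec, (hmem1.1 hx).2]⟩, ?_⟩
        rintro _ ⟨x, hx, rfl⟩
        exact ⟨ρ g x, hUρ g x hx, by simp [ec, map_sub]⟩)
      (fun u hu => by
        have ec : ∀ x, ρ b' (w u x) = w u (ρ b' x) := fun x => by
          rw [← Module.End.mul_apply, h.commute_of_fixed (hfix1 u hu), Module.End.mul_apply]
        refine ⟨fun x hx => hmem1.2 ⟨hUw u x (hmem1.1 hx).1, by rw [ec, (hmem1.1 hx).2]⟩, ?_⟩
        rintro _ ⟨x, hx, rfl⟩
        exact ⟨w u x, hUw u x hx, by simp [ec, map_sub]⟩)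
    haveI : Nontrivial (↥U1 ⧸ U0.comap U1.subtype) := by
      refine Submodule.Quotient.nontrivial_iff.2 fun e => ?_
      obtain ⟨v, hv, hv0⟩ := Submodule.exists_mem_ne_zero_of_ne_bot (hC2ne Us hUne fun u _ => hUw u)
      have hvb : ρ b' v = v := by
        rw [← hC2val v hv.2]
        exact (hUmem.1 hv.1).1
      have hv1 : (⟨v, hmem1.2 ⟨hv.1, hvb⟩⟩ : U1) ∈ U0.comap U1.subtype := e ▸ Submodule.mem_top
      obtain ⟨x, hx, hxe⟩ := hv1
      obtain ⟨x', hx', hve⟩ := hC2img Us (fun u _ => hUw u) v hv.2 x hx hxe.symm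
      refine hv0 ?_
      rw [hve, ← hC2val x' hx'.2, (hUmem.1 hx'.1).1, sub_self]
    have haT : a ∈ T := dser_antitone _ (by omega) haS
    have haT' : (⟨a, haT⟩ : T) ∈ dser (⊤ : Subgroup T) (r - 2) := mem_dser_top (by
      show a ∈ dser T (r - 2)
      rw [hT, dser_dser, show 1 + (r - 2) = r - 1 by omega]; exact haS)
    have hneg1 : ∀ u : W1, σ1 ⟨a, haT⟩ u = -u := fun u => Subtype.ext ((hσ1 _ u).trans (hneg u))
    have hk1 : ∀ y, Kills ρ1 ⊤ (r - 2) (ρ1 ⟨a, haT⟩ y - y) := by
      intro y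
      obtain ⟨x, rfl⟩ := Submodule.Quotient.mk_surjective _ y
      obtain ⟨hx1, e⟩ := hρ1 ⟨a, haT⟩ x
      rw [e, ← Submodule.Quotient.mk_sub]
      set z : U1 := ⟨ρ a (x : U'), hx1⟩ - x with hz
      have hzb : (z : U') = ρ b (x : U') - x := by
        show ρ a (x : U') - x = _
        rw [haeq, map_mul, Module.End.mul_apply, (hmem1.1 x.2).2]
      have hsz : ρ s (z : U') = ρ b' (ρ s (x : U')) - ρ s x := by
        rw [hzb, map_sub, ← Module.End.mul_apply, ← map_mul,
          show s * b = b' * s from mul_inv_eq_iff_eq_mul.1 hs', map_mul, Module.End.mul_apply]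
      have hsz0 : ρ s (z : U') ∈ U0 :=
        ⟨ρ s x, hUρ s _ (hmem1.1 x.2).1, by rw [hsz]; rfl⟩
      have hsz1 : ρ s (z : U') ∈ U1 := by
        refine hmem1.2 ⟨hUρ s _ (hmem1.1 z.2).1, ?_⟩
        rw [hsz, map_sub, ← Module.End.mul_apply, ← map_mul, hb'2, map_one, Module.End.one_apply,
          ← neg_sub (ρ b' _), ← neg_one_smul F, CharTwo.neg_eq, one_smul]
      have hkz : Kills ρ T (r - 2) (ρ s (z : U') - z) := by
        have h1 := hk (x : U')
        rw [show r - 1 = (r - 2) + 1 by omega] at h1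
        exact h1 s (Subgroup.mem_top s)
      have hkm : Kills ρ1 ⊤ (r - 2) (Submodule.Quotient.mk (⟨ρ s (z : U'), hsz1⟩ - z)) := by
        refine kills_subquot hρ1 ?_
        rw [← MonoidHom.range_eq_map, Subgroup.range_subtype]
        exact hkz
      have h0 : (Submodule.Quotient.mk (⟨ρ s (z : U'), hsz1⟩ : U1) : ↥U1 ⧸ U0.comap U1.subtype) = 0 :=
        (Submodule.Quotient.mk_eq_zero _).2 hsz0
      rw [Submodule.Quotient.mk_sub, h0, zero_sub] at hkm
      have := kills_smul (-1 : F) hkm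
      rwa [neg_one_smul, neg_neg] at this
    by_cases hr4 : 4 ≤ r
    · exact ih _ W1 _ _ σ1 ρ1 w1 h1 (r - 1) (by omega) ⟨a, haT⟩ haT' hneg1 hk1 hn1
    obtain rfl : r = 3 := by omega
    -- the two planes
    obtain ⟨U2, hU2, σ2, ρ2, w2, h2, hinj2, hσ2, hρ2⟩ := h1.exists_faithful
    haveI := hU2
    set π2 : T →* T ⧸ σ1.ker := QuotientGroup.mk' σ1.ker
    set a2 := π2 ⟨a, haT⟩
    have htop2 : (⊤ : Subgroup T).map π2 = ⊤ := Subgroup.map_top_of_surjective _ (QuotientGroup.mk'_surjective _)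
    have hneg2' : ∀ u, σ2 a2 u = -u := fun u => by rw [← hneg1 u, ← hσ2]; rfl
    obtain ⟨hq3, hdim1⟩ := h2.finrank_eq_two hinj2 (a := a2)
      (by rw [← map_mul, show (⟨a, haT⟩ : T) * ⟨a, haT⟩ = 1 from Subtype.ext ha2, map_one])
      (fun e => by
        obtain ⟨u, hu⟩ := exists_ne (0 : W1)
        refine hu (Subtype.ext (hv0 _ ?_))
        have := congrArg Subtype.val (hneg2' u)
        rw [e, map_one, Module.End.one_apply] at this
        exact this)
      (Subgroup.mem_center_iff.2 fun g => hinj2 (LinearMap.ext fun v => by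
        rw [map_mul, map_mul, Module.End.mul_apply, Module.End.mul_apply, hneg2', hneg2', map_neg]))
      (by rw [← htop2, dser_map]; exact Subgroup.mem_map_of_mem π2 haT')
      (fun g x => by
        obtain ⟨g, rfl⟩ := QuotientGroup.mk'_surjective σ1.ker g
        refine U2.subtype_injective ?_
        have h3 := (kills_one_iff ρ1 ⊤ _).1 (hk1 (x : ↥U1 ⧸ U0.comap U1.subtype)) g trivial
        have key : ∀ (g : T) (x : U2), ((ρ2 (π2 g) x : U2) : ↥U1 ⧸ U0.comap U1.subtype) =
            ρ1 g (x : ↥U1 ⧸ U0.comap U1.subtype) := hρ2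
        show ((ρ2 (π2 g) (ρ2 a2 x - x) : U2) : ↥U1 ⧸ U0.comap U1.subtype) = ((ρ2 a2 x - x : U2) : _)
        rw [key, Submodule.coe_sub, key]
        exact h3)
      hneg2'
    have hdim2 : finrank (ZMod q) W2 = 2 := by
      have e : W1.map (σ s) = W2 := by
        refine le_antisymm ?_ (fun u hu => ⟨σ s⁻¹ u, ?_, apply_apply_inv σ s u⟩)
        · rintro _ ⟨u, hu, rfl⟩
          exact ((hWswap s hs').2 u).2 hu
        · refine ((hWswap s hs').2 _).1 ?_
          rw [apply_apply_inv]; exact hu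
      rw [← e, finrank_map_apply σ s W1, hdim1]
    obtain ⟨y, hy4, hy2⟩ := exists_order_eight h.pgroup h.iso hinj hq3 hac ha2 hb2 hneg hbc hs' hW1 hW2
      ⟨hdim1, hnd1⟩ ⟨hdim2, hnd2⟩ ha22
    have hy8 : y ^ 2 ^ 3 = 1 := by
      rw [show (2 : ℕ) ^ 3 = 4 * 2 by norm_num, pow_mul, hy4, pow_two, ha2]
    have hexc : (ρ y - 1) ^ (2 ^ 3 - 1) = 0 := by
      rw [show (2 : ℕ) ^ 3 - 1 = 2 ^ 1 + (2 ^ 0 + 2 ^ 2) by norm_num, pow_add, pow_add,
        sub_one_pow_two_pow, sub_one_pow_two_pow, sub_one_pow_two_pow]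
      refine LinearMap.ext fun x => ?_
      have h3 := hk x y (Subgroup.mem_top y) (y ^ 2) hy2
      rw [kills_zero_iff] at h3
      simp only [pow_zero, pow_one, show (2 : ℕ) ^ 2 = 4 from rfl, hy4, Module.End.mul_apply,
        LinearMap.sub_apply, Module.End.one_apply, LinearMap.zero_apply]
      exact h3
    obtain ⟨hm, -⟩ := h.refl (by norm_num) hy8 hexc (by
      rw [show (2 : ℕ) ^ (3 - 1) = 4 from rfl, hy4]
      exact fun e => ha1 (hinj (e.trans (map_one σ).symm)))
    have := hm.eq
    omega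

/-- **No system of length at least three.** -/
theorem IsSys.false_of_three_le {S : Type uS} [Group S] [Finite S] {W : Type uW} [AddCommGroup W]
    [Module (ZMod q) W] [FiniteDimensional (ZMod q) W] [Nontrivial W] {U : Type uU} [AddCommGroup U]
    [Module F U] [FiniteDimensional F U] [Nontrivial U] {B : W →ₗ[ZMod q] W →ₗ[ZMod q] ZMod q}
    {σ : S →* Module.End (ZMod q) W} {ρ : S →* Module.End F U} {w : W → Module.End F U}
    (h : IsSys ζ B σ ρ w) {r : ℕ} (hr : 3 ≤ r) {a : S} (haS : a ∈ dser (⊤ : Subgroup S) (r - 1))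
    (hneg : ∀ v, σ a v = -v) (hk : ∀ x, Kills ρ ⊤ (r - 1) (ρ a x - x)) : False :=
  deep_aux (finrank (ZMod q) W) S W U B σ ρ w h r hr a haS hneg hk le_rfl

end Cfsg.Agent.TwoDer
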