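import Cfsg.Agent.TwoDer.Ladder
import Cfsg.Agent.TwoDer.Deep
import Cfsg.Agent.TwoLen.Step

/-!
# The derived series at one component
-/

set_option autoImplicit false
set_option linter.unusedSectionVars false
set_option linter.style.haveILetI false

namespace Cfsg.Agent.TwoDer

open scoped commutatorElement
open Module LinearMap Cfsg Cfsg.Agent.Gross Cfsg.Agent.TwoLen

/-- Commuting operators have a common eigenvector. -/
theorem exists_eig {X : Type*} [Group X] [Finite X] {F : Type*} [Field F] [IsAlgClosed F] {V : Type*}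
    [AddCommGroup V] [Module F V] [FiniteDimensional F V] [Nontrivial V] {ρ : X →* Module.End F V}
    {Z : Subgroup X} (hc : ∀ a ∈ Z, ∀ b ∈ Z, Commute (ρ a) (ρ b)) : ∃ χ : Z →* F, eig ρ Z χ ≠ ⊥ := by
  obtain ⟨W, ⟨hW, hWinv⟩, hmin⟩ := wellFounded_lt.has_min
    {W : Submodule F V | W ≠ ⊥ ∧ ∀ a ∈ Z, ∀ v ∈ W, ρ a v ∈ W} ⟨⊤, top_ne_bot, fun _ _ _ _ => trivial⟩
  have hsc : ∀ z : Z, ∃ c : F, ∀ v ∈ W, ρ (z : X) v = c • v := by
    intro z
    haveI : Nontrivial W := Submodule.nontrivial_iff_ne_bot.2 hW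
    obtain ⟨c, hc'⟩ := Module.End.exists_eigenvalue ((ρ (z : X)).restrict (hWinv z z.2))
    obtain ⟨u, hu, hu0⟩ := hc'.exists_hasEigenvector
    refine ⟨c, fun v hv => ?_⟩
    by_contra hne
    refine hmin (W ⊓ Module.End.eigenspace (ρ (z : X)) c) ⟨?_, ?_⟩ (lt_of_le_of_ne inf_le_left fun e => hne ?_)
    · intro e
      have : (u : V) ∈ W ⊓ Module.End.eigenspace (ρ (z : X)) c :=
        ⟨u.2, Module.End.mem_eigenspace_iff.2 (congrArg Subtype.val (Module.End.mem_eigenspace_iff.1 hu))⟩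
      rw [e, Submodule.mem_bot] at this
      exact hu0 (Subtype.ext this)
    · rintro a ha w ⟨h1, h2⟩
      refine ⟨hWinv a ha w h1, Module.End.mem_eigenspace_iff.2 ?_⟩
      rw [← Module.End.mul_apply, (hc _ z.2 a ha).eq, Module.End.mul_apply,
        Module.End.mem_eigenspace_iff.1 h2, map_smul]
    · have h' : v ∈ W ⊓ Module.End.eigenspace (ρ (z : X)) c := by rw [e]; exact hv
      exact Module.End.mem_eigenspace_iff.1 h'.2
  choose χ hχ using hsc
  obtain ⟨u, hu, hu0⟩ := Submodule.exists_mem_ne_zero_of_ne_bot hW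
  have hone : χ 1 = 1 := by
    have := hχ 1 u hu
    rw [OneMemClass.coe_one, map_one, Module.End.one_apply] at this
    exact smul_left_injective F hu0 (by simpa using this.symm)
  have hmul : ∀ a b, χ (a * b) = χ a * χ b := fun a b => by
    have h1 := hχ (a * b) u hu
    rw [Subgroup.coe_mul, map_mul, Module.End.mul_apply, hχ b u hu, map_smul, hχ a u hu, smul_smul] at h1
    exact (smul_left_injective F hu0 h1).symm.trans (mul_comm _ _)
  refine ⟨⟨⟨χ, hone⟩, hmul⟩, fun e => ?_⟩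
  have : u ∈ eig ρ Z ⟨⟨χ, hone⟩, hmul⟩ := mem_eig.2 fun a => hχ a u hu
  rw [e, Submodule.mem_bot] at this
  exact hu0 this

theorem exists_central_involution_mem {S : Type*} [Group S] [Finite S] (hS : IsPGroup 2 S)
    (N : Subgroup S) [N.Normal] (hN : N ≠ ⊥) : ∃ a ∈ N, a ∈ Subgroup.center S ∧ a * a = 1 ∧ a ≠ 1 := by
  haveI := Fact.mk Nat.prime_two
  obtain ⟨c, hc, hc1⟩ : ∃ c ∈ N ⊓ Subgroup.center S, c ≠ 1 := by
    by_contra hall
    push Not at hall
    exact PGroup.inf_center_ne_bot hS N hN (eq_bot_iff.2 fun x hx => Subgroup.mem_bot.2 (hall x hx))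
  obtain ⟨k, hk⟩ := (IsPGroup.iff_orderOf.1 hS) c
  obtain ⟨k, rfl⟩ : ∃ i, k = i + 1 := by
    rcases Nat.eq_zero_or_pos k with rfl | h
    · exact absurd (orderOf_eq_one_iff.1 (by simpa using hk)) hc1
    · exact ⟨k - 1, by omega⟩
  refine ⟨c ^ 2 ^ k, pow_mem hc.1 _, pow_mem hc.2 _, ?_, ?_⟩
  · rw [← pow_add, ← Nat.two_mul, ← pow_succ', ← hk, pow_orderOf_eq_one]
  · refine pow_ne_one_of_lt_orderOf (pow_ne_zero _ two_ne_zero) ?_
    rw [hk]; exact Nat.pow_lt_pow_right (by norm_num) (by omega)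

section sys

variable {q : ℕ} [Fact q.Prime] {F : Type*} [Field F] [CharP F 2] {S : Type*} [Group S] [Finite S]
  {W : Type*} [AddCommGroup W] [Module (ZMod q) W] [FiniteDimensional (ZMod q) W] {U : Type*}
  [AddCommGroup U] [Module F U] [FiniteDimensional F U] [Nontrivial U] {ζ : F}
  {B : W →ₗ[ZMod q] W →ₗ[ZMod q] ZMod q} {σ : S →* Module.End (ZMod q) W} {ρ : S →* Module.End F U}
  {w : W → Module.End F U}

set_option maxHeartbeats 800000 in
/-- A faithful system whose series has length `r` and does not die before: `r = 2`, and the group has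
one involution and otherwise reflections of order four. -/
theorem IsSys.length_two (h : IsSys ζ B σ ρ w) {r : ℕ} (hr : 2 ≤ r)
    (hk : ∀ x, Kills ρ ⊤ r x) {g : S} (hg : g ∈ dser (⊤ : Subgroup S) (r - 1)) (hσg : σ g ≠ 1) :
    r = 2 ∧ IsReflPrime q 2 ∧ ∃ a : S, σ a ≠ 1 ∧ (∀ s, σ s * σ a = σ a * σ s) ∧
      σ (a * a) = 1 ∧ (∃ y, IsRefl σ 2 y ∧ σ (y ^ 2) = σ a) ∧
      (∀ s, σ s = 1 ∨ σ s = σ a ∨ (IsRefl σ 2 s ∧ σ (s ^ 2) = σ a)) ∧
      ∀ s ∈ dser (⊤ : Subgroup S) 1, σ s = 1 ∨ σ s = σ a := by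
  haveI : NeZero q := ⟨(Fact.out : q.Prime).ne_zero⟩
  obtain ⟨U', hU', σ', ρ', w', h', hinj, hσeq, hρeq⟩ := h.exists_faithful
  haveI := hU'
  set π : S →* S ⧸ σ.ker := QuotientGroup.mk' σ.ker with hπ
  have hσπ : ∀ s, σ' (π s) = σ s := hσeq
  have hπs : Function.Surjective π := QuotientGroup.mk'_surjective _
  have htop : (⊤ : Subgroup S).map π = ⊤ := Subgroup.map_top_of_surjective _ hπs
  have hk' : ∀ x, Kills ρ' ⊤ r x := fun x => by
    rw [← htop]
    exact kills_push π U'.subtype.toAddMonoidHom U'.subtype_injective (fun g y => hρeq g y) (hk _)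
  set N := dser (⊤ : Subgroup (S ⧸ σ.ker)) (r - 1) with hN
  haveI : N.Normal := by rw [hN, dser_top]; exact derivedSeries_normal _ _
  have hgN : π g ∈ N := by rw [hN, ← htop, dser_map]; exact Subgroup.mem_map_of_mem π hg
  have hNne : N ≠ ⊥ := fun e => hσg (by
    have h1 : π g = 1 := Subgroup.mem_bot.1 (e ▸ hgN)
    rw [← hσπ, h1, map_one])
  obtain ⟨a', haN, hac, ha2, ha1⟩ := exists_central_involution_mem h'.pgroup N hNne
  have hkshift : ∀ x, Kills ρ' ⊤ (r - 1) (ρ' a' x - x) := fun x => by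
    have hx := hk' x
    rw [show r = r - 1 + 1 by omega] at hx
    exact kills_shift hx a' haN fun g _ =>
      (show Commute a' g from (Subgroup.mem_center_iff.1 hac g).symm).map ρ'
  by_cases hr3 : 3 ≤ r
  · exfalso
    set W1 : Submodule (ZMod q) W := moved σ' a' with hW1
    have hsq : ∀ v, σ' a' (σ' a' v) = v := fun v => by
      rw [← Module.End.mul_apply, ← map_mul, ha2, map_one, Module.End.one_apply]
    have hneg : ∀ u ∈ W1, σ' a' u = -u := by
      rintro _ ⟨v, rfl⟩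
      rw [LinearMap.sub_apply, Module.End.one_apply, map_sub, hsq, neg_sub]
    have hnd : ∀ v ∈ W1, (∀ u ∈ W1, B u v = 0) → v = 0 := by
      intro v hv e
      have e0 : σ' a' v = v := (h'.iso.fixed_iff a' v).2 fun u hu => e u hu
      rw [hneg v hv] at e0
      have e2 : (2 : ZMod q) • v = 0 := by rw [two_smul]; nth_rw 1 [← e0]; exact neg_add_cancel v
      exact (smul_eq_zero.1 e2).resolve_left (two_ne_zero_zmod h.ne_two)
    haveI : Nontrivial W1 := Submodule.nontrivial_iff_ne_bot.2 fun e => ha1 (hinj (LinearMap.ext fun v => by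
      have := sub_mem_moved σ' a' v
      rw [← hW1, e, Submodule.mem_bot, sub_eq_zero] at this
      rw [this, map_one, Module.End.one_apply]))
    obtain ⟨σ1, ρ1, w1, h1, hσ1, hρ1⟩ := h'.exists_restrict ⊤ W1
      (fun g _ u hu => by
        obtain ⟨v, rfl⟩ := hu
        refine ⟨σ' g v, ?_⟩
        simp only [LinearMap.sub_apply, Module.End.one_apply, map_sub]
        rw [← Module.End.mul_apply, ← map_mul, ← Subgroup.mem_center_iff.1 hac g, map_mul, Module.End.mul_apply])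
      hnd (⊤ : Submodule F U') ⊥
      (fun g _ => ⟨fun _ _ => trivial, fun x hx => by
        rw [(Submodule.mem_bot F).1 hx, map_zero]; exact zero_mem _⟩)
      (fun u _ => ⟨fun _ _ => trivial, fun x hx => by
        rw [(Submodule.mem_bot F).1 hx, map_zero]; exact zero_mem _⟩)
    haveI : Nontrivial (↥(⊤ : Submodule F U') ⧸ (⊥ : Submodule F U').comap (⊤ : Submodule F U').subtype) := by
      refine Submodule.Quotient.nontrivial_iff.2 fun e => ?_
      obtain ⟨x, hx⟩ := exists_ne (0 : U')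
      have : (⟨x, trivial⟩ : (⊤ : Submodule F U')) ∈ (⊥ : Submodule F U').comap (⊤ : Submodule F U').subtype :=
        e ▸ Submodule.mem_top
      exact hx ((Submodule.mem_bot F).1 this)
    refine h1.false_of_three_le hr3 (a := ⟨a', trivial⟩) (mem_dser_top haN)
      (fun u => Subtype.ext ((hσ1 _ u).trans (hneg _ u.2))) fun y => ?_
    obtain ⟨x, rfl⟩ := Submodule.Quotient.mk_surjective _ y
    obtain ⟨hx1, e⟩ := hρ1 ⟨a', trivial⟩ x
    rw [e, ← Submodule.Quotient.mk_sub]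
    refine kills_subquot hρ1 ?_
    rw [← MonoidHom.range_eq_map, Subgroup.range_subtype]
    exact hkshift (x : U')
  obtain rfl : r = 2 := by omega
  obtain ⟨hm, hall⟩ := h'.two_lemma hinj ha2 ha1 hac haN
    (fun s x => (kills_one_iff ρ' ⊤ _).1 (hkshift x) s trivial)
  obtain ⟨a, rfl⟩ := hπs a'
  have hrefl : ∀ s, IsRefl σ' 2 (π s) → IsRefl σ 2 s := by
    intro s hs
    have e : moved σ' (π s) = moved σ s := by rw [moved, moved, hσπ]
    refine ⟨e ▸ hs.dim, fun v hv => ?_⟩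
    have := hs.neg v (e.symm ▸ hv)
    rwa [← map_pow, hσπ] at this
  have hnorm : ∀ s, σ s = 1 ∨ σ s = σ a ∨ (IsRefl σ 2 s ∧ σ (s ^ 2) = σ a) := by
    intro s
    rcases hall (π s) with e | e | ⟨e1, e2⟩
    · exact Or.inl (by rw [← hσπ, e, map_one])
    · exact Or.inr (Or.inl (by rw [← hσπ, e, hσπ]))
    · exact Or.inr (Or.inr ⟨hrefl s e1, by rw [← hσπ, map_pow, e2, hσπ]⟩)
  have hsq : ∀ t : S ⧸ σ.ker, t * t ∈ Subgroup.zpowers (π a) := fun t => by
    rcases hall t with e | e | ⟨-, e2⟩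
    · rw [e, one_mul]; exact one_mem _
    · rw [e, ha2]; exact one_mem _
    · rw [← pow_two, e2]; exact Subgroup.mem_zpowers _
  have hder : dser (⊤ : Subgroup (S ⧸ σ.ker)) 1 ≤ Subgroup.zpowers (π a) := by
    rw [dser_succ, dser_zero, Subgroup.commutator_le]
    intro x _ z _
    rw [show ⁅x, z⁆ = (x * x) * ((x⁻¹ * z) * (x⁻¹ * z)) * (z⁻¹ * z⁻¹) by rw [commutatorElement_def]; group]
    exact mul_mem (mul_mem (hsq x) (hsq _)) (hsq _)
  refine ⟨rfl, hm, a, ?_, fun s => ?_, ?_, ?_, hnorm, fun s hs => ?_⟩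
  · rw [← hσπ]; exact fun e => ha1 (hinj (e.trans (map_one σ').symm))
  · rw [← hσπ, ← hσπ, ← map_mul, Subgroup.mem_center_iff.1 hac (π s), map_mul]
  · rw [← hσπ, map_mul, ha2, map_one]
  · by_contra hno
    push Not at hno
    refine hNne (eq_bot_iff.2 ((Subgroup.commutator_le (H₃ := ⊥)).2 fun x _ z _ => ?_))
    rw [Subgroup.mem_bot, commutatorElement_eq_one_iff_mul_comm]
    obtain ⟨x, rfl⟩ := hπs x
    rcases hall (π x) with e | e | ⟨e1, e2⟩
    · rw [e, one_mul, mul_one]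
    · rw [e]; exact (Subgroup.mem_center_iff.1 hac z).symm
    · exact absurd (by rw [← hσπ, map_pow, e2, hσπ]) (hno x (hrefl x e1))
  · have hsN : π s ∈ Subgroup.zpowers (π a) := hder (by rw [← htop, dser_map]; exact Subgroup.mem_map_of_mem π hs)
    obtain ⟨k, hk⟩ := Subgroup.mem_zpowers_iff.1 hsN
    have h2 : (π a) ^ (2 : ℤ) = 1 := by rw [zpow_two, ha2]
    rcases Int.even_or_odd' k with ⟨i, rfl | rfl⟩
    · exact Or.inl (by rw [← hσπ, ← hk, zpow_mul, h2, one_zpow, map_one])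
    · exact Or.inr (by rw [← hσπ, ← hk, zpow_add_one, zpow_mul, h2, one_zpow, one_mul, hσπ])

end sys

end Cfsg.Agent.TwoDer
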