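import Cfsg.Agent.TwoDer.CompMain
import Cfsg.Agent.TwoLen.Detect

/-!
# The last derived subgroups lie in `O_{2',2}`, and the commutation between the layers
-/

set_option autoImplicit false
set_option linter.unusedSectionVars false
set_option linter.style.haveILetI false

namespace Cfsg.Agent.TwoDer

open scoped commutatorElement
open Module LinearMap Subgroup Cfsg Cfsg.Agent.Gross Cfsg.Agent.TwoLen

variable {X : Type*} [Group X] [Finite X] {F : Type*} [Field F] [CharP F 2] [IsAlgClosed F]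
  {V : Type*} [AddCommGroup V] [Module F V] [FiniteDimensional F V] {ρ : X →* Module.End F V}

set_option maxHeartbeats 800000 in
/-- An element all of whose conjugates act in `O_{2',2}` of every component lies in `O_{2',2}`. -/
theorem mem_pPrimePCore_of_good [Group.IsSolvable X] (hO : pCore 2 X = ⊥) (hinj : Function.Injective ρ)
    {x : X} (hall : ∀ (q : ℕ) (_ : Fact q.Prime) (_ : q ≠ 2) (K : Subgroup X) (_ : K.Normal)
      (hexp : ∀ k ∈ K, k ^ q = 1) (hcls : ∀ a ∈ K, ∀ b ∈ K, ∀ c ∈ K, Commute ⁅a, b⁆ c)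
      (ζ : F) (hζ : IsPrimitiveRoot ζ q) (χ : zc K →* F),
      (haveI := zc_normal K; eig ρ (zc K) χ ≠ ⊥) → ∀ g : X,
      g * x * g⁻¹ ∈ (haveI := zc_normal K; (goodSub (charData hexp hcls hζ χ)).map (charStab χ).subtype)) :
    x ∈ pPrimePCore 2 X := by
  classical
  haveI := Fact.mk Nat.prime_two
  set N := normalClosure {x} with hN
  have hgood : ∀ (q : ℕ) (_ : Fact q.Prime) (hq2 : q ≠ 2) (K : Subgroup X) (_ : K.Normal)
      (hexp : ∀ k ∈ K, k ^ q = 1) (hcls : ∀ a ∈ K, ∀ b ∈ K, ∀ c ∈ K, Commute ⁅a, b⁆ c)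
      (ζ : F) (hζ : IsPrimitiveRoot ζ q) (χ : zc K →* F),
      (haveI := zc_normal K; eig ρ (zc K) χ ≠ ⊥) →
      N ≤ (haveI := zc_normal K; (goodSub (charData hexp hcls hζ χ)).map (charStab χ).subtype) := by
    intro q hq hq2 K hKn hexp hcls ζ hζ χ hχ
    rw [hN, normalClosure, closure_le]
    intro z hz
    obtain ⟨_, rfl, hc⟩ := Group.mem_conjugatesOfSet_iff.1 hz
    obtain ⟨g, rfl⟩ := isConj_iff.1 hc
    exact hall q hq hq2 K hKn hexp hcls ζ hζ χ hχ g
  -- odd elements of `N` generate a subgroup of odd order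
  set M := closure {z | z ∈ N ∧ (orderOf z).Coprime 2} with hM
  haveI hMn : M.Normal := by
    refine ⟨fun d hd g => ?_⟩
    have : M ≤ M.comap (MulAut.conj g).toMonoidHom := by
      refine (closure_le _).2 fun z hz => subset_closure ⟨normalClosure_normal.conj_mem _ hz.1 g, ?_⟩
      show (orderOf ((MulAut.conj g).toMonoidHom z)).Coprime 2
      rw [orderOf_injective _ (MulAut.conj g).injective z]; exact hz.2
    exact this hd
  have hMN : M ≤ N := (closure_le _).2 fun z hz => hz.1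
  have hM1 : ∀ g ∈ M, (∃ i, orderOf g = 2 ^ i) → g = 1 := by
    rintro g hgM ⟨i, hi⟩
    refine eq_one_of_act_eq_one hO hinj ⟨i, hi⟩ fun q _ hq2 K hKn hexp hcls ζ hζ χ hχ => ?_
    haveI := zc_normal K
    obtain ⟨g', hg', hgg'⟩ := hgood q inferInstance hq2 K hKn hexp hcls ζ hζ χ hχ (hMN hgM)
    subst hgg'
    refine ⟨g'.2, ?_⟩
    set d := charData hexp hcls hζ χ
    set f := (imgHom d).rangeRestrict
    haveI : Finite (imgHom d).range := Finite.of_surjective _ (imgHom d).rangeRestrict_surjective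
    set O := pPrimeCore 2 (imgHom d).range
    have hodd : M.subgroupOf (charStab χ) ≤ O.comap f := by
      intro a ha
      have hle : M ≤ (O.comap f).map (charStab χ).subtype := by
        refine (closure_le _).2 fun z hz => ?_
        obtain ⟨z', hz', rfl⟩ := hgood q inferInstance hq2 K hKn hexp hcls ζ hζ χ hχ hz.1
        refine ⟨z', ?_, rfl⟩
        have h1 : QuotientGroup.mk' O (f z') ∈ pCore 2 _ := hz'
        have h2 := LocalP.eq_one_of_mem_isPGroup (PSolv.isPGroup_pCore 2 _) h1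
          (Nat.Coprime.coprime_dvd_left ((orderOf_map_dvd ((QuotientGroup.mk' O).comp f) z').trans
            (dvd_of_eq (orderOf_injective _ (charStab χ).subtype_injective z').symm)) hz.2)
        exact (QuotientGroup.eq_one_iff (f z')).1 h2
      obtain ⟨a', ha', haa⟩ := hle ha
      rwa [← Subtype.ext haa]
    have h1 : f g' ∈ O := hodd hgM
    have h2 : f g' = 1 := by
      have hd : orderOf (f g') ∣ 2 ^ i := (orderOf_map_dvd f g').trans
        (dvd_of_eq (by rw [← hi]; exact (orderOf_injective _ (charStab χ).subtype_injective g').symm))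
      obtain ⟨k, -, hk⟩ := (Nat.dvd_prime_pow Nat.prime_two).1 hd
      have h3 : (orderOf (f g')).Coprime 2 :=
        Element.coprime_orderOf_of_mem (PSolv.coprime_card_pPrimeCore 2 _) h1
      rw [← orderOf_eq_one_iff]
      exact Nat.eq_one_of_dvd_coprimes (h3.pow_right k) dvd_rfl (dvd_of_eq hk)
    exact congrArg (fun u : (imgHom d).range => ((u : (Module.End (ZMod q) d.bar)ˣ) : Module.End (ZMod q) d.bar)) h2
  have hMcop : (Nat.card M).Coprime 2 := by
    refine (Nat.Prime.coprime_iff_not_dvd Nat.prime_two).2 ?_ |>.symm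
    intro h
    obtain ⟨g, hg⟩ := exists_prime_orderOf_dvd_card' 2 h
    have := hM1 g g.2 ⟨1, by rw [Subgroup.orderOf_coe, hg, pow_one]⟩
    rw [show g = 1 from Subtype.ext this, orderOf_one] at hg
    omega
  have hMO : M ≤ pPrimeCore 2 X := PSolv.le_pPrimeCore hMn hMcop
  set π := QuotientGroup.mk' (pPrimeCore 2 X) with hπ
  have hNp : IsPGroup 2 (N.map π) := by
    refine LocalP.isPGroup_of_forall_coprime ?_
    rintro _ ⟨a, ha, rfl⟩ hao
    -- replace `a` by its odd part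
    have hmap : π (Element.pComplPart 2 a) = π a := by
      have h1 := Element.pPart_mul_pComplPart 2 a
      have h2 : π (Element.pPart 2 a) = 1 := by
        rw [(Element.map_pPart Nat.prime_two π a).1, (Element.pPart_eq_one Nat.prime_two hao).1]
      conv_rhs => rw [← h1, map_mul, h2, one_mul]
    have hmem : Element.pComplPart 2 a ∈ M := subset_closure
      ⟨(zpowers_le.2 ha) (Element.pComplPart_mem_zpowers 2 a), Element.coprime_orderOf_pComplPart Nat.prime_two a⟩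
    rw [← hmap]
    exact (QuotientGroup.eq_one_iff _).2 (hMO hmem)
  exact PSolv.le_pCore ((normalClosure_normal).map π (QuotientGroup.mk'_surjective _)) hNp
    ⟨x, subset_normalClosure rfl, rfl⟩

/-- Exceptional modules for the derived length `n`. -/
def Exceptional {X : Type*} [Group X] {F : Type*} [Semiring F] {V : Type*} [AddCommGroup V] [Module F V]
    (ρ : X →* Module.End F V) (n : ℕ) : Prop :=
  ∀ T : Subgroup X, IsPGroup 2 T → dser T n = ⊥ ∧ ∀ v, Kills ρ T n v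

/-- The members of the `(n - 1)`-st derived subgroups of the 2-subgroups. -/
def dset (X : Type*) [Group X] (n : ℕ) : Set X := {x | ∃ T : Subgroup X, IsPGroup 2 T ∧ x ∈ dser T (n - 1)}

theorem conj_mem_dset {n : ℕ} {x : X} (hx : x ∈ dset X n) (g : X) : g * x * g⁻¹ ∈ dset X n := by
  obtain ⟨T, hT, hxT⟩ := hx
  refine ⟨T.map (MulAut.conj g).toMonoidHom, hT.map _, ?_⟩
  rw [dser_map]
  exact ⟨x, hxT, rfl⟩

theorem exists_orderOf_of_mem_dset {n : ℕ} {x : X} (hx : x ∈ dset X n) : ∃ i, orderOf x = 2 ^ i := by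
  obtain ⟨T, hT, hxT⟩ := hx
  exact TwoLen.exists_orderOf_eq hT (dser_le T _ hxT)

theorem dset_mem_goodSub [Group.IsSolvable X] {n : ℕ} (hexc : Exceptional ρ n) {q : ℕ} [Fact q.Prime]
    (hq2 : q ≠ 2) {K : Subgroup X} [K.Normal] (hexp : ∀ k ∈ K, k ^ q = 1)
    (hcls : ∀ a ∈ K, ∀ b ∈ K, ∀ c ∈ K, Commute ⁅a, b⁆ c) {ζ : F} (hζ : IsPrimitiveRoot ζ q)
    (χ : zc K →* F) (hχ : haveI := zc_normal K; eig ρ (zc K) χ ≠ ⊥) {x : X} (hx : x ∈ dset X n) :
    haveI := zc_normal K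
    x ∈ (goodSub (charData hexp hcls hζ χ)).map (charStab χ).subtype := by
  haveI := zc_normal K
  obtain ⟨T, hT, hxT⟩ := hx
  obtain ⟨h1, h2⟩ := hexc T hT
  obtain ⟨hC, hfacts⟩ := derFacts hq2 hexp hcls hζ χ hχ hT h1 h2
  refine ⟨⟨x, hC hxT⟩, Subgroup.mem_comap.2 ?_, rfl⟩
  show toImg _ _ ∈ pPrimePCore 2 _
  rcases hfacts with h | ⟨-, -, τ, hτ, -, -, -, h⟩
  · rw [h _ hxT]; exact one_mem _
  · rcases h ⟨x, hC hxT⟩ hxT with e | e
    · rw [e]; exact one_mem _
    · rw [e]; exact hτ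

/-- **The last derived subgroups lie in `O_{2',2}`.** -/
theorem dset_le [Group.IsSolvable X] (hO : pCore 2 X = ⊥) (hinj : Function.Injective ρ) {n : ℕ}
    (hexc : Exceptional ρ n) {x : X} (hx : x ∈ dset X n) : x ∈ pPrimePCore 2 X :=
  mem_pPrimePCore_of_good hO hinj fun _ _ hq2 _ _ hexp hcls _ hζ χ hχ g =>
    dset_mem_goodSub hexc hq2 hexp hcls hζ χ hχ (conj_mem_dset hx g)

theorem toImg_mem_of_facts {C : Subgroup X} {q : ℕ} [Fact q.Prime] {d : CharData C F q} {n : ℕ}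
    (hf : ∀ T : Subgroup X, IsPGroup 2 T → DerFacts d T n) {g : C} (hg : (g : X) ∈ dset X n) :
    toImg d g * toImg d g = 1 ∧ toImg d g ∈ pPrimePCore 2 (imgHom d).range ∧
      (toImg d g = 1 ∨
        ∃ y3 k, IsRefl (imgAct d) 2 y3 ∧ y3 ^ 2 ^ k = 1 ∧ toImg d g = y3 ^ 2 ^ (2 - 1)) := by
  obtain ⟨T, hT, hgT⟩ := hg
  have hone : toImg d g = 1 → toImg d g * toImg d g = 1 ∧ toImg d g ∈ pPrimePCore 2 (imgHom d).range ∧
      (toImg d g = 1 ∨
        ∃ y3 k, IsRefl (imgAct d) 2 y3 ∧ y3 ^ 2 ^ k = 1 ∧ toImg d g = y3 ^ 2 ^ (2 - 1)) :=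
    fun e => ⟨by rw [e, one_mul], by rw [e]; exact one_mem _, Or.inl e⟩
  rcases (hf T hT).2 with h | ⟨-, -, τ, hτO, hτ2, ⟨y3, hy3, hy3e⟩, -, h⟩
  · exact hone (h g hgT)
  · rcases h g hgT with e | e
    · exact hone e
    · refine ⟨by rw [e, hτ2], by rw [e]; exact hτO, Or.inr ⟨y3, 2, hy3, ?_, ?_⟩⟩
      · rw [show (2 : ℕ) ^ 2 = 2 * 2 by norm_num, pow_mul, hy3e, pow_two, hτ2]
      · rw [e, show (2 : ℕ) ^ (2 - 1) = 2 from rfl, hy3e]

/-- The commutation at one component. -/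
theorem act_commutator_eq_one {C : Subgroup X} {q : ℕ} [Fact q.Prime] {d : CharData C F q}
    [Finite (imgHom d).range] {n : ℕ} (hn : 2 ≤ n)
    (hf : ∀ T : Subgroup X, IsPGroup 2 T → DerFacts d T n) {S : Subgroup X} (hS : IsPGroup 2 S)
    {u t : X} (hu : u ∈ dser S (n - 2)) (ht : t ∈ dser S (n - 2))
    (hue : u ∈ closure {x | x ∈ S ∧ x ∈ dset X n}) : ∃ h : ⁅u, t⁆ ∈ C, d.act ⟨_, h⟩ = 1 := by
  have hut : ⁅u, t⁆ ∈ dser S (n - 1) := by
    rw [show n - 1 = n - 2 + 1 by omega, dser_succ]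
    exact commutator_mem_commutator hu ht
  refine ⟨(hf S hS).1 hut, toImg_eq_one.1 ?_⟩
  rcases (hf S hS).2 with h | ⟨hm, hR, τ, -, -, -, h, -⟩
  · exact h _ hut
  obtain ⟨-, hu3⟩ := h ⟨u, hR hu⟩ hu
  obtain ⟨hct, -⟩ := h ⟨t, hR ht⟩ ht
  have hcomm : Commute (toImg d ⟨u, hR hu⟩) (toImg d ⟨t, hR ht⟩) := by
    rcases hu3 with e | e | ⟨hur, -⟩
    · rw [e]; exact Commute.one_left _
    · rw [e]; exact hct
    exfalso
    set A : Set (imgHom d).range := {a | ∃ g : C, ((g : X) ∈ S ∧ (g : X) ∈ dset X n) ∧ toImg d g = a}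
    have hle : closure {x | x ∈ S ∧ x ∈ dset X n} ≤ ((closure A).comap (toImg d)).map C.subtype :=
      (closure_le _).2 fun x hx => by
        obtain ⟨T, hT, hxT⟩ := hx.2
        exact ⟨⟨x, (hf T hT).1 hxT⟩, subset_closure ⟨⟨x, (hf T hT).1 hxT⟩, hx, rfl⟩, rfl⟩
    obtain ⟨u', hu', e⟩ := hle hue
    obtain rfl : u' = ⟨u, hR hu⟩ := Subtype.ext e
    refine false_of_one_sided hm (imgAct_isIsoRep d) (imgAct_injective d) (A := A)
      ((hS.comap_of_injective _ C.subtype_injective).map (toImg d))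
      ⟨⟨u, hR hu⟩, dser_le S _ hu, rfl⟩ hur ?_ hu' ?_
    · rintro _ ⟨g, hg, rfl⟩
      obtain ⟨h2, hO, h3⟩ := toImg_mem_of_facts hf hg.2
      exact ⟨⟨⟨g, hg.1, rfl⟩, hO⟩, h2, h3⟩
    · rw [inv_mul_cancel, one_pow]
  rw [show (⟨⁅u, t⁆, (hf S hS).1 hut⟩ : C) = ⁅(⟨u, hR hu⟩ : C), ⟨t, hR ht⟩⁆ from Subtype.ext rfl,
    map_commutatorElement]
  exact commutatorElement_eq_one_iff_commute.2 hcomm

/-- **The two layers commute**. -/
theorem commute_of_mem_closure [Group.IsSolvable X] (hO : pCore 2 X = ⊥) (hinj : Function.Injective ρ)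
    {n : ℕ} (hn : 2 ≤ n) (hexc : Exceptional ρ n) {S : Subgroup X} (hS : IsPGroup 2 S) {u t : X}
    (hu : u ∈ dser S (n - 2)) (ht : t ∈ dser S (n - 2))
    (hue : u ∈ closure {x | x ∈ S ∧ x ∈ dset X n}) : Commute u t := by
  haveI := Fact.mk Nat.prime_two
  refine commutatorElement_eq_one_iff_commute.1 (eq_one_of_act_eq_one hO hinj
    (TwoLen.exists_orderOf_eq hS ?_) fun q _ hq2 K hKn hexp hcls ζ hζ χ hχ => ?_)
  · rw [commutatorElement_def]
    exact mul_mem (mul_mem (mul_mem (dser_le S _ hu) (dser_le S _ ht)) (inv_mem (dser_le S _ hu)))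
      (inv_mem (dser_le S _ ht))
  haveI := zc_normal K
  haveI : Finite (imgHom (charData hexp hcls hζ χ)).range :=
    Finite.of_surjective _ (imgHom _).rangeRestrict_surjective
  exact act_commutator_eq_one hn
    (fun T hT => derFacts hq2 hexp hcls hζ χ hχ hT (hexc T hT).1 (hexc T hT).2) hS hu ht hue

end Cfsg.Agent.TwoDer
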