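import Cfsg.Agent.TwoDer.Series
import Cfsg.Agent.Gross.Eigen

/-!
# The series on one eigenspace of a normal subgroup
-/

set_option autoImplicit false
set_option linter.unusedSectionVars false
set_option linter.style.haveILetI false

namespace Cfsg.Agent.TwoDer

open scoped commutatorElement
open Module Subgroup Cfsg.Agent.Gross

variable {X : Type*} [Group X] [Finite X] {F : Type*} [Field F] {V : Type*} [AddCommGroup V] [Module F V]
  (ρ : X →* Module.End F V) (Z : Subgroup X) [hZ : Z.Normal]

theorem translate_one (χ : Z →* F) : translate χ (1 : X) = χ :=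
  MonoidHom.ext fun z => congrArg χ (Subtype.ext (show (1 : X)⁻¹ * (z : X) * 1 = z by simp))

theorem translate_mul (χ : Z →* F) (g h : X) : translate χ (g * h) = translate (translate χ h) g :=
  MonoidHom.ext fun z => congrArg χ (Subtype.ext
    (show (g * h)⁻¹ * (z : X) * (g * h) = h⁻¹ * (g⁻¹ * z * g) * h by group))

theorem translate_eq_of_mem {χ : Z →* F} {g : X} (hg : g ∈ charStab χ) : translate χ g = χ := by
  refine MonoidHom.ext fun z => ?_
  exact ((mem_charStab.1 hg) ⟨g⁻¹ * z * g, by simpa using hZ.conj_mem _ z.2 g⁻¹⟩ z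
    (by show (z : X) = g * (g⁻¹ * z * g) * g⁻¹; group)).symm

/-- The eigenspaces outside the orbit of `χ` under `S`. -/
def restSub (χ : Z →* F) (S : Subgroup X) : Submodule F V :=
  ⨆ χ' : {χ' : Z →* F // ∀ g ∈ S, translate χ g ≠ χ'}, eig ρ Z χ'.1

variable {ρ Z}

theorem eig_le_restSub {χ χ' : Z →* F} {S : Subgroup X} (h : ∀ g ∈ S, translate χ g ≠ χ') :
    eig ρ Z χ' ≤ restSub ρ Z χ S :=
  le_iSup (fun c : {c : Z →* F // ∀ g ∈ S, translate χ g ≠ c} => eig ρ Z c.1) ⟨χ', h⟩

theorem restSub_mono {χ : Z →* F} {S S' : Subgroup X} (h : S' ≤ S) :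
    restSub ρ Z χ S ≤ restSub ρ Z χ S' :=
  iSup_le fun c => eig_le_restSub fun g hg => c.2 g (h hg)

theorem apply_mem_restSub {χ : Z →* F} {S : Subgroup X} {t : X} (ht : t ∈ S) {v : V}
    (hv : v ∈ restSub ρ Z χ S) : ρ t v ∈ restSub ρ Z χ S := by
  have hle : restSub ρ Z χ S ≤ (restSub ρ Z χ S).comap (ρ t) := iSup_le fun c => fun w hw => by
    refine eig_le_restSub (χ' := translate c.1 t) ?_ (apply_mem_eig_translate hw)
    intro g hg e
    refine c.2 (t⁻¹ * g) (mul_mem (inv_mem ht) hg) ?_
    rw [translate_mul, e, ← translate_mul, inv_mul_cancel, translate_one]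
  exact hle hv

theorem eq_zero_of_mem_rest [FiniteDimensional F V] {χ : Z →* F} {S : Subgroup X} {v : V}
    (hv : v ∈ eig ρ Z χ) (hr : v ∈ restSub ρ Z χ S) : v = 0 := by
  classical
  obtain ⟨f, hf, hsum⟩ := (Submodule.mem_iSup_iff_exists_finsupp _ v).1 hr
  let ι := Option {c : Z →* F // ∀ g ∈ S, translate χ g ≠ c}
  let w : ι → V := fun i => i.elim v fun c => -f c
  let ch : ι → (Z →* F) := fun i => i.elim χ fun c => c.1
  have h := eq_zero_of_sum (ρ := ρ) (χ := ch) (insert none (f.support.image some)) w none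
    (Finset.mem_insert_self _ _)
    (fun i _ => by
      cases i with
      | none => exact hv
      | some c => exact Submodule.neg_mem _ (hf c))
    (fun i _ hne => by
      cases i with
      | none => exact absurd rfl hne
      | some c => exact fun e => c.2 1 (one_mem S) (by rw [translate_one]; exact e.symm))
    (by
      rw [Finset.sum_insert (by simp), Finset.sum_image (fun a _ b _ h => Option.some_injective _ h)]
      show v + ∑ c ∈ f.support, -f c = 0
      rw [Finset.sum_neg_distrib, show ∑ c ∈ f.support, f c = v from hsum, add_neg_cancel])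
  exact h

/-- **The ladder**: some derived subgroup fixes `χ` and the remaining series kills the eigenspace. -/
theorem ladder [FiniteDimensional F V] {T : Subgroup X} (hT : IsPGroup 2 T) {d : ℕ}
    (hTd : dser T d = ⊥) (hk : ∀ v, Kills ρ T d v) {χ : Z →* F} (hχ : eig ρ Z χ ≠ ⊥) :
    ∃ j, j < d ∧ dser T j ≤ charStab χ ∧ ∀ v ∈ eig ρ Z χ, Kills ρ (dser T j) (d - j) v := by
  classical
  haveI := Fact.mk Nat.prime_two
  have hex : ∃ i, dser T i ≤ charStab χ := ⟨d, hTd ▸ bot_le⟩
  set j := Nat.find hex with hj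
  have hjS : dser T j ≤ charStab χ := Nat.find_spec hex
  have hjd : j ≤ d := Nat.find_le (hTd ▸ bot_le)
  have hup : ∀ i, i ≤ j → ∀ v ∈ eig ρ Z χ,
      v ∈ killSub ρ (dser T i) (d - i) ⊔ restSub ρ Z χ (dser T i) := by
    intro i
    induction i with
    | zero => exact fun _ v _ => Submodule.mem_sup_left (mem_killSub.2 (hk v))
    | succ i ih =>
      intro hi v hv
      obtain ⟨t, ht, htne⟩ : ∃ t ∈ dser T i, ∀ g ∈ dser T (i + 1), translate χ g ≠ translate χ t := by
        by_contra hall
        push Not at hall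
        refine Nat.find_min hex (m := i) (by omega) (le_of_le_sup_commutator (hT.to_le (dser_le T i)) ?_)
        intro x hx
        obtain ⟨g, hg, hgx⟩ := hall x hx
        have h1 : g⁻¹ * x ∈ charStab χ := mem_charStab_of_translate (by
          rw [translate_mul, ← hgx, ← translate_mul, inv_mul_cancel, translate_one])
        have hg' : g ∈ ⁅dser T i, dser T i⁆ := hg
        have h1' : g⁻¹ * x ∈ dser T i := (dser T i).mul_mem ((dser T i).inv_mem (dser_succ_le T i hg)) hx
        have h2 : g * (g⁻¹ * x) ∈ ⁅dser T i, dser T i⁆ ⊔ (dser T i ⊓ charStab χ) :=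
          Subgroup.mul_mem _ (Subgroup.mem_sup_left hg') (Subgroup.mem_sup_right (Subgroup.mem_inf.2 ⟨h1', h1⟩))
        rwa [mul_inv_cancel_left] at h2
      obtain ⟨w, hw, r, hr, hwr⟩ := Submodule.mem_sup.1 (ih (by omega) v hv)
      have hd : d - i = (d - (i + 1)) + 1 := by omega
      have h1 : ρ t w - w ∈ killSub ρ (dser T (i + 1)) (d - (i + 1)) := by
        rw [mem_killSub, hd] at hw
        exact hw t ht
      have h2 : ρ t r - r ∈ restSub ρ Z χ (dser T (i + 1)) :=
        restSub_mono (dser_succ_le T i) (sub_mem (apply_mem_restSub ht hr) hr)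
      have h3 : ρ t v ∈ restSub ρ Z χ (dser T (i + 1)) :=
        eig_le_restSub htne (apply_mem_eig_translate hv)
      have he : v = ρ t v - ((ρ t w - w) + (ρ t r - r)) := by rw [← hwr, map_add]; abel
      rw [he]
      exact sub_mem (Submodule.mem_sup_right h3) (add_mem (Submodule.mem_sup_left h1) (Submodule.mem_sup_right h2))
  have hfix : ∀ (k : ℕ) (S : Subgroup X), S ≤ dser T j → ∀ x ∈ eig ρ Z χ, ∀ w, Kills ρ S k w →
      x - w ∈ restSub ρ Z χ (dser T j) → Kills ρ S k x := by
    intro k
    induction k with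
    | zero =>
      intro S _ x hx w hw hr
      rw [kills_zero_iff] at hw ⊢
      rw [hw, sub_zero] at hr
      exact eq_zero_of_mem_rest hx hr
    | succ k ih =>
      intro S hS x hx w hw hr t ht
      refine ih _ ((dser_succ_le S 0).trans hS) _
        (sub_mem (apply_mem_eig (hjS (hS ht)) hx) hx) _ (hw t ht) ?_
      rw [show ρ t x - x - (ρ t w - w) = ρ t (x - w) - (x - w) by rw [map_sub]; abel]
      exact sub_mem (apply_mem_restSub (hS ht) hr) hr
  have hmain : ∀ v ∈ eig ρ Z χ, Kills ρ (dser T j) (d - j) v := fun v hv => by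
    obtain ⟨w, hw, r, hr, hwr⟩ := Submodule.mem_sup.1 (hup j le_rfl v hv)
    exact hfix _ _ le_rfl v hv w hw (by rw [← hwr, add_sub_cancel_left]; exact hr)
  refine ⟨j, lt_of_le_of_ne hjd fun h => hχ (eq_bot_iff.2 fun v hv => ?_), hjS, hmain⟩
  have h1 := hmain v hv
  rw [h, Nat.sub_self, kills_zero_iff] at h1
  exact h1

end Cfsg.Agent.TwoDer
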