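import Cfsg.Agent.TwoDer.Global
import Cfsg.Agent.TwoLen.Layer

/-!
# Bryukhanova: the 2-length is at most the derived length of a Sylow 2-subgroup
-/

set_option autoImplicit false
set_option linter.unusedSectionVars false
set_option linter.style.haveILetI false

namespace Cfsg.Agent.TwoDer

open scoped commutatorElement TensorProduct
open Subgroup Cfsg Cfsg.Agent.TwoLen

universe u

theorem exists_sylow_map_ge {G H : Type*} [Group G] [Finite G] [Group H] {f : G →* H}
    (hf : Function.Surjective f) {T : Subgroup H} (hT : IsPGroup 2 T) :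
    ∃ S : Sylow 2 G, T ≤ (S : Subgroup G).map f := by
  haveI := Fact.mk Nat.prime_two
  haveI : Finite H := Finite.of_surjective f hf
  obtain ⟨Q, hQ⟩ := hT.exists_le_sylow
  obtain ⟨S, rfl⟩ := Sylow.mapSurjective_surjective hf 2 Q
  exact ⟨S, hQ⟩

theorem mod_val_sub {X : Type*} [Group X] {V : Subgroup X} [V.Normal] {hV : HH.IsModuleSubgroup 2 V}
    (a b : HH.Mod hV) : (a - b).val = a.val * b.val⁻¹ := by
  rw [eq_mul_inv_iff_mul_eq, ← HH.Mod.val_add, sub_add_cancel]

/-- A representation on two layers gives a faithful one. -/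
theorem exists_layered {H : Type u} [Group H] [Finite H] (hO : pCore 2 H = ⊥) {M : Type u}
    [AddCommGroup M] [Module (ZMod 2) M] [FiniteDimensional (ZMod 2) M]
    {ρ : H →* Module.End (ZMod 2) M} (hinj : Function.Injective ρ) {W1 : Submodule (ZMod 2) M}
    (h1 : ∀ g, ∀ x ∈ W1, ρ g x ∈ W1) :
    ∃ (r1 : H →* Module.End (ZMod 2) W1) (r2 : H →* Module.End (ZMod 2) (M ⧸ W1)),
      (∀ g (x : W1), (r1 g x : M) = ρ g x) ∧
      (∀ g (x : M), r2 g (Submodule.Quotient.mk x) = Submodule.Quotient.mk (ρ g x)) ∧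
      ∃ r : H →* Module.End (ZMod 2) (W1 × (M ⧸ W1)), Function.Injective r ∧
        ∀ g a b, r g (a, b) = (r1 g a, r2 g b) := by
  haveI := Fact.mk Nat.prime_two
  let r1 : H →* Module.End (ZMod 2) W1 :=
    { toFun := fun g => (ρ g).restrict (h1 g)
      map_one' := LinearMap.ext fun x => Subtype.ext (by simp)
      map_mul' := fun a b => LinearMap.ext fun x => Subtype.ext (by simp [Module.End.mul_apply]) }
  let r2 : H →* Module.End (ZMod 2) (M ⧸ W1) :=
    { toFun := fun g => W1.mapQ W1 (ρ g) fun x hx => h1 g x hx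
      map_one' := Submodule.linearMap_qext _ (LinearMap.ext fun x => by simp)
      map_mul' := fun a b => Submodule.linearMap_qext _ (LinearMap.ext fun x => by simp [Module.End.mul_apply]) }
  let r : H →* Module.End (ZMod 2) (W1 × (M ⧸ W1)) :=
    { toFun := fun g => (r1 g).prodMap (r2 g)
      map_one' := by simp only [map_one]; exact LinearMap.ext fun ⟨a, b⟩ => rfl
      map_mul' := fun a b => by simp only [map_mul]; exact LinearMap.ext fun ⟨x, y⟩ => rfl }
  refine ⟨r1, r2, fun g x => rfl, fun g x => rfl, r, ?_, fun g a b => rfl⟩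
  rw [← MonoidHom.ker_eq_bot_iff, eq_bot_iff, ← hO]
  refine PSolv.le_pCore inferInstance fun x => ⟨1, Subtype.ext ?_⟩
  set g : H := x.1 with hg
  have hx : r g = 1 := x.2
  set D := ρ g - 1 with hD
  have e1 : ∀ w ∈ W1, D w = 0 := fun w hw => by
    have := congrArg (fun p : W1 × (M ⧸ W1) => (p.1 : M)) (LinearMap.congr_fun hx (⟨w, hw⟩, 0))
    exact sub_eq_zero.2 this
  have e2 : ∀ w, D w ∈ W1 := fun w => by
    have := congrArg (fun p : W1 × (M ⧸ W1) => p.2) (LinearMap.congr_fun hx (0, Submodule.Quotient.mk w))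
    exact (Submodule.Quotient.eq W1).1 this
  have h4 : D ^ 2 ^ 1 = 0 := LinearMap.ext fun w => by
    show D (D w) = 0
    exact e1 _ (e2 w)
  rw [SubmonoidClass.coe_pow, OneMemClass.coe_one, ← hg]
  rcases subsingleton_or_nontrivial M with hW | hW
  · exact hinj (LinearMap.ext fun w => Subsingleton.elim _ _)
  haveI : CharP (Module.End (ZMod 2) M) 2 :=
    charP_of_injective_algebraMap (algebraMap (ZMod 2) (Module.End (ZMod 2) M)).injective 2
  refine hinj ?_
  rw [hD, sub_pow_char_pow_of_commute _ _ (Commute.one_right _), one_pow, sub_eq_zero, ← map_pow] at h4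
  rw [h4, map_one]

theorem kills_prod {H : Type*} [Group H] {F : Type*} [Semiring F] {A B : Type*} [AddCommGroup A] [Module F A]
    [AddCommGroup B] [Module F B] {r1 : H →* Module.End F A} {r2 : H →* Module.End F B}
    {r : H →* Module.End F (A × B)} (hr : ∀ g a b, r g (a, b) = (r1 g a, r2 g b))
    {T : Subgroup H} {k : ℕ} {a : A} {b : B} (ha : Kills r1 T k a) (hb : Kills r2 T k b) :
    Kills r T k (a, b) := by
  induction k generalizing T a b with
  | zero => rw [kills_zero_iff] at *; rw [ha, hb]; rfl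
  | succ k ih => intro t ht; rw [hr]; exact ih (ha t ht) (hb t ht)

set_option maxHeartbeats 800000 in
/-- **The exceptional modules**: the 2-length is smaller than the length of the series. -/
theorem pLengthLE_of_exceptional : ∀ (n : ℕ) (G : Type u) [Group G] [Finite G] [Group.IsSolvable G]
    (V : Type u) [AddCommGroup V] [Module (ZMod 2) V] [FiniteDimensional (ZMod 2) V]
    (ρ : G →* Module.End (ZMod 2) V), pCore 2 G = ⊥ → Function.Injective ρ →
    Exceptional ρ (n + 1) → PLengthLE 2 n G := by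
  haveI := Fact.mk Nat.prime_two
  have hp := Nat.prime_two
  intro n
  induction n with
  | zero =>
    intro G _ _ _ V _ _ _ ρ _ hinj hexc
    refine PLength.pLengthLE_zero_of_coprime ((Nat.Prime.coprime_iff_not_dvd hp).2 (fun h => ?_)).symm
    obtain ⟨x, hx⟩ := exists_prime_orderOf_dvd_card' 2 h
    have hT : IsPGroup 2 (zpowers x) := IsPGroup.of_card (n := 1) (by rw [Nat.card_zpowers, hx, pow_one])
    have h1 : ρ x = 1 := LinearMap.ext fun v =>
      (kills_one_iff ρ (zpowers x) v).1 ((hexc _ hT).2 v) x (mem_zpowers x)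
    rw [hinj (h1.trans (map_one ρ).symm), orderOf_one] at hx
    omega
  | succ n ih =>
    intro G _ _ _ V _ _ _ ρ hO2 hinj hexc
    -- over the algebraic closure
    let F := AlgebraicClosure (ZMod 2)
    haveI : CharP F 2 := charP_of_injective_algebraMap (algebraMap (ZMod 2) F).injective 2
    let ρF : G →* Module.End F (F ⊗[ZMod 2] V) :=
      (Module.End.baseChangeHom (ZMod 2) F V).toMonoidHom.comp ρ
    have hinjF : Function.Injective ρF := fun a b h => hinj (Gross.baseChange_injective F h)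
    have hexcF : Exceptional ρF (n + 1 + 1) := fun T hT => ⟨(hexc T hT).1, fun v => by
      induction v using TensorProduct.induction_on with
      | zero => exact kills_zero T _
      | tmul c v =>
        rw [show c ⊗ₜ[ZMod 2] v = c • ((1 : F) ⊗ₜ[ZMod 2] v) by
          rw [TensorProduct.smul_tmul', smul_eq_mul, mul_one]]
        refine kills_smul c ?_
        exact kills_map (ρ := ρ) (ρ' := ρF) (MonoidHom.id G)
          (TensorProduct.mk (ZMod 2) F V 1).toAddMonoidHom (fun g x => by
            show (1 : F) ⊗ₜ[ZMod 2] ρ g x = (ρ g).baseChange F ((1 : F) ⊗ₜ[ZMod 2] x)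
            rw [LinearMap.baseChange_tmul])
          (Subgroup.map_id T).le ((hexc T hT).2 v)
      | add x y hx hy => exact kills_add hx hy⟩
    have hgross : ∀ x ∈ dset G (n + 1 + 1), x ∈ pPrimePCore 2 G := fun x hx => dset_le hO2 hinjF hexcF hx
    -- the quotients
    set O := pPrimeCore 2 G with hO
    set f := QuotientGroup.mk' O with hf
    have hfs : Function.Surjective f := QuotientGroup.mk'_surjective O
    set P3 := pCore 2 (G ⧸ O) with hP3
    haveI hP3n : P3.Normal := by haveI := PSolv.pCore_characteristic 2 (G ⧸ O); infer_instance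
    haveI : Group.IsSolvable (G ⧸ O) := Group.isSolvable_of_surjective hfs
    obtain ⟨F2, hF2n, hF2P, hVexp, hVcomm, hC, hcore⟩ := S3788.exists_reduction
      (PSolv.isPSolvable_of_isSolvable (inferInstance : Group.IsSolvable (G ⧸ O)))
      (PSolv.pPrimeCore_quotient_eq_bot 2 G)
    set π := QuotientGroup.mk' F2 with hπ
    have hπs : Function.Surjective π := QuotientGroup.mk'_surjective F2
    set V3 := P3.map π with hV3
    haveI : V3.Normal := hP3n.map π hπs
    have hO3 : pCore 2 (((G ⧸ O) ⧸ F2) ⧸ V3) = ⊥ := by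
      have key : ∀ W : Subgroup ((G ⧸ O) ⧸ F2), W = pCore 2 ((G ⧸ O) ⧸ F2) → ∀ [W.Normal],
          pCore 2 (((G ⧸ O) ⧸ F2) ⧸ W) = ⊥ := by
        rintro W rfl _; exact PSolv.pCore_quotient_eq_bot 2 _
      exact key V3 hcore
    have hMod : HH.IsModuleSubgroup 2 V3 :=
      ⟨⟨⟨fun a b => Subtype.ext (hVcomm a a.2 b b.2)⟩⟩, hVexp⟩
    obtain ⟨ρ3, hρ3⟩ := HH.exists_conjRep hMod
    haveI : Module.Finite (ZMod 2) (HH.Mod hMod) := Module.Finite.of_finite
    set φ := π.comp f with hφ
    set ω := (QuotientGroup.mk' V3).comp φ with hω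
    have hωs : Function.Surjective ω :=
      (QuotientGroup.mk'_surjective V3).comp (hπs.comp hfs)
    haveI : Group.IsSolvable (((G ⧸ O) ⧸ F2) ⧸ V3) := Group.isSolvable_of_surjective hωs
    -- the subgroup generated by the last derived subgroups
    set E3 := closure (f '' dset G (n + 1 + 1)) with hE3
    have hE3P : E3 ≤ P3 := (closure_le _).2 (by rintro _ ⟨x, hx, rfl⟩; exact hgross x hx)
    haveI hE3n : E3.Normal := by
      refine ⟨fun a ha g => ?_⟩
      obtain ⟨g, rfl⟩ := hfs g
      have hle : E3 ≤ E3.comap (MulAut.conj (f g)).toMonoidHom := by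
        refine (closure_le _).2 ?_
        rintro _ ⟨x, hx, rfl⟩
        exact subset_closure ⟨g * x * g⁻¹, conj_mem_dset hx g, by simp⟩
      exact hle ha
    set W1 := modSub hMod (E3.map π)
    have hinv : ∀ g, ∀ w ∈ W1, ρ3 g w ∈ W1 := by
      intro g w hw
      obtain ⟨a, rfl⟩ := QuotientGroup.mk'_surjective V3 g
      rw [mem_modSub] at hw ⊢
      rw [show QuotientGroup.mk' V3 a = (a : ((G ⧸ O) ⧸ F2) ⧸ V3) from rfl, hρ3]
      exact (hE3n.map π hπs).conj_mem _ hw a
    obtain ⟨r1, r2, hr1, hr2, r, hrinj, hr⟩ :=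
      exists_layered hO3 (HH.conjRep_injective hC hρ3) hinv
    have hdiff : ∀ (s t : G) (v : HH.Mod hMod), φ s = v.val → φ ⁅t, s⁆ = (ρ3 (ω t) v - v).val := by
      intro s t v hv
      rw [mod_val_sub, show ω t = ((φ t : (G ⧸ O) ⧸ F2) : ((G ⧸ O) ⧸ F2) ⧸ V3) from rfl, hρ3, ← hv,
        map_commutatorElement, commutatorElement_def]
    have hexc3 : Exceptional r (n + 1) := by
      intro T hT
      obtain ⟨S, hS⟩ := exists_sylow_map_ge hωs hT
      have hSp : IsPGroup 2 (S : Subgroup G) := S.2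
      have hD : ∀ x ∈ dser (S : Subgroup G) (n + 1), f x ∈ E3 := fun x hx =>
        subset_closure ⟨x, ⟨S, hSp, hx⟩, rfl⟩
      refine ⟨eq_bot_iff.2 fun x hx => ?_, ?_⟩
      · obtain ⟨y, hy, rfl⟩ := (dser_map ω (S : Subgroup G) (n + 1)).le (dser_mono hS _ hx)
        exact Subgroup.mem_bot.2 ((QuotientGroup.eq_one_iff _).2 (mem_map_of_mem π (hE3P (hD y hy))))
      rintro ⟨a, b⟩
      refine kills_prod hr ?_ ?_
      · -- the lower layer
        obtain ⟨e, he, hea⟩ : ∃ e ∈ (S : Subgroup G), f e ∈ E3 ∧ φ e = (a : HH.Mod hMod).val := by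
          obtain ⟨c, hc, hca⟩ := mem_modSub.1 a.2
          obtain ⟨e, he, rfl⟩ : c ∈ (S : Subgroup G).map f :=
            PSolv.pCore_le_sylow (S.mapSurjective hfs) (hE3P hc)
          exact ⟨e, he, hc, hca⟩
        have hES : E3 ≤ (closure {x | x ∈ (S : Subgroup G) ∧ x ∈ dset G (n + 1 + 1)}).map f := by
          refine (closure_le _).2 ?_
          rintro _ ⟨x, hx, rfl⟩
          obtain ⟨o, ho, hoS⟩ := exists_conj_mem_sylow S (exists_orderOf_of_mem_dset hx) (hgross x hx)
          refine ⟨o * x * o⁻¹, subset_closure ⟨hoS, conj_mem_dset hx o⟩, ?_⟩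
          rw [map_mul, map_mul, map_inv, show f o = 1 from (QuotientGroup.eq_one_iff o).2 ho, one_mul,
            inv_one, mul_one]
        refine kills_mono hS (kills_of_lift (ρ := r1) ω
          (fun s (v : W1) => f s ∈ E3 ∧ φ s = (v : HH.Mod hMod).val) (fun s t v hv => ⟨?_, ?_⟩)
          n 1 (S : Subgroup G) ?_ e he a hea)
        · rw [map_commutatorElement, commutatorElement_def]
          exact mul_mem (hE3n.conj_mem _ hv.1 _) (inv_mem hv.1)
        · rw [hdiff s t v hv.2, Submodule.coe_sub, hr1]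
        · rintro s hs v ⟨hsE, hsv⟩
          rw [kills_one_iff]
          rintro _ ⟨t, ht, rfl⟩
          have hsc : s ∈ closure {x | x ∈ (S : Subgroup G) ∧ x ∈ dset G (n + 1 + 1)} := by
            obtain ⟨e', he', hee⟩ := hES hsE
            have he'S : e' ∈ (S : Subgroup G) :=
              ((closure_le (K := (S : Subgroup G))).2 fun x hx => hx.1) he'
            have h1 : s⁻¹ * e' = 1 := LocalP.eq_one_of_mem_isPGroup hSp
              (mul_mem (inv_mem (dser_le _ _ hs)) he'S)
              (Element.coprime_orderOf_of_mem (PSolv.coprime_card_pPrimeCore 2 G)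
                ((QuotientGroup.eq_one_iff _).1 (show f (s⁻¹ * e') = 1 by
                  rw [map_mul, map_inv, hee, inv_mul_cancel])))
            rwa [inv_mul_eq_one.1 h1]
          have hcomm := commute_of_mem_closure hO2 hinjF (by omega) hexcF hSp
            (u := s) (t := t) (by rwa [show n + 1 + 1 - 2 = n by omega])
            (by rwa [show n + 1 + 1 - 2 = n by omega]) hsc
          refine Subtype.ext (sub_eq_zero.1 (HH.Mod.ext ?_))
          rw [hr1, ← hdiff s t v hsv, commutatorElement_eq_one_iff_commute.2 hcomm.symm, map_one,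
            HH.Mod.val_zero]
      · -- the upper layer
        obtain ⟨b, rfl⟩ := Submodule.Quotient.mk_surjective _ b
        obtain ⟨e, he, hea⟩ : ∃ e ∈ (S : Subgroup G), φ e = b.val := by
          obtain ⟨c, hc, hcb⟩ := (b.val_mem : b.val ∈ P3.map π)
          obtain ⟨e, he, rfl⟩ : c ∈ (S : Subgroup G).map f := PSolv.pCore_le_sylow (S.mapSurjective hfs) hc
          exact ⟨e, he, hcb⟩
        refine kills_mono hS (kills_of_lift (ρ := r2) ω
          (fun s (v : HH.Mod hMod ⧸ W1) => ∃ v0 : HH.Mod hMod, φ s = v0.val ∧ v = Submodule.Quotient.mk v0)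
          ?_ (n + 1) 0 (S : Subgroup G) ?_ e he _ ⟨b, hea, rfl⟩)
        · rintro s t _ ⟨v0, hv0, rfl⟩
          exact ⟨ρ3 (ω t) v0 - v0, hdiff s t v0 hv0, by rw [hr2, Submodule.Quotient.mk_sub]⟩
        · rintro s hs _ ⟨v0, hv0, rfl⟩
          rw [kills_zero_iff, Submodule.Quotient.mk_eq_zero, mem_modSub, ← hv0]
          exact mem_map_of_mem π (hD s hs)
    have hH := ih (((G ⧸ O) ⧸ F2) ⧸ V3) _ r hO3 hrinj hexc3
    -- assemble
    set ψ : (G ⧸ O) ⧸ P3 →* ((G ⧸ O) ⧸ F2) ⧸ V3 := QuotientGroup.lift P3 ((QuotientGroup.mk' V3).comp π)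
      (fun a ha => (QuotientGroup.eq_one_iff _).2 (mem_map_of_mem π ha)) with hψ
    have hψb : Function.Bijective ψ := by
      refine ⟨(injective_iff_map_eq_one ψ).2 fun a => ?_, fun b => ?_⟩
      · induction a using QuotientGroup.induction_on with
        | H a =>
          intro ha
          refine (QuotientGroup.eq_one_iff a).2 ?_
          have h1 : a ∈ (P3.map π).comap π := (QuotientGroup.eq_one_iff (π a)).1 ha
          rw [comap_map_eq, QuotientGroup.ker_mk', sup_eq_left.2 hF2P] at h1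
          exact h1
      · obtain ⟨a, rfl⟩ := ((QuotientGroup.mk'_surjective V3).comp hπs) b
        exact ⟨a, rfl⟩
    have h3 : PLengthLE 2 n ((G ⧸ O) ⧸ P3) :=
      PSolv.pLengthLE_of_surjective (MulEquiv.ofBijective ψ hψb).symm.toMonoidHom
        (MulEquiv.ofBijective ψ hψb).symm.surjective hH
    have h4 : PLengthLE 2 (1 + n) (G ⧸ O) :=
      PLength.pLengthLE_add P3 (PLength.pLengthLE_of_isPGroup (PSolv.isPGroup_pCore 2 _)) h3
    have h5 := PLength.pLengthLE_add O (a := 0)
      (PLength.pLengthLE_zero_of_coprime (PSolv.coprime_card_pPrimeCore 2 G)) h4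
    rwa [zero_add, add_comm 1 n] at h5

/-- **The 2-length of a solvable group is at most the derived length of a Sylow 2-subgroup.** -/
theorem pLengthLE_derived (d : ℕ) (G : Type u) [Group G] [Finite G] [Group.IsSolvable G]
    (hd : ∀ S : Sylow 2 G, dser (S : Subgroup G) d = ⊥) : PLengthLE 2 d G := by
  haveI := Fact.mk Nat.prime_two
  have hp := Nat.prime_two
  rcases Nat.eq_zero_or_pos d with rfl | hd0
  · refine PLength.pLengthLE_zero_of_coprime ((Nat.Prime.coprime_iff_not_dvd hp).2 (fun h => ?_)).symm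
    obtain ⟨x, hx⟩ := exists_prime_orderOf_dvd_card' 2 h
    obtain ⟨S, hS⟩ := (IsPGroup.of_card (p := 2) (n := 1)
      (by rw [Nat.card_zpowers, hx, pow_one] : Nat.card (zpowers x) = 2 ^ 1)).exists_le_sylow
    have hx1 : x ∈ (⊥ : Subgroup G) := hd S ▸ hS (mem_zpowers x)
    rw [Subgroup.mem_bot.1 hx1, orderOf_one] at hx
    omega
  obtain ⟨n, rfl⟩ : ∃ n, d = n + 1 := ⟨d - 1, by omega⟩
  set N := pPrimeCore 2 G with hN
  haveI : Group.IsSolvable (G ⧸ N) := Group.isSolvable_of_surjective (QuotientGroup.mk'_surjective N)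
  obtain ⟨F, hFn, hFP, hVexp, hVcomm, hC, hcore⟩ := S3788.exists_reduction
    (PSolv.isPSolvable_of_isSolvable (inferInstance : Group.IsSolvable (G ⧸ N)))
    (PSolv.pPrimeCore_quotient_eq_bot 2 G)
  set P := pCore 2 (G ⧸ N) with hP
  set π := QuotientGroup.mk' F with hπ
  have hπs : Function.Surjective π := QuotientGroup.mk'_surjective F
  set V := P.map π with hV
  haveI hPn : P.Normal := by haveI := PSolv.pCore_characteristic 2 (G ⧸ N); infer_instance
  haveI : V.Normal := hPn.map π hπs
  have hMod : HH.IsModuleSubgroup 2 V :=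
    ⟨⟨⟨fun a b => Subtype.ext (hVcomm a a.2 b b.2)⟩⟩, hVexp⟩
  set φ := π.comp (QuotientGroup.mk' N) with hφ
  have hφs : Function.Surjective φ := hπs.comp (QuotientGroup.mk'_surjective N)
  set ψ : (G ⧸ N) ⧸ P →* ((G ⧸ N) ⧸ F) ⧸ V := QuotientGroup.lift P ((QuotientGroup.mk' V).comp π)
    (fun a ha => (QuotientGroup.eq_one_iff _).2 (mem_map_of_mem π ha)) with hψ
  have hψi : Function.Injective ψ := by
    rw [injective_iff_map_eq_one]
    intro a
    induction a using QuotientGroup.induction_on with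
    | H a =>
      intro ha
      refine (QuotientGroup.eq_one_iff a).2 ?_
      have h1 : a ∈ (P.map π).comap π := (QuotientGroup.eq_one_iff (π a)).1 ha
      rw [comap_map_eq, QuotientGroup.ker_mk', sup_eq_left.2 hFP] at h1
      exact h1
  obtain ⟨ρ, hρ⟩ := HH.exists_conjRep hMod
  haveI : Module.Finite (ZMod 2) (HH.Mod hMod) := Module.Finite.of_finite
  haveI : Group.IsSolvable ((G ⧸ N) ⧸ P) :=
    Group.isSolvable_of_surjective (QuotientGroup.mk'_surjective P)
  set ω := (QuotientGroup.mk' V).comp φ with hω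
  have hexc : Exceptional (ρ.comp ψ) (n + 1) := by
    intro T hT
    obtain ⟨S, hS⟩ := exists_sylow_map_ge (f := ω)
      ((QuotientGroup.mk'_surjective V).comp hφs) (hT.map ψ)
    refine ⟨?_, fun v => ?_⟩
    · have h1 : dser (T.map ψ) (n + 1) = ⊥ := eq_bot_iff.2 ((dser_mono hS _).trans (by
        rw [dser_map, hd, Subgroup.map_bot]))
      rw [dser_map] at h1
      exact (Subgroup.map_eq_bot_iff_of_injective _ hψi).1 h1
    refine kills_map (ρ := ρ) (ρ' := ρ.comp ψ) ψ (AddMonoidHom.id _) (fun g x => rfl) le_rfl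
      (kills_mono hS ?_)
    obtain ⟨e, he, hev⟩ : ∃ e ∈ (S : Subgroup G), φ e = v.val := by
      have h1 : v.val ∈ (S : Subgroup G).map φ := by
        refine PSolv.pCore_le_sylow (S.mapSurjective hφs) ?_
        rw [← hcore]
        exact v.val_mem
      exact h1
    refine kills_of_lift (ρ := ρ) ω (fun s (w : HH.Mod hMod) => φ s = w.val) (fun s t w hw => ?_)
      (n + 1) 0 (S : Subgroup G) (fun s hs w hw => ?_) e he v hev
    · show φ ⁅t, s⁆ = _
      rw [mod_val_sub, show ω t = ((φ t : (G ⧸ N) ⧸ F) : ((G ⧸ N) ⧸ F) ⧸ V) from rfl, hρ, ← hw,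
        map_commutatorElement, commutatorElement_def]
    · rw [hd S, Subgroup.mem_bot] at hs
      rw [kills_zero_iff]
      apply HH.Mod.ext
      rw [← show φ s = w.val from hw, hs, map_one, HH.Mod.val_zero]
  have h1 := pLengthLE_of_exceptional n ((G ⧸ N) ⧸ P) (HH.Mod hMod) (ρ.comp ψ)
    (PSolv.pCore_quotient_eq_bot 2 (G ⧸ N)) ((HH.conjRep_injective hC hρ).comp hψi) hexc
  have h2 : PLengthLE 2 (1 + n) (G ⧸ N) :=
    PLength.pLengthLE_add P (PLength.pLengthLE_of_isPGroup (PSolv.isPGroup_pCore 2 _)) h1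
  have h6 := PLength.pLengthLE_add N (a := 0)
    (PLength.pLengthLE_zero_of_coprime (PSolv.coprime_card_pPrimeCore 2 G)) h2
  rwa [zero_add, add_comm 1 n] at h6

end Cfsg.Agent.TwoDer
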