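import Cfsg.Agent.TwoDer.Series
import Cfsg.Agent.TwoLen.Plane

/-!
# Two planes over the field of three elements exchanged by a 2-group: an element of order eight
-/

set_option autoImplicit false
set_option linter.unusedSectionVars false
set_option linter.style.haveILetI false

namespace Cfsg.Agent.TwoDer

open scoped commutatorElement
open Module LinearMap Subgroup Cfsg.Agent.Gross Cfsg.Agent.TwoLen

variable {q : ℕ} [Fact q.Prime] {S : Type*} [Group S] {W : Type*} [AddCommGroup W] [Module (ZMod q) W]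
  [FiniteDimensional (ZMod q) W] {B : W →ₗ[ZMod q] W →ₗ[ZMod q] ZMod q}
  {σ : S →* Module.End (ZMod q) W} {P : Submodule (ZMod q) W}

/-- A nondegenerate plane. -/
structure IsPlane (B : W →ₗ[ZMod q] W →ₗ[ZMod q] ZMod q) (P : Submodule (ZMod q) W) : Prop where
  dim : finrank (ZMod q) P = 2
  nondeg : ∀ v ∈ P, (∀ u ∈ P, B u v = 0) → v = 0

theorem IsPlane.dependent (hP : IsPlane B P) (hσ : IsIsoRep σ B) {n p : W} (hn : n ∈ P) (hp : p ∈ P)
    (hn0 : n ≠ 0) (hB : B n p = 0) : ∃ c : ZMod q, p = c • n := by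
  by_contra hind
  push Not at hind
  refine hn0 (hP.nondeg n hn ?_)
  have hle : Submodule.span (ZMod q) {n, p} ≤ P :=
    Submodule.span_le.2 (by rintro x (rfl | rfl) <;> assumption)
  have hli : LinearIndependent (ZMod q) ![n, p] :=
    (LinearIndependent.pair_iff' hn0).2 fun c e => hind c e.symm
  have hd : 2 ≤ finrank (ZMod q) (Submodule.span (ZMod q) ({n, p} : Set W)) := by
    have h := finrank_span_eq_card hli
    rw [Matrix.range_cons_cons_empty, Fintype.card_fin] at h
    omega
  have heq : Submodule.span (ZMod q) {n, p} = P := Submodule.eq_of_le_of_finrank_le hle (by rw [hP.dim]; exact hd)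
  intro u hu
  rw [← heq, Submodule.mem_span_pair] at hu
  obtain ⟨c, e, rfl⟩ := hu
  rw [map_add, map_smul, map_smul, LinearMap.add_apply, LinearMap.smul_apply, LinearMap.smul_apply,
    hσ.alt, alt_swap hσ.alt p n, hB]
  simp

/-- An involution of a plane is a scalar. -/
theorem IsPlane.scalar_of_sq (hP : IsPlane B P) (hσ : IsIsoRep σ B) (hq : q ≠ 2) {g : S}
    (hg : ∀ u ∈ P, σ g u ∈ P) (hg2 : ∀ u ∈ P, σ g (σ g u) = u) : g ∈ scalarOn σ P := by
  by_contra hne
  rw [mem_scalarOn] at hne
  push Not at hne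
  obtain ⟨⟨u₁, hu₁, hu₁'⟩, u₂, hu₂, hu₂'⟩ := hne
  set n := u₁ - σ g u₁ with hn
  set p := u₂ + σ g u₂ with hp
  have hn0 : n ≠ 0 := sub_ne_zero.2 (Ne.symm hu₁')
  have hgn : σ g n = -n := by rw [hn, map_sub, hg2 u₁ hu₁, neg_sub]
  have hgp : σ g p = p := by rw [hp, map_add, hg2 u₂ hu₂, add_comm]
  have hB : B n p = 0 := by
    have h := hσ.iso g n p
    rw [hgn, hgp, map_neg, LinearMap.neg_apply] at h
    have h2 : (2 : ZMod q) * B n p = 0 := by linear_combination (-1 : ZMod q) * h
    exact (mul_eq_zero.1 h2).resolve_left (two_ne_zero_zmod hq)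
  obtain ⟨c, hc⟩ := hP.dependent hσ (sub_mem hu₁ (hg u₁ hu₁)) (add_mem hu₂ (hg u₂ hu₂)) hn0 hB
  have h1 : σ g p = -p := by rw [show p = c • n from hc, map_smul, hgn, smul_neg]
  rw [hgp] at h1
  have h2 : (2 : ZMod q) • p = 0 := by
    rw [two_smul]
    nth_rw 2 [h1]
    exact add_neg_cancel p
  exact hu₂' (eq_neg_of_add_eq_zero_right ((smul_eq_zero.1 h2).resolve_left (two_ne_zero_zmod hq)))

theorem sq_sub_two_ne_zero : ∀ t : ZMod 3, t * t - 2 ≠ 0 := by decide

/-- Over three elements the square of a 2-element of a plane is a scalar. -/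
theorem IsPlane.sq_scalar (hP : IsPlane B P) (hσ : IsIsoRep σ B) (hq : q = 3) {g : S}
    (hg : ∀ u ∈ P, σ g u ∈ P) {k : ℕ} (hk : g ^ 2 ^ k = 1) : g ^ 2 ∈ scalarOn σ P := by
  subst hq
  have hpow : ∀ (n : ℕ), ∀ u ∈ P, σ (g ^ n) u ∈ P := by
    intro n
    induction n with
    | zero => intro u hu; simpa using hu
    | succ n ih => intro u hu; rw [pow_succ, map_mul, Module.End.mul_apply]; exact ih _ (hg u hu)
  have hdown : ∀ m : ℕ, (∀ u ∈ P, σ (g ^ (8 * m)) u = u) → ∀ u ∈ P, σ (g ^ (4 * m)) u = u := by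
    intro m h8
    have hsc : g ^ (4 * m) ∈ scalarOn σ P := hP.scalar_of_sq hσ (by norm_num) (hpow _) fun u hu => by
      rw [← Module.End.mul_apply, ← map_mul, ← pow_add, show 4 * m + 4 * m = 8 * m by ring, h8 u hu]
    refine (mem_scalarOn.1 hsc).resolve_right fun hneg => ?_
    set x := g ^ m with hx
    have hxP : ∀ u ∈ P, σ x u ∈ P := hpow m
    have hx4 : ∀ u ∈ P, σ x (σ x (σ x (σ x u))) = -u := fun u hu => by
      simp only [← Module.End.mul_apply, ← map_mul]
      rw [show x * (x * (x * x)) = g ^ (4 * m) by rw [hx, ← pow_add, ← pow_add, ← pow_add]; ring_nf]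
      exact hneg u hu
    have hbot : P ≠ ⊥ := fun e => by
      have := hP.dim
      rw [e, finrank_bot] at this
      omega
    obtain ⟨u, hu, hu0⟩ := Submodule.exists_mem_ne_zero_of_ne_bot hbot
    -- `x⁻¹ u = -x³ u`
    set y := -σ x (σ x (σ x u)) with hy
    have hxy : σ x y = u := by rw [hy, map_neg, hx4 u hu, neg_neg]
    have hyP : y ∈ P := neg_mem (hxP _ (hxP _ (hxP _ hu)))
    have hB : B u (σ x u + y) = 0 := by
      have h1 := hσ.iso x u y
      rw [hxy] at h1
      rw [map_add, ← h1, alt_swap hσ.alt (σ x u) u, add_neg_cancel]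
    obtain ⟨t, ht⟩ := hP.dependent hσ hu (add_mem (hxP u hu) hyP) hu0 hB
    have h2 := congrArg (σ x) ht
    rw [map_add, hxy, map_smul] at h2
    have h3 : u - σ x (σ x u) = t • y := by
      refine (Function.LeftInverse.injective (apply_inv_apply σ x)) ?_
      rw [map_sub, map_smul, hxy, ← ht, hy]
      abel
    have h5 : (t * t - 2) • u = 0 := by
      have h6 : (2 : ZMod 3) • u = t • (σ x u + y) := by
        rw [smul_add, ← h2, ← h3, two_smul]; abel
      rw [sub_smul, h6, ht, smul_smul, sub_self]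
    refine absurd ((smul_eq_zero.1 h5).resolve_right hu0) ?_
    exact sq_sub_two_ne_zero t
  have h4 : ∀ u ∈ P, σ (g ^ 4) u = u := by
    have : ∀ j, ∀ u ∈ P, σ (g ^ (4 * 2 ^ (k - j))) u = u := by
      intro j
      induction j with
      | zero =>
        intro u _
        rw [Nat.sub_zero, mul_comm, pow_mul, hk, one_pow, map_one, Module.End.one_apply]
      | succ j ih =>
        rcases Nat.lt_or_ge j k with hjk | hjk
        · refine hdown _ fun u hu => ?_
          rw [show 8 * 2 ^ (k - (j + 1)) = 4 * 2 ^ (k - j) by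
            rw [show k - j = (k - (j + 1)) + 1 by omega, pow_succ]; ring]
          exact ih u hu
        · rwa [show k - (j + 1) = k - j by omega]
    have := this k
    rwa [Nat.sub_self, pow_zero, mul_one] at this
  exact hP.scalar_of_sq hσ (by norm_num) (hpow 2) fun u hu => by
    rw [← Module.End.mul_apply, ← map_mul, ← pow_add, h4 u hu]

end Cfsg.Agent.TwoDer
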