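import Cfsg.Agent.TwoDer.Series
import Cfsg.Agent.Gross.Reflection
import Cfsg.Agent.Perm.Modules
import Mathlib.RingTheory.RootsOfUnity.PrimitiveRoots
import Mathlib.Algebra.CharP.Two

/-!
# A 2-group acting on a projective representation of a symplectic space
-/

set_option autoImplicit false
set_option linter.unusedSectionVars false
set_option linter.style.haveILetI false

namespace Cfsg.Agent.TwoDer

open scoped commutatorElement
open Module LinearMap Cfsg.Agent.Gross

variable {q : ℕ} [Fact q.Prime]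

/-- An element `a * b` of exponent `q` for commuting up to a root of unity. -/
theorem mul_pow_eq_one_of_skew {F A : Type*} [CommRing F] [Ring A] [Algebra F A] {a b : A} {y : F}
    (hq2 : q ≠ 2) (hy : y ^ q = 1) (hba : b * a = y • (a * b)) (ha : a ^ q = 1) (hb : b ^ q = 1) :
    (a * b) ^ q = 1 := by
  have h1 : ∀ n, b ^ n * a = y ^ n • (a * b ^ n) := by
    intro n
    induction n with
    | zero => simp
    | succ n ih =>
      rw [pow_succ b, mul_assoc, hba, mul_smul_comm, ← mul_assoc, ih, smul_mul_assoc, smul_smul, mul_assoc,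
        pow_succ']
  have h2 : ∀ n, (a * b) ^ n = y ^ n.choose 2 • (a ^ n * b ^ n) := by
    intro n
    induction n with
    | zero => simp
    | succ n ih =>
      have hch : (n + 1).choose 2 = n + n.choose 2 := by
        rw [Nat.choose_succ_succ, Nat.choose_one_right]
      rw [pow_succ, ih, smul_mul_assoc, show a ^ n * b ^ n * (a * b) = a ^ n * ((b ^ n * a) * b) by
        simp [mul_assoc], h1, smul_mul_assoc, mul_smul_comm, smul_smul, hch, add_comm, pow_add]
      congr 1
      simp [pow_succ, mul_assoc]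
  obtain ⟨c, hc⟩ := (Fact.out : q.Prime).dvd_choose_self (k := 2) (by norm_num)
    (lt_of_le_of_ne (Fact.out : q.Prime).two_le (Ne.symm hq2))
  rw [h2, ha, hb, mul_one, hc, pow_mul, hy, one_pow, one_smul]

variable {F : Type*} [Field F] {S : Type*} [Group S] {W : Type*} [AddCommGroup W] [Module (ZMod q) W]
  [FiniteDimensional (ZMod q) W] {U : Type*} [AddCommGroup U] [Module F U]

/-- A 2-group acting on a projective representation of a symplectic space. -/
structure IsSys (ζ : F) (B : W →ₗ[ZMod q] W →ₗ[ZMod q] ZMod q) (σ : S →* Module.End (ZMod q) W)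
    (ρ : S →* Module.End F U) (w : W → Module.End F U) : Prop where
  pgroup : IsPGroup 2 S
  ne_two : q ≠ 2
  prim : IsPrimitiveRoot ζ q
  iso : IsIsoRep σ B
  comm : ∀ u v, w u * w v = ζ ^ (B u v).val • (w v * w u)
  mul : ∀ u v, ∃ c : F, w u * w v = c • w (u + v)
  exp : ∀ u, w u ^ q = 1
  conj : ∀ g u, ∃ c : F, ρ g * w u = c • (w (σ g u) * ρ g)

namespace IsSys

variable {ζ : F} {B : W →ₗ[ZMod q] W →ₗ[ZMod q] ZMod q} {σ : S →* Module.End (ZMod q) W}
  {ρ : S →* Module.End F U} {w : W → Module.End F U} [Nontrivial U] (h : IsSys ζ B σ ρ w)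

include h

theorem w_unit (u : W) : IsUnit (w u) :=
  IsUnit.of_pow_eq_one (h.exp u) (Fact.out : q.Prime).ne_zero

theorem rho_unit (g : S) : IsUnit (ρ g) := (Group.isUnit g).map ρ

theorem smul_cancel {x : Module.End F U} (hx : IsUnit x) {c c' : F} (e : c • x = c' • x) : c = c' :=
  smul_left_injective F hx.ne_zero e

theorem zeta_pow_q (k : ℕ) : (ζ ^ k) ^ q = 1 := by
  rw [← pow_mul, mul_comm, pow_mul, h.prim.pow_eq_one, one_pow]

theorem mul_scalar_pow {u v : W} {c : F} (e : w u * w v = c • w (u + v)) : c ^ q = 1 := by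
  have h1 : (w u * w v) ^ q = 1 :=
    mul_pow_eq_one_of_skew h.ne_two (h.zeta_pow_q _) (h.comm v u) (h.exp u) (h.exp v)
  rw [e, smul_pow, h.exp] at h1
  exact smul_left_injective F (one_ne_zero (α := Module.End F U)) (h1.trans (one_smul F _).symm)

theorem exists_w_zero : ∃ c : F, c ^ q = 1 ∧ w 0 = c • 1 := by
  obtain ⟨c, hc⟩ := h.mul 0 0
  rw [add_zero] at hc
  refine ⟨c, ?_, ?_⟩
  · exact h.mul_scalar_pow (u := 0) (v := 0) (by rw [add_zero]; exact hc)
  · refine (h.w_unit 0).mul_right_cancel ?_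
    rw [hc, smul_mul_assoc, one_mul]

theorem exists_w_neg (u : W) : ∃ c : F, c ^ q = 1 ∧ w (-u) = c • w u ^ (q - 1) := by
  obtain ⟨c, hc⟩ := h.mul (-u) u
  obtain ⟨c0, hc0, h0⟩ := h.exists_w_zero
  have hcq := h.mul_scalar_pow hc
  rw [neg_add_cancel, h0, smul_smul] at hc
  refine ⟨c * c0, by rw [mul_pow, hcq, hc0, one_mul], ?_⟩
  have e : w u * w u ^ (q - 1) = 1 := by
    rw [← pow_succ', Nat.sub_add_cancel (Fact.out : q.Prime).one_le, h.exp]
  calc w (-u) = w (-u) * (w u * w u ^ (q - 1)) := by rw [e, mul_one]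
    _ = (w (-u) * w u) * w u ^ (q - 1) := (mul_assoc _ _ _).symm
    _ = _ := by rw [hc, smul_mul_assoc, one_mul]

/-- The scalar of an element determines the vector. -/
theorem eq_of_smul {u u' : W} {c : F} (e : w u = c • w u') : u = u' := by
  haveI : NeZero q := ⟨(Fact.out : q.Prime).ne_zero⟩
  have hB : ∀ v, B v u = B v u' := by
    intro v
    have h1 := h.comm v u
    have h2 : c • (w v * w u') = (ζ ^ (B v u).val * c) • (w u' * w v) := by
      rw [e, mul_smul_comm, smul_mul_assoc, smul_smul] at h1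
      exact h1
    rw [h.comm v u', smul_smul] at h2
    have hc : c ≠ 0 := by
      rintro rfl
      rw [zero_smul] at e
      exact (h.w_unit u).ne_zero e
    have h3 := h.smul_cancel ((h.w_unit u').mul (h.w_unit v)) h2
    rw [mul_comm (ζ ^ _) c] at h3
    exact (ZMod.val_injective q (h.prim.pow_inj (ZMod.val_lt _) (ZMod.val_lt _) (mul_left_cancel₀ hc h3))).symm
  exact sub_eq_zero.1 (h.iso.nondeg _ fun v => by rw [map_sub, hB v, sub_self])

theorem conj_scalar_pow {g : S} {u : W} {c : F} (e : ρ g * w u = c • (w (σ g u) * ρ g)) : c ^ q = 1 := by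
  have hpow : ∀ n, ρ g * w u ^ n = c ^ n • (w (σ g u) ^ n * ρ g) := by
    intro n
    induction n with
    | zero => simp
    | succ n ih =>
      rw [pow_succ (w u), ← mul_assoc, ih, smul_mul_assoc, mul_assoc, e, mul_smul_comm, smul_smul,
        ← mul_assoc, ← pow_succ, ← pow_succ]
  have h1 := hpow q
  rw [h.exp, h.exp, mul_one, one_mul] at h1
  exact (h.smul_cancel (h.rho_unit g) (h1.symm.trans (one_smul F _).symm))

/-- An element fixing `u` commutes with `w u`. -/
theorem commute_of_fixed {g : S} {u : W} (hu : σ g u = u) : ρ g * w u = w u * ρ g := by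
  obtain ⟨c, hc⟩ := h.conj g u
  have hcq := h.conj_scalar_pow hc
  rw [hu] at hc
  have hpow : ∀ n : ℕ, ρ (g ^ n) * w u = c ^ n • (w u * ρ (g ^ n)) := by
    intro n
    induction n with
    | zero => simp
    | succ n ih =>
      rw [pow_succ g, map_mul, mul_assoc, hc, mul_smul_comm, ← mul_assoc, ih, smul_mul_assoc, smul_smul,
        mul_assoc, ← pow_succ']
  obtain ⟨k, hk⟩ := h.pgroup g
  have h1 := hpow (2 ^ k)
  rw [hk, map_one, one_mul, mul_one] at h1
  have h2 : c ^ 2 ^ k = 1 := (h.smul_cancel (h.w_unit u) ((one_smul F _).trans h1)).symm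
  have h3 : c = 1 := by
    have hcop : Nat.gcd q (2 ^ k) = 1 :=
      Nat.Coprime.pow_right k ((Nat.coprime_primes Fact.out Nat.prime_two).2 h.ne_two)
    have := pow_gcd_eq_one.2 ⟨hcq, h2⟩
    rwa [hcop, pow_one] at this
  rw [hc, h3, one_smul]

/-- A normalised lift of a negated vector is inverted. -/
theorem exists_inverted {g : S} {u : W} (hu : σ g u = -u) : ∃ e : F, e ^ q = 1 ∧
    ρ g * (e • w u) = (e • w u) ^ (q - 1) * ρ g := by
  obtain ⟨c, hc⟩ := h.conj g u
  have hcq := h.conj_scalar_pow hc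
  rw [hu] at hc
  obtain ⟨d, hdq, hd⟩ := h.exists_w_neg u
  rw [hd, smul_mul_assoc, smul_smul] at hc
  set k := c * d with hk
  have hkq : k ^ q = 1 := by rw [hk, mul_pow, hcq, hdq, one_mul]
  obtain ⟨r, hr⟩ : Odd q := (Fact.out : q.Prime).odd_of_ne_two h.ne_two
  refine ⟨k ^ r, by rw [← pow_mul, mul_comm, pow_mul, hkq, one_pow], ?_⟩
  rw [mul_smul_comm, hc, smul_smul, smul_pow, smul_mul_assoc]
  congr 1
  obtain ⟨r', rfl⟩ : ∃ r', r = r' + 1 := ⟨r - 1, by have := (Fact.out : q.Prime).two_le; omega⟩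
  have e2 : (k ^ (r' + 1)) ^ (q - 1) = k ^ (r' + 1) * k := by
    rw [← pow_succ, ← pow_mul, show (r' + 1) * (q - 1) = (r' + 1 + 1) + q * r' by
      rw [hr, Nat.add_sub_cancel]; ring, pow_add, pow_mul, hkq, one_pow, mul_one]
  rw [e2]

/-- An element acting trivially on `U` acts trivially on `W`. -/
theorem sigma_eq_one {g : S} (hg : ρ g = 1) : σ g = 1 := by
  refine LinearMap.ext fun u => ?_
  obtain ⟨c, hc⟩ := h.conj g u
  rw [hg, one_mul, mul_one] at hc
  exact (h.eq_of_smul hc).symm

theorem sigma_one_of_fix {g : S} (hg : ∀ x, ρ g x = x) : σ g = 1 :=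
  h.sigma_eq_one (LinearMap.ext hg)

end IsSys

end Cfsg.Agent.TwoDer
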