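import Cfsg.Agent.TwoDer.Sys

/-!
# Restriction of systems
-/

set_option autoImplicit false
set_option linter.unusedSectionVars false
set_option linter.style.haveILetI false

namespace Cfsg.Agent.TwoDer

open scoped commutatorElement
open Module LinearMap Cfsg.Agent.Gross

section alg

variable {F : Type*} [Field F] {U : Type*} [AddCommGroup U] [Module F U]

/-- The operators preserving two submodules. -/
def stabAlg (U1 U0 : Submodule F U) : Subalgebra F (Module.End F U) where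
  carrier := {f | (∀ x ∈ U1, f x ∈ U1) ∧ ∀ x ∈ U0, f x ∈ U0}
  mul_mem' {a b} ha hb := ⟨fun x hx => ha.1 _ (hb.1 x hx), fun x hx => ha.2 _ (hb.2 x hx)⟩
  add_mem' {a b} ha hb := ⟨fun x hx => add_mem (ha.1 x hx) (hb.1 x hx),
    fun x hx => add_mem (ha.2 x hx) (hb.2 x hx)⟩
  algebraMap_mem' c := ⟨fun x hx => by
      rw [Module.algebraMap_end_apply]; exact Submodule.smul_mem _ c hx,
    fun x hx => by rw [Module.algebraMap_end_apply]; exact Submodule.smul_mem _ c hx⟩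

theorem mem_stabAlg {U1 U0 : Submodule F U} {f : Module.End F U} :
    f ∈ stabAlg U1 U0 ↔ (∀ x ∈ U1, f x ∈ U1) ∧ ∀ x ∈ U0, f x ∈ U0 := Iff.rfl

/-- The action on a submodule. -/
def subHom (U1 U0 : Submodule F U) : stabAlg U1 U0 →ₐ[F] Module.End F U1 where
  toFun f := (f : Module.End F U).restrict f.2.1
  map_one' := LinearMap.ext fun x => Subtype.ext rfl
  map_mul' a b := LinearMap.ext fun x => Subtype.ext rfl
  map_zero' := LinearMap.ext fun x => Subtype.ext rfl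
  map_add' a b := LinearMap.ext fun x => Subtype.ext rfl
  commutes' c := LinearMap.ext fun x => Subtype.ext rfl

theorem subHom_apply (U1 U0 : Submodule F U) (f : stabAlg U1 U0) (x : U1) :
    (subHom U1 U0 f x : U) = (f : Module.End F U) x := rfl

/-- The action on a subquotient. -/
def quotHom (U1 U0 : Submodule F U) :
    stabAlg U1 U0 →ₐ[F] Module.End F (↥U1 ⧸ U0.comap U1.subtype) where
  toFun f := (U0.comap U1.subtype).mapQ (U0.comap U1.subtype) (subHom U1 U0 f) fun x hx => f.2.2 _ hx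
  map_one' := Submodule.linearMap_qext _ (LinearMap.ext fun x => rfl)
  map_mul' a b := Submodule.linearMap_qext _ (LinearMap.ext fun x => rfl)
  map_zero' := Submodule.linearMap_qext _ (LinearMap.ext fun x => rfl)
  map_add' a b := Submodule.linearMap_qext _ (LinearMap.ext fun x => rfl)
  commutes' c := Submodule.linearMap_qext _ (LinearMap.ext fun x => rfl)

theorem quotHom_mk (U1 U0 : Submodule F U) (f : stabAlg U1 U0) (x : U1) :
    quotHom U1 U0 f (Submodule.Quotient.mk x) = Submodule.Quotient.mk (subHom U1 U0 f x) := rfl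

end alg

variable {q : ℕ} [Fact q.Prime] {F : Type*} [Field F] {S : Type*} [Group S] {W : Type*} [AddCommGroup W]
  [Module (ZMod q) W] [FiniteDimensional (ZMod q) W] {U : Type*} [AddCommGroup U] [Module F U]
  {ζ : F} {B : W →ₗ[ZMod q] W →ₗ[ZMod q] ZMod q} {σ : S →* Module.End (ZMod q) W}
  {ρ : S →* Module.End F U} {w : W → Module.End F U}

/-- Transport of a system. -/
theorem IsSys.map (h : IsSys ζ B σ ρ w) {S1 : Type*} [Group S1] (φ : S1 →* S) (hp : IsPGroup 2 S1)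
    {W1 : Type*} [AddCommGroup W1] [Module (ZMod q) W1] [FiniteDimensional (ZMod q) W1]
    (j : W1 →ₗ[ZMod q] W) {B1 : W1 →ₗ[ZMod q] W1 →ₗ[ZMod q] ZMod q}
    {σ1 : S1 →* Module.End (ZMod q) W1} (hσ1 : IsIsoRep σ1 B1) (hB : ∀ u v, B (j u) (j v) = B1 u v)
    (hjσ : ∀ g u, j (σ1 g u) = σ (φ g) (j u))
    {A : Subalgebra F (Module.End F U)} {U1 : Type*} [AddCommGroup U1] [Module F U1]
    (Φ : A →ₐ[F] Module.End F U1) (ρ1 : S1 →* Module.End F U1) (w1 : W1 → Module.End F U1)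
    (hA : ∀ g, ρ (φ g) ∈ A) (hρ : ∀ g, ρ1 g = Φ ⟨_, hA g⟩)
    (hA2 : ∀ u, w (j u) ∈ A) (hw : ∀ u, w1 u = Φ ⟨_, hA2 u⟩) :
    IsSys ζ B1 σ1 ρ1 w1 := by
  refine ⟨hp, h.ne_two, h.prim, hσ1, fun u v => ?_, fun u v => ?_, fun u => ?_, fun g u => ?_⟩
  · rw [hw, hw, ← map_mul, ← map_mul, ← map_smul, ← hB]
    exact congrArg Φ (Subtype.ext (h.comm _ _))
  · obtain ⟨c, hc⟩ := h.mul (j u) (j v)
    refine ⟨c, ?_⟩
    rw [hw, hw, hw, ← map_mul, ← map_smul]
    refine congrArg Φ (Subtype.ext ?_)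
    show w (j u) * w (j v) = c • w (j (u + v))
    rw [map_add, hc]
  · rw [hw, ← map_pow, show (⟨_, hA2 u⟩ : A) ^ q = 1 from Subtype.ext (h.exp _), map_one]
  · obtain ⟨c, hc⟩ := h.conj (φ g) (j u)
    refine ⟨c, ?_⟩
    rw [hw, hw, hρ, ← map_mul, ← map_mul, ← map_smul]
    refine congrArg Φ (Subtype.ext ?_)
    show ρ (φ g) * w (j u) = c • (w (j (σ1 g u)) * ρ (φ g))
    rw [hjσ, hc]

/-- Restriction to invariant subspaces. -/
theorem IsSys.exists_restrict (h : IsSys ζ B σ ρ w) (T : Subgroup S) (W1 : Submodule (ZMod q) W)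
    (hW1 : ∀ g ∈ T, ∀ u ∈ W1, σ g u ∈ W1)
    (hnd : ∀ v ∈ W1, (∀ u ∈ W1, B u v = 0) → v = 0) (U1 U0 : Submodule F U)
    (hTU : ∀ g ∈ T, ρ g ∈ stabAlg U1 U0) (hwU : ∀ u ∈ W1, w u ∈ stabAlg U1 U0) :
    ∃ (σ1 : T →* Module.End (ZMod q) W1) (ρ1 : T →* Module.End F (↥U1 ⧸ U0.comap U1.subtype))
      (w1 : W1 → Module.End F (↥U1 ⧸ U0.comap U1.subtype)),
      IsSys ζ (B.compl₁₂ W1.subtype W1.subtype) σ1 ρ1 w1 ∧
      (∀ (g : T) (u : W1), (σ1 g u : W) = σ (g : S) u) ∧
      ∀ (g : T) (x : U1), ∃ hx : ρ (g : S) x ∈ U1,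
        ρ1 g (Submodule.Quotient.mk x) = Submodule.Quotient.mk ⟨ρ (g : S) x, hx⟩ := by
  let σ1 : T →* Module.End (ZMod q) W1 :=
    { toFun := fun g => (σ (g : S)).restrict (hW1 g g.2)
      map_one' := LinearMap.ext fun u => Subtype.ext (by simp)
      map_mul' := fun a b => LinearMap.ext fun u => Subtype.ext (by simp [Module.End.mul_apply]) }
  let ρ0 : T →* stabAlg U1 U0 := (ρ.comp T.subtype).codRestrict (stabAlg U1 U0) fun g => hTU g g.2
  let ρ1 := (quotHom U1 U0).toMonoidHom.comp ρ0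
  let w1 : W1 → Module.End F (↥U1 ⧸ U0.comap U1.subtype) :=
    fun u => quotHom U1 U0 ⟨w (u : W), hwU u u.2⟩
  refine ⟨σ1, ρ1, w1, ?_, fun g u => rfl, fun g x => ⟨(hTU g g.2).1 _ x.2, rfl⟩⟩
  refine h.map T.subtype (h.pgroup.to_subgroup T) W1.subtype ?_ (fun u v => rfl) (fun g u => rfl)
    (quotHom U1 U0) ρ1 w1 (fun g => hTU g g.2) (fun g => rfl) (fun u => hwU u u.2) fun u => rfl
  exact ⟨fun v => h.iso.alt _, fun v hv => Subtype.ext (hnd v v.2 fun u hu => hv ⟨u, hu⟩),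
    fun g u v => h.iso.iso (g : S) u v⟩

/-- The fixed space of the kernel. -/
def fixKer (σ : S →* Module.End (ZMod q) W) (ρ : S →* Module.End F U) : Submodule F U :=
  ⨅ g : σ.ker, ker (ρ (g : S) - 1)

theorem mem_fixKer {x : U} : x ∈ fixKer σ ρ ↔ ∀ g : σ.ker, ρ (g : S) x = x := by
  simp only [fixKer, Submodule.mem_iInf, LinearMap.mem_ker, LinearMap.sub_apply, Module.End.one_apply,
    sub_eq_zero]

/-- A faithful quotient system. -/
theorem IsSys.exists_faithful [Finite S] [CharP F 2] [Nontrivial U] (h : IsSys ζ B σ ρ w) :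
    ∃ (U' : Submodule F U) (_ : Nontrivial U') (σ' : (S ⧸ σ.ker) →* Module.End (ZMod q) W)
      (ρ' : (S ⧸ σ.ker) →* Module.End F U') (w' : W → Module.End F U'),
      IsSys ζ B σ' ρ' w' ∧ Function.Injective σ' ∧ (∀ g : S, σ' g = σ g) ∧
      ∀ (g : S) (x : U'), (ρ' g x : U) = ρ g x := by
  haveI := Fact.mk Nat.prime_two
  set U' := fixKer σ ρ with hU'
  have hρU : ∀ g, ρ g ∈ stabAlg U' ⊥ := fun g => by
    refine ⟨fun x hx => mem_fixKer.2 fun k => ?_, fun x hx => by simp_all⟩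
    have hk : g⁻¹ * (k : S) * g⁻¹⁻¹ ∈ σ.ker := (inferInstance : σ.ker.Normal).conj_mem _ k.2 _
    have h1 := mem_fixKer.1 hx ⟨_, hk⟩
    rw [← Module.End.mul_apply, ← map_mul, show (k : S) * g = g * (g⁻¹ * k * g⁻¹⁻¹) by group, map_mul,
      Module.End.mul_apply, h1]
  have hwU : ∀ u, w u ∈ stabAlg U' ⊥ := fun u => by
    refine ⟨fun x hx => mem_fixKer.2 fun k => ?_, fun x hx => by simp_all⟩
    have hk : σ (k : S) u = u := by rw [MonoidHom.mem_ker.1 k.2, Module.End.one_apply]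
    rw [← Module.End.mul_apply, h.commute_of_fixed hk, Module.End.mul_apply, mem_fixKer.1 hx k]
  haveI : Nontrivial U' := by
    obtain ⟨v, -, hv0, hv⟩ := PermLib.exists_fixed_vector (p := 2) (h.pgroup.to_subgroup σ.ker)
      (ρ.comp σ.ker.subtype) ⊤ (fun _ _ _ => trivial) top_ne_bot
    exact ⟨⟨⟨v, mem_fixKer.2 hv⟩, 0, fun e => hv0 (congrArg Subtype.val e)⟩⟩
  let ρ0 : S →* stabAlg U' ⊥ := ρ.codRestrict (stabAlg U' ⊥) hρU
  let ρU : S →* Module.End F U' := (subHom U' ⊥).toMonoidHom.comp ρ0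
  have hker : σ.ker ≤ ρU.ker := fun k hk => MonoidHom.mem_ker.2 (LinearMap.ext fun x =>
    Subtype.ext (mem_fixKer.1 x.2 ⟨k, hk⟩))
  set σ' := QuotientGroup.lift σ.ker σ le_rfl with hσ'
  set ρ' := QuotientGroup.lift σ.ker ρU hker with hρ'
  let w' : W → Module.End F U' := fun u => subHom U' ⊥ ⟨w u, hwU u⟩
  have hσeq : ∀ g : S, σ' g = σ g := fun g => rfl
  refine ⟨U', inferInstance, σ', ρ', w', ?_, ?_, hσeq, fun g x => rfl⟩
  · refine ⟨h.pgroup.to_quotient σ.ker, h.ne_two, h.prim, ⟨h.iso.alt, h.iso.nondeg, fun g => ?_⟩,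
      fun u v => ?_, fun u v => ?_, fun u => ?_, fun g u => ?_⟩
    · induction g using QuotientGroup.induction_on with
      | H g => exact h.iso.iso g
    · show subHom U' ⊥ _ * subHom U' ⊥ _ = ζ ^ _ • (subHom U' ⊥ _ * subHom U' ⊥ _)
      rw [← map_mul, ← map_mul, ← map_smul]
      exact congrArg _ (Subtype.ext (h.comm u v))
    · obtain ⟨c, hc⟩ := h.mul u v
      refine ⟨c, ?_⟩
      show subHom U' ⊥ _ * subHom U' ⊥ _ = c • subHom U' ⊥ _
      rw [← map_mul, ← map_smul]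
      exact congrArg _ (Subtype.ext hc)
    · show subHom U' ⊥ _ ^ q = 1
      rw [← map_pow, show (⟨w u, hwU u⟩ : stabAlg U' ⊥) ^ q = 1 from Subtype.ext (h.exp u), map_one]
    · induction g using QuotientGroup.induction_on with
      | H g =>
        obtain ⟨c, hc⟩ := h.conj g u
        refine ⟨c, ?_⟩
        show subHom U' ⊥ _ * subHom U' ⊥ _ = c • (subHom U' ⊥ ⟨w (σ g u), _⟩ * subHom U' ⊥ _)
        rw [← map_mul, ← map_mul, ← map_smul]
        exact congrArg _ (Subtype.ext hc)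
  · intro a b
    induction a using QuotientGroup.induction_on with
    | H a =>
      induction b using QuotientGroup.induction_on with
      | H b =>
        intro e
        refine QuotientGroup.eq.2 (MonoidHom.mem_ker.2 ?_)
        rw [map_mul, ← show σ a = σ b from e, ← map_mul, inv_mul_cancel, map_one]

end Cfsg.Agent.TwoDer
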