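import Cfsg.Agent.TwoDer.SysMap
import Cfsg.Agent.Gross.Component

/-!
# The component lemma for a system
-/

set_option autoImplicit false
set_option linter.unusedSectionVars false
set_option linter.style.haveILetI false

namespace Cfsg.Agent.TwoDer

open scoped commutatorElement
open Module LinearMap Cfsg.Agent.Gross

variable {q : ℕ} [Fact q.Prime] {F : Type*} [Field F] {S : Type*} [Group S] {W : Type*} [AddCommGroup W]
  [Module (ZMod q) W] [FiniteDimensional (ZMod q) W] {U : Type*} [AddCommGroup U] [Module F U]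
  [Nontrivial U] {ζ : F} {B : W →ₗ[ZMod q] W →ₗ[ZMod q] ZMod q} {σ : S →* Module.End (ZMod q) W}
  {ρ : S →* Module.End F U} {w : W → Module.End F U}

namespace IsSys

theorem exists_zeta (h : IsSys ζ B σ ρ w) {c : F} (hc : c ^ q = 1) : ∃ i : ℕ, ζ ^ i = c := by
  haveI : NeZero q := ⟨(Fact.out : q.Prime).ne_zero⟩
  obtain ⟨i, -, hi⟩ := h.prim.eq_pow_of_pow_eq_one hc
  exact ⟨i, hi⟩

/-- The group of the pairs `(ζ ^ i w u ρ g, g)`. -/
noncomputable def extGrp (h : IsSys ζ B σ ρ w) : Subgroup ((Module.End F U)ˣ × S) where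
  carrier := {p | ∃ (i : ℕ) (u : W), (p.1 : Module.End F U) = ζ ^ i • (w u * ρ p.2)}
  one_mem' := by
    obtain ⟨c, hc, h0⟩ := h.exists_w_zero
    obtain ⟨i, hi⟩ := h.exists_zeta (c := c⁻¹) (by rw [inv_pow, hc, inv_one])
    refine ⟨i, 0, ?_⟩
    have hne : c ≠ 0 := by
      rintro rfl
      rw [zero_pow (Fact.out : q.Prime).ne_zero] at hc
      exact zero_ne_one hc
    rw [hi, Prod.fst_one, Prod.snd_one, Units.val_one, map_one, mul_one, h0, smul_smul, inv_mul_cancel₀ hne,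
      one_smul]
  mul_mem' := by
    rintro a b ⟨i, u, ha⟩ ⟨j, v, hb⟩
    obtain ⟨c, hc⟩ := h.conj a.2 v
    obtain ⟨c', hc'⟩ := h.mul u (σ a.2 v)
    obtain ⟨k, hk⟩ := h.exists_zeta (c := c * c')
      (by rw [mul_pow, h.conj_scalar_pow hc, h.mul_scalar_pow hc', one_mul])
    refine ⟨i + j + k, u + σ a.2 v, ?_⟩
    rw [Prod.fst_mul, Prod.snd_mul, Units.val_mul, ha, hb, smul_mul_assoc, mul_smul_comm, smul_smul,
      show w u * ρ a.2 * (w v * ρ b.2) = w u * (ρ a.2 * w v) * ρ b.2 by simp [mul_assoc], hc, mul_smul_comm,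
      smul_mul_assoc, smul_smul,
      show w u * (w (σ a.2 v) * ρ a.2) * ρ b.2 = w u * w (σ a.2 v) * (ρ a.2 * ρ b.2) by simp [mul_assoc],
      hc', smul_mul_assoc, smul_smul, ← map_mul, pow_add, pow_add, hk]
    congr 1
    ring
  inv_mem' := by
    rintro a ⟨i, u, ha⟩
    set v := σ a.2⁻¹ (-u) with hv
    obtain ⟨c, hc⟩ := h.conj a.2 v
    have hv' : σ a.2 v = -u := by rw [hv, ← Module.End.mul_apply, ← map_mul, mul_inv_cancel, map_one]; rfl
    rw [hv'] at hc
    obtain ⟨c', hc'⟩ := h.mul u (-u)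
    obtain ⟨c0, hc0, h0⟩ := h.exists_w_zero
    have hcq : c ^ q = 1 := h.conj_scalar_pow (g := a.2) (u := v) (by rw [hv']; exact hc)
    set s := ζ ^ i * c * c' * c0 with hs
    have hsq : s ^ q = 1 := by
      rw [hs, mul_pow, mul_pow, mul_pow, h.zeta_pow_q, hcq, h.mul_scalar_pow hc', hc0]; ring
    have hs0 : s ≠ 0 := by
      intro e
      rw [e, zero_pow (Fact.out : q.Prime).ne_zero] at hsq
      exact zero_ne_one hsq
    obtain ⟨k, hk⟩ := h.exists_zeta (c := s⁻¹) (by rw [inv_pow, hsq, inv_one])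
    refine ⟨k, v, ?_⟩
    rw [Prod.fst_inv, Prod.snd_inv]
    refine Units.inv_eq_of_mul_eq_one_right ?_
    rw [ha, smul_mul_assoc, mul_smul_comm, smul_smul,
      show w u * ρ a.2 * (w v * ρ a.2⁻¹) = w u * (ρ a.2 * w v) * ρ a.2⁻¹ by simp [mul_assoc], hc,
      mul_smul_comm, smul_mul_assoc, smul_smul,
      show w u * (w (-u) * ρ a.2) * ρ a.2⁻¹ = w u * w (-u) * (ρ a.2 * ρ a.2⁻¹) by simp [mul_assoc],
      ← map_mul, mul_inv_cancel, map_one, mul_one, hc', add_neg_cancel, h0, smul_smul, smul_smul, hk]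
    rw [show ζ ^ i * s⁻¹ * c * c' * c0 = s * s⁻¹ by rw [hs]; ring, mul_inv_cancel₀ hs0, one_smul]

theorem mem_extGrp {h : IsSys ζ B σ ρ w} {p : (Module.End F U)ˣ × S} :
    p ∈ h.extGrp ↔ ∃ (i : ℕ) (u : W), (p.1 : Module.End F U) = ζ ^ i • (w u * ρ p.2) := Iff.rfl

theorem finite_extGrp [Finite S] (h : IsSys ζ B σ ρ w) : Finite h.extGrp := by
  haveI : NeZero q := ⟨(Fact.out : q.Prime).ne_zero⟩
  haveI : Finite W := Module.finite_of_finite (ZMod q)
  have key : ∀ p : h.extGrp, ∃ x : Fin q × W × S, (p.1.1 : Module.End F U) = ζ ^ (x.1 : ℕ) • (w x.2.1 * ρ x.2.2) ∧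
      x.2.2 = p.1.2 := fun p => by
    obtain ⟨i, u, e⟩ := p.2
    refine ⟨(⟨i % q, Nat.mod_lt _ (Fact.out : q.Prime).pos⟩, u, p.1.2), ?_, rfl⟩
    rw [e]
    congr 1
    exact pow_eq_pow_mod i h.prim.pow_eq_one
  refine Finite.of_injective (fun p => (key p).choose) fun p p' e => ?_
  have h1 := (key p).choose_spec
  have h2 := (key p').choose_spec
  simp only at e
  rw [e] at h1
  exact Subtype.ext (Prod.ext (Units.ext (h1.1.trans h2.1.symm)) (h1.2.symm.trans h2.2))

end IsSys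

set_option maxHeartbeats 1600000 in
/-- **The component lemma for a system.** -/
theorem IsSys.refl [Finite S] [CharP F 2] [FiniteDimensional F U] (h : IsSys ζ B σ ρ w) {y : S} {n : ℕ}
    (hn : 1 ≤ n) (hy : y ^ 2 ^ n = 1) (hexc : (ρ y - 1) ^ (2 ^ n - 1) = 0)
    (hτ : σ (y ^ 2 ^ (n - 1)) ≠ 1) : IsReflPrime q n ∧ IsRefl σ n y := by
  haveI : NeZero q := ⟨(Fact.out : q.Prime).ne_zero⟩
  haveI : Finite h.extGrp := h.finite_extGrp
  set sndHom : h.extGrp →* S := (MonoidHom.snd _ S).comp h.extGrp.subtype with hsnd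
  set K := sndHom.ker with hK
  have hrep : ∀ k ∈ K, ∃ (c : F) (u : W), ((k : h.extGrp).1.1 : Module.End F U) = c • w u := by
    intro k hk
    obtain ⟨i, u, e⟩ := k.2
    refine ⟨ζ ^ i, u, ?_⟩
    rw [e, show k.1.2 = 1 from hk, map_one, mul_one]
  have hne : ∀ (p : h.extGrp) {c : F} {x : Module.End F U}, (p.1.1 : Module.End F U) = c • x → c ≠ 0 := by
    rintro p c x e rfl
    rw [zero_smul] at e
    exact p.1.1.ne_zero e
  have hexp : ∀ k ∈ K, k ^ q = 1 := fun k hk => by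
    obtain ⟨i, u, e⟩ := k.2
    refine Subtype.ext (Prod.ext (Units.ext ?_) ?_)
    · show ((k.1.1 : Module.End F U)) ^ q = 1
      rw [e, show k.1.2 = 1 from hk, map_one, mul_one, smul_pow, h.zeta_pow_q, h.exp, one_smul]
    · show k.1.2 ^ q = 1
      rw [show k.1.2 = 1 from hk, one_pow]
  -- the commutators of `K` are scalars
  have hcom : ∀ a ∈ K, ∀ b ∈ K, ∀ (c c' : F) (u v : W), (a.1.1 : Module.End F U) = c • w u →
      (b.1.1 : Module.End F U) = c' • w v →
      ((⁅a, b⁆ : h.extGrp).1.1 : Module.End F U) = ζ ^ (B u v).val • 1 := by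
    intro a _ b _ c c' u v ea eb
    have e1 : (a.1.1 : Module.End F U) * b.1.1 = (ζ ^ (B u v).val • 1) * (b.1.1 * a.1.1) := by
      rw [ea, eb, smul_mul_assoc, mul_smul_comm, smul_smul, h.comm, smul_smul, smul_mul_assoc, one_mul,
        smul_mul_assoc, mul_smul_comm, smul_smul, smul_smul]
      congr 1; ring
    show ((⁅a.1.1, b.1.1⁆ : (Module.End F U)ˣ) : Module.End F U) = _
    rw [commutatorElement_def, Units.val_mul, Units.val_mul, Units.val_mul, e1]
    simp [mul_assoc]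
  have hscal : ∀ (a b : h.extGrp) (c : F), (a.1.1 : Module.End F U) = c • 1 → a.1.2 = 1 → Commute a b :=
    fun a b c e ea => Subtype.ext (Prod.ext (Units.ext (by
      show (a.1.1 : Module.End F U) * b.1.1 = b.1.1 * a.1.1
      rw [e, smul_mul_assoc, one_mul, mul_smul_comm, mul_one])) (by
      show a.1.2 * b.1.2 = b.1.2 * a.1.2
      rw [ea, one_mul, mul_one]))
  have hcls : ∀ a ∈ K, ∀ b ∈ K, ∀ c ∈ K, Commute ⁅a, b⁆ c := fun a ha b hb c _ => by
    obtain ⟨ca, u, ea⟩ := hrep a ha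
    obtain ⟨cb, v, eb⟩ := hrep b hb
    exact hscal _ _ _ (hcom a ha b hb ca cb u v ea eb) (by
      show ⁅a.1.2, b.1.2⁆ = 1
      rw [show a.1.2 = 1 from ha, commutatorElement_one_left])
  -- a lift of every vector
  have hκ : ∀ u : W, ∃ k : h.extGrp, k ∈ K ∧ (k.1.1 : Module.End F U) = w u := fun u =>
    ⟨⟨((h.w_unit u).unit, 1), 0, u, by rw [pow_zero, one_smul, map_one, mul_one, IsUnit.unit_spec]⟩,
      rfl, IsUnit.unit_spec _⟩
  choose κ hκK hκw using hκ
  have hzc : ∀ z : ↥(K ⊓ Subgroup.centralizer (K : Set h.extGrp)),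
      ∃ c : F, ((z : h.extGrp).1.1 : Module.End F U) = c • 1 := by
    intro z
    obtain ⟨c, u, e⟩ := hrep _ z.2.1
    have hu : u = 0 := by
      refine h.iso.nondeg u fun v => ?_
      have h1 := congrArg (fun p : h.extGrp => (p.1.1 : Module.End F U))
        (Subgroup.mem_centralizer_iff.1 z.2.2 _ (hκK v))
      change ((κ v).1.1 : Module.End F U) * (z : h.extGrp).1.1 = (z : h.extGrp).1.1 * (κ v).1.1 at h1
      rw [hκw, e, mul_smul_comm, smul_mul_assoc, h.comm v u, smul_smul] at h1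
      have h2 := h.smul_cancel ((h.w_unit u).mul (h.w_unit v)) h1
      have h3 : ζ ^ (B v u).val = ζ ^ 0 := by
        rw [pow_zero]
        exact mul_left_cancel₀ (hne _ e) (h2.trans (mul_one c).symm)
      simpa using h.prim.pow_inj (ZMod.val_lt _) (Fact.out : q.Prime).pos h3
    obtain ⟨c0, -, h0⟩ := h.exists_w_zero
    exact ⟨c * c0, by rw [e, hu, h0, smul_smul]⟩
  choose χ0 hχ0 using hzc
  have hχu : ∀ (z : ↥(K ⊓ Subgroup.centralizer (K : Set h.extGrp))) {c : F}, ((z : h.extGrp).1.1 : Module.End F U) = c • 1 → χ0 z = c := fun z c e =>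
    h.smul_cancel isUnit_one ((hχ0 z).symm.trans e)
  let χ : ↥(K ⊓ Subgroup.centralizer (K : Set h.extGrp)) →* F :=
    { toFun := χ0
      map_one' := hχu 1 (by rw [one_smul]; rfl)
      map_mul' := fun a b => hχu (a * b) (by
        show ((a : h.extGrp).1.1 : Module.End F U) * (b : h.extGrp).1.1 = _
        rw [hχ0, hχ0, smul_mul_assoc, one_mul, smul_smul]) }
  let d : CharData h.extGrp F q :=
    { K := K
      normal := inferInstance
      exp := hexp
      cls := hcls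
      χ := χ
      inv := fun g z z' e => hχu z' (by
        rw [e]
        show (g.1.1 : Module.End F U) * (z : h.extGrp).1.1 * ↑(g.1.1⁻¹) = _
        rw [hχ0, mul_smul_comm, mul_one, smul_mul_assoc, Units.mul_inv]
        rfl)
      ζ := ζ
      prim := h.prim }
  have hpf : ∀ (k l : d.K) (c c' : F) (u v : W), ((k : h.extGrp).1.1 : Module.End F U) = c • w u →
      ((l : h.extGrp).1.1 : Module.End F U) = c' • w v → d.pf k l = B u v := by
    intro k l c c' u v ek el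
    show d.lg (χ0 _) = _
    rw [hχu _ (hcom _ k.2 _ l.2 c c' u v ek el)]
    exact (d.lg_pow _).trans (ZMod.natCast_zmod_val _)
  let Φ0 : W → d.bar := fun u => d.cls' ⟨κ u, hκK u⟩
  have hcls' : ∀ (k : d.K) (c : F) (u : W), ((k : h.extGrp).1.1 : Module.End F U) = c • w u →
      d.cls' k = Φ0 u := by
    intro k c u ek
    refine Subtype.ext (funext fun l => ?_)
    obtain ⟨c', v, el⟩ := hrep _ l.2
    show d.pf k l = d.pf _ l
    rw [hpf k l c c' u v ek el, hpf _ l 1 c' u v (by rw [one_smul]; exact hκw u) el]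
  have hΦadd : ∀ u v, Φ0 (u + v) = Φ0 u + Φ0 v := by
    intro u v
    obtain ⟨c, hc⟩ := h.mul u v
    rw [← d.cls_mul]
    refine (hcls' _ c (u + v) ?_).symm
    show ((κ u).1.1 : Module.End F U) * (κ v).1.1 = _
    rw [hκw, hκw, hc]
  let Φl : W →ₗ[ZMod q] d.bar := (AddMonoidHom.mk' Φ0 hΦadd).toZModLinearMap q
  have hΦform : ∀ u v, d.form (Φl u) (Φl v) = B u v := fun u v => by
    show d.form (d.cls' _) (d.cls' _) = _
    rw [d.form_cls, hpf _ _ 1 1 u v (by rw [one_smul]; exact hκw u) (by rw [one_smul]; exact hκw v)]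
  have hΦinj : Function.Injective Φl := by
    refine (injective_iff_map_eq_zero Φl).2 fun u hu => ?_
    refine h.iso.nondeg u fun v => ?_
    have := hΦform v u
    rw [hu, map_zero] at this
    exact this.symm
  have hΦsurj : Function.Surjective Φl := fun x => by
    obtain ⟨k, rfl⟩ := d.exists_cls x
    obtain ⟨c, u, e⟩ := hrep _ k.2
    exact ⟨u, (hcls' k c u e).symm⟩
  have hΦact : ∀ (p : h.extGrp) (u : W), d.act p (Φl u) = Φl (σ p.1.2 u) := by
    intro p u
    show d.act p (d.cls' _) = Φ0 _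
    rw [d.act_cls]
    obtain ⟨i, a, ep⟩ := p.2
    obtain ⟨c, hc⟩ := h.conj p.1.2 u
    refine hcls' _ (c * ζ ^ (B a (σ p.1.2 u)).val) _ ?_
    show (p.1.1 : Module.End F U) * (κ u).1.1 * ↑(p.1.1⁻¹) = _
    rw [hκw, Units.mul_inv_eq_iff_eq_mul, ep, smul_mul_assoc, mul_assoc, hc, mul_smul_comm,
      ← mul_assoc, h.comm a, smul_mul_assoc, smul_mul_assoc, mul_smul_comm, smul_smul, smul_smul, smul_smul,
      mul_assoc]
    congr 1; ring
  obtain ⟨y', hy'2, hy'1⟩ : ∃ y' : h.extGrp, y'.1.2 = y ∧ (y'.1.1 : Module.End F U) = ρ y := by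
    obtain ⟨c0, hc0, h0⟩ := h.exists_w_zero
    obtain ⟨i, hi⟩ := h.exists_zeta (c := c0⁻¹) (by rw [inv_pow, hc0, inv_one])
    have hc0' : c0 ≠ 0 := by
      rintro rfl
      rw [zero_pow (Fact.out : q.Prime).ne_zero] at hc0
      exact zero_ne_one hc0
    exact ⟨⟨((h.rho_unit y).unit, y), i, 0, by
      rw [IsUnit.unit_spec, hi, h0, smul_mul_assoc, one_mul, smul_smul, inv_mul_cancel₀ hc0', one_smul]⟩,
      rfl, IsUnit.unit_spec _⟩
  let π : h.extGrp →* Module.End F U :=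
    (Units.coeHom _).comp ((MonoidHom.fst _ S).comp h.extGrp.subtype)
  have hpow2 : ∀ k : ℕ, (y' ^ k).1.2 = y ^ k := fun k => by
    rw [← hy'2]; rfl
  have hyn : y' ^ 2 ^ n = 1 := Subtype.ext (Prod.ext (Units.ext (by
    show (y'.1.1 : Module.End F U) ^ 2 ^ n = 1
    rw [hy'1, ← map_pow, hy, map_one])) (by rw [hpow2, hy]; rfl))
  have hexc' : (π y' - 1) ^ (2 ^ n - 1) = 0 := by
    show ((y'.1.1 : Module.End F U) - 1) ^ _ = 0
    rw [hy'1, hexc]
  have hτ' : d.act (y' ^ 2 ^ (n - 1)) ≠ 1 := fun e => hτ (LinearMap.ext fun u => hΦinj (by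
    rw [← hpow2, ← hΦact, e]; rfl))
  obtain ⟨hm, hr⟩ := component_refl (d := d) (ρ := π)
    (fun z v => LinearMap.congr_fun (hχ0 z) v) h.ne_two hn hyn hexc' hτ'
  have hmoved : (moved σ y).map Φl = moved d.act y' := by
    refine le_antisymm ?_ ?_
    · rintro _ ⟨_, ⟨u, rfl⟩, rfl⟩
      refine ⟨Φl u, ?_⟩
      simp only [LinearMap.sub_apply, Module.End.one_apply, map_sub, hΦact, hy'2]
    · rintro _ ⟨x, rfl⟩
      obtain ⟨u, rfl⟩ := hΦsurj x
      refine ⟨σ y u - u, sub_mem_moved σ y u, ?_⟩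
      simp only [LinearMap.sub_apply, Module.End.one_apply, map_sub, hΦact, hy'2]
  refine ⟨hm, ?_, fun v hv => hΦinj ?_⟩
  · rw [(Submodule.equivMapOfInjective _ hΦinj (moved σ y)).finrank_eq, hmoved]
    exact hr.dim
  · rw [map_neg, ← hpow2, ← hΦact]
    exact hr.neg _ (hmoved ▸ Submodule.mem_map_of_mem hv)

end Cfsg.Agent.TwoDer
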